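import Cfsg.Agent.H21.RG9

set_option autoImplicit false
set_option linter.all false

/-!
Regular linear groups over the prime field, part 10 (helper21): the exceptional groups.
-/

universe u v w

namespace Cfsg.Agent.H21.RG

/-- an outer automorphism of the quaternion group -/
def tau : MulAut Q8 where
  toFun := fun u => match u with
    | QuaternionGroup.a i => QuaternionGroup.a i
    | QuaternionGroup.xa i => QuaternionGroup.xa (i + 1)
  invFun := fun u => match u with
    | QuaternionGroup.a i => QuaternionGroup.a i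
    | QuaternionGroup.xa i => QuaternionGroup.xa (i - 1)
  left_inv := by intro u; revert u; decide
  right_inv := by intro u; revert u; decide
  map_mul' := by intro u v; revert u v; decide +kernel

theorem sign_tau : Equiv.Perm.sign (MulAut.toPerm Q8 tau) = -1 := by decide +kernel

section exc
variable {G : Type u} [Group G] [Finite G] {A R : Subgroup G} {e : R ≃* Q8}

theorem idx_two_of_24 (R : Subgroup G) [R.Normal] (e : R ≃* Q8) (h : Nat.card (psi R e).range = 24) :
    ∃ N : Subgroup G, N.Normal ∧ N.index = 2 := by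
  have h1 : (psi R e).range = ⊤ := by
    apply Subgroup.eq_top_of_le_card
    rw [h]
    exact card_mulAut_le
  have h2 : tau ∈ (psi R e).range := by rw [h1]; exact Subgroup.mem_top _
  obtain ⟨g, hg⟩ := h2
  let f : G →* ℤˣ := Equiv.Perm.sign.comp ((MulAut.toPerm Q8).comp (psi R e))
  have hfg : f g = -1 := by
    show Equiv.Perm.sign (MulAut.toPerm Q8 (psi R e g)) = -1
    rw [hg]
    exact sign_tau
  refine ⟨f.ker, inferInstance, ?_⟩
  rw [Subgroup.index_ker]
  have h3 : f.range = ⊤ := by
    rw [eq_top_iff]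
    intro x _
    rcases Int.units_eq_one_or x with rfl | rfl
    · exact Subgroup.one_mem _
    · exact ⟨g, hfg⟩
  rw [h3, Subgroup.card_top]
  rw [Nat.card_eq_fintype_card]
  rfl

/-- the relations of the binary tetrahedral group -/
theorem exists_BT [hR : R.Normal] (e : R ≃* Q8) {r : G} (hr : orderOf r = 3) (hrR : r ∉ Subgroup.centralizer (R : Set G)) :
    ∃ i ∈ R, ∃ j ∈ R, H18.BT i j r ∧ i * i ≠ 1 := by
  have h0 : psi R e r ≠ 1 := fun h => hrR ((psi_eq_one R e r).1 h)
  set φ := psi R e r with hφ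
  have h3 : ∀ u, φ (φ (φ u)) = u := by
    intro u
    have h1 : φ ^ 3 = 1 := by
      rw [hφ, ← map_pow]
      have := pow_orderOf_eq_one r
      rw [hr] at this
      rw [this, map_one]
    have h2 : (φ * φ * φ) u = u := by
      rw [pow_succ, pow_two] at h1
      rw [h1]; rfl
    exact h2
  have hord : ∀ (u : Q8), u * u ≠ 1 → φ u * φ u ≠ 1 := by
    intro u hu h
    rw [← map_mul, map_eq_one_iff φ φ.injective] at h
    exact hu h
  -- an element moved
  obtain ⟨i, hi, hmv⟩ : ∃ i : Q8, i * i ≠ 1 ∧ φ i ≠ i := by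
    by_contra hcon
    push Not at hcon
    apply h0
    apply mulAut_ext
    · rw [hcon _ (by decide)]; rfl
    · rw [hcon _ (by decide)]; rfl
  have hmv2 : φ i ≠ i⁻¹ := by
    intro h
    have h1 : φ (φ i) = i := by rw [h, map_inv, h, inv_inv]
    have h2 := h3 i
    rw [h1] at h2
    exact hmv h2
  -- the third element
  have k1 : φ (φ i) ≠ i := by
    intro h
    have h2 := h3 i
    rw [h] at h2
    exact hmv h2
  have k2 : φ (φ i) ≠ i⁻¹ := by
    intro h
    have h2 := h3 i
    rw [h, map_inv] at h2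
    exact hmv2 (inv_eq_iff_eq_inv.1 h2)
  have k3 : φ (φ i) ≠ φ i := fun h => hmv (φ.injective h)
  have k4 : φ (φ i) ≠ (φ i)⁻¹ := by
    intro h
    rw [← map_inv] at h
    exact hmv2 (φ.injective h)
  have k5 := q8_key i (φ i) (φ (φ i)) hi (hord i hi) (hord _ (hord i hi)) hmv hmv2 k1 k2 k3 k4
  obtain ⟨i', hi', hj', hii', hij1, hij2⟩ : ∃ i' : Q8, φ i' = φ i' ∧ φ (φ i') = i' * φ i' ∧ i' * i' ≠ 1 ∧ φ i' ≠ i' ∧ φ i' ≠ i'⁻¹ := by
    rcases k5 with k5 | k5
    · exact ⟨i, rfl, k5, hi, hmv, hmv2⟩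
    · refine ⟨i⁻¹, rfl, ?_, ?_, ?_, ?_⟩
      · rw [map_inv, map_inv, k5, inv_inv]
        exact (q8_rel i (φ i) hi (hord i hi) hmv hmv2).2.2.2.2
      · intro h
        apply hi
        rw [← inv_inj, mul_inv_rev, h, inv_one]
      · rw [map_inv]
        intro h
        exact hmv (inv_injective h)
      · rw [map_inv]
        intro h
        rw [inv_inv] at h
        exact hmv2 (inv_eq_iff_eq_inv.1 h)
  obtain ⟨r1, r2, r3, -, -⟩ := q8_rel i' (φ i') hii' (hord _ hii') hij1 hij2
  have hphi : ∀ u : Q8, r * (e.symm u : G) * r⁻¹ = (e.symm (φ u) : G) := by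
    intro u
    have h1 := psi_apply R e r (e.symm u)
    rw [MulEquiv.apply_symm_apply, ← hφ] at h1
    rw [h1, MulEquiv.symm_apply_apply]
  refine ⟨(e.symm i' : G), (e.symm i').2, (e.symm (φ i') : G), (e.symm (φ i')).2, ⟨?_, ?_, ?_, ?_, ?_, ?_⟩, ?_⟩
  · have h1 : (e.symm i') ^ 4 = 1 := by rw [← map_pow, r1, map_one]
    exact congrArg Subtype.val h1
  · have h1 : e.symm (φ i') * e.symm (φ i') = e.symm i' * e.symm i' := by rw [← map_mul, r2, map_mul]
    exact congrArg Subtype.val h1
  · have h1 : e.symm (φ i') * e.symm i' * (e.symm (φ i'))⁻¹ = (e.symm i')⁻¹ := by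
      rw [← map_inv, ← map_mul, ← map_mul, r3, map_inv]
    exact congrArg Subtype.val h1
  · exact hphi i'
  · rw [hphi, hj', map_mul]; rfl
  · have := pow_orderOf_eq_one r
    rwa [hr] at this
  · intro h
    have h1 : e.symm i' * e.symm i' = 1 := Subtype.ext h
    rw [← map_mul, map_eq_one_iff _ e.symm.injective] at h1
    exact hii' h1

/-- order 120 -/
theorem sl23_prod [hR : R.Normal] (E : Exc A R e) (hA : Subgroup.centralizer (A : Set G) = ⊤) (hG : Nat.card G = 120)
    (hA10 : Nat.card A = 10) : Nonempty (G ≃* Matrix.SpecialLinearGroup (Fin 2) (ZMod 3) × Multiplicative (ZMod 5)) := by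
  classical
  haveI : Fact (Nat.Prime 3) := ⟨Nat.prime_three⟩
  haveI : Fact (Nat.Prime 5) := ⟨by norm_num⟩
  obtain ⟨r, hr⟩ := exists_prime_orderOf_dvd_card' (G := G) 3 (by rw [hG]; norm_num)
  have hrR : r ∉ Subgroup.centralizer (R : Set G) := by
    intro h
    have h1 : r ∈ A := by
      rw [← E.inter, hA, top_inf_eq]; exact h
    have h2 := Subgroup.orderOf_dvd_natCard A h1
    rw [hr, hA10] at h2
    revert h2; norm_num
  obtain ⟨i, hi, j, hj, B, hii⟩ := exists_BT e hr hrR
  obtain ⟨c, hc⟩ := exists_prime_orderOf_dvd_card' (G := A) 5 (by rw [hA10]; norm_num)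
  have hc' : orderOf (c : G) = 5 := by rw [Subgroup.orderOf_coe]; exact hc
  have hcen : ∀ g : G, g * c = c * g := by
    intro g
    have : g ∈ Subgroup.centralizer (A : Set G) := by rw [hA]; exact Subgroup.mem_top g
    rw [Subgroup.mem_centralizer_iff] at this
    exact (this c c.2).symm
  set H := H18.BT.sub i j r with hH
  have hH24 : Nat.card H = 24 := B.card_sub hii
  have hZ5 : Nat.card (Subgroup.zpowers (c : G)) = 5 := by rw [Nat.card_zpowers, hc']
  let F : H × Subgroup.zpowers (c : G) →* G := MonoidHom.noncommCoprod H.subtype (Subgroup.zpowers (c : G)).subtype (by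
    rintro ⟨h, hh⟩ ⟨z, hz⟩
    obtain ⟨k, rfl⟩ := Subgroup.mem_zpowers_iff.1 hz
    show Commute h ((c : G) ^ k)
    exact (show Commute h (c : G) from hcen h).zpow_right k)
  have hF : Function.Injective F := by
    rw [injective_iff_map_eq_one]
    rintro ⟨⟨h, hh⟩, ⟨z, hz⟩⟩ h1
    have h2 : h * z = 1 := h1
    have h3 : z = h⁻¹ := by rw [eq_inv_iff_mul_eq_one]; 
                            obtain ⟨k, rfl⟩ := Subgroup.mem_zpowers_iff.1 hz
                            rw [← h2]
                            exact ((show Commute h (c : G) from hcen h).zpow_right k).symm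
    have h4 : orderOf z ∣ 24 := by
      rw [h3, orderOf_inv, ← hH24]
      exact Subgroup.orderOf_dvd_natCard H hh
    have h5 : orderOf z ∣ 5 := by
      rw [← hZ5]
      exact Subgroup.orderOf_dvd_natCard _ hz
    have h6 := Nat.eq_one_of_dvd_coprimes (by norm_num : Nat.Coprime 24 5) h4 h5
    rw [orderOf_eq_one_iff] at h6
    have h7 : h = 1 := by rw [h6, mul_one] at h2; exact h2
    exact Prod.ext (Subtype.ext h7) (Subtype.ext h6)
  have hFb : Function.Bijective F := by
    apply (Nat.bijective_iff_injective_and_card F).2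
    refine ⟨hF, ?_⟩
    rw [Nat.card_prod, hH24, hZ5, hG]
  have e1 : Nonempty (H ≃* Matrix.SpecialLinearGroup (Fin 2) (ZMod 3)) := by
    have hiH : i ∈ H := Subgroup.mem_sup_left (Subgroup.mem_sup_left (Subgroup.mem_zpowers i))
    have hjH : j ∈ H := Subgroup.mem_sup_left (Subgroup.mem_sup_right (Subgroup.mem_zpowers j))
    have hrH : r ∈ H := Subgroup.mem_sup_right (Subgroup.mem_zpowers r)
    have B' : H18.BT (⟨i, hiH⟩ : H) ⟨j, hjH⟩ ⟨r, hrH⟩ :=
      ⟨Subtype.ext B.i4, Subtype.ext B.jj, Subtype.ext B.conj, Subtype.ext B.ri, Subtype.ext B.rj, Subtype.ext B.r3⟩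
    exact B'.equiv_SL23 (fun h => hii (congrArg Subtype.val h)) hH24
  obtain ⟨e1⟩ := e1
  have e2 : Subgroup.zpowers (c : G) ≃* Multiplicative (ZMod 5) := by
    apply mulEquivOfPrimeCardEq (p := 5) hZ5
    rw [Nat.card_congr Multiplicative.toAdd, Nat.card_zmod]
  exact ⟨(MulEquiv.ofBijective F hFb).symm.trans (e1.prodCongr e2)⟩

theorem sl23_of [hR : R.Normal] (E : Exc A R e) (hA : Subgroup.centralizer (A : Set G) = ⊤) (hG : Nat.card G = 24)
    (hA10 : Nat.card A = 2) : Nonempty (G ≃* Matrix.SpecialLinearGroup (Fin 2) (ZMod 3)) := by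
  classical
  haveI : Fact (Nat.Prime 3) := ⟨Nat.prime_three⟩
  obtain ⟨r, hr⟩ := exists_prime_orderOf_dvd_card' (G := G) 3 (by rw [hG]; norm_num)
  have hrR : r ∉ Subgroup.centralizer (R : Set G) := by
    intro h
    have h1 : r ∈ A := by
      rw [← E.inter, hA, top_inf_eq]; exact h
    have h2 := Subgroup.orderOf_dvd_natCard A h1
    rw [hr, hA10] at h2
    revert h2; norm_num
  obtain ⟨i, hi, j, hj, B, hii⟩ := exists_BT e hr hrR
  exact B.equiv_SL23 hii hG

end exc

end Cfsg.Agent.H21.RG
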