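import Cfsg.Agent.H21.RG3

set_option autoImplicit false
set_option linter.all false

/-!
Regular linear groups over the prime field, part 4 (helper21): automorphisms of the quaternion group.
-/

universe u v w

namespace Cfsg.Agent.H21.RG

abbrev Q8 := QuaternionGroup 2

theorem q8_gen : ∀ u : Q8, ∃ i j : Fin 4, u = (QuaternionGroup.a 1) ^ (i : ℕ) * (QuaternionGroup.xa 0) ^ (j : ℕ) := by
  decide +kernel

theorem q8_center : ∀ z : Q8, (∀ a : Q8, a * z = z * a) ↔ (z = 1 ∨ z = QuaternionGroup.a 2) := by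
  decide +kernel

theorem q8_inv (u : Q8) : u * u = 1 ↔ (u = 1 ∨ u = QuaternionGroup.a 2) := by
  revert u; decide +kernel

theorem q8_sq (u : Q8) : u * u ≠ 1 → u * u = QuaternionGroup.a 2 := by
  revert u; decide +kernel

theorem q8_conj (u : Q8) : u * u ≠ 1 → ∃ v, v * u * v⁻¹ = u⁻¹ := by
  revert u; decide +kernel

theorem q8_key : ∀ u w u' : Q8, u * u ≠ 1 → w * w ≠ 1 → u' * u' ≠ 1 → w ≠ u → w ≠ u⁻¹ →
    u' ≠ u → u' ≠ u⁻¹ → u' ≠ w → u' ≠ w⁻¹ → u' = u * w ∨ u' = (u * w)⁻¹ := by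
  decide +kernel

theorem q8_rel : ∀ i j : Q8, i * i ≠ 1 → j * j ≠ 1 → j ≠ i → j ≠ i⁻¹ → i ^ 4 = 1 ∧ j * j = i * i ∧ j * i * j⁻¹ = i⁻¹ ∧ (i * j)⁻¹ = i⁻¹ * (j⁻¹)⁻¹ ∧ i * j = i⁻¹ * j⁻¹ := by
  decide +kernel

theorem q8_six : Fintype.card {u : Q8 // u * u ≠ 1} = 6 := by decide +kernel

theorem q8_card : Nat.card Q8 = 8 := by rw [Nat.card_eq_fintype_card]; decide +kernel

theorem mulAut_ext {φ ψ : MulAut Q8} (h1 : φ (QuaternionGroup.a 1) = ψ (QuaternionGroup.a 1)) (h2 : φ (QuaternionGroup.xa 0) = ψ (QuaternionGroup.xa 0)) : φ = ψ := by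
  apply MulEquiv.ext
  intro u
  obtain ⟨i, j, rfl⟩ := q8_gen u
  rw [map_mul, map_mul, map_pow, map_pow, map_pow, map_pow, h1, h2]

instance : Finite (MulAut Q8) := by
  apply Finite.of_injective (fun φ : MulAut Q8 => ((φ : Q8 → Q8)))
  intro φ ψ h
  exact MulEquiv.ext (congrFun h)

theorem card_mulAut_le : Nat.card (MulAut Q8) ≤ 24 := by
  rw [← H18.Q8_card_pairs, ← Nat.card_eq_fintype_card]
  apply Nat.card_le_card_of_injective (fun φ : MulAut Q8 => (⟨(φ (QuaternionGroup.a 1), φ (QuaternionGroup.xa 0)), by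
    refine ⟨?_, ?_, ?_⟩
    · rw [← map_mul]
      intro h
      rw [map_eq_one_iff φ φ.injective] at h
      revert h; decide
    · rw [← map_mul]
      intro h
      rw [map_eq_one_iff φ φ.injective] at h
      revert h; decide
    · rw [← map_mul, ← map_mul]
      intro h
      have := φ.injective h
      revert this; decide⟩ : {t : QuaternionGroup 2 × QuaternionGroup 2 //
        t.1 * t.1 ≠ 1 ∧ t.2 * t.2 ≠ 1 ∧ t.1 * t.2 ≠ t.2 * t.1}))
  intro φ ψ h
  have h1 := congrArg Subtype.val h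
  exact mulAut_ext (congrArg Prod.fst h1) (congrArg Prod.snd h1)

theorem card_inn : Nat.card (MulAut.conj : Q8 →* MulAut Q8).range = 4 := by
  have h1 := Subgroup.card_mul_index (MulAut.conj : Q8 →* MulAut Q8).ker
  rw [Subgroup.index_ker] at h1
  have h2 : Nat.card (MulAut.conj : Q8 →* MulAut Q8).ker = 2 := by
    have h3 : ((MulAut.conj : Q8 →* MulAut Q8).ker : Set Q8) = ({1, QuaternionGroup.a 2} : Set Q8) := by
      ext z
      rw [SetLike.mem_coe, MonoidHom.mem_ker, Set.mem_insert_iff, Set.mem_singleton_iff, ← q8_center]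
      constructor
      · intro h a
        have := congrArg (fun φ : MulAut Q8 => φ a) h
        simp only [MulAut.conj_apply, MulAut.one_apply] at this
        rw [mul_inv_eq_iff_eq_mul] at this
        exact this.symm
      · intro h
        apply MulEquiv.ext
        intro a
        rw [MulAut.conj_apply, MulAut.one_apply, mul_inv_eq_iff_eq_mul]
        exact (h a).symm
    show Nat.card ((MulAut.conj : Q8 →* MulAut Q8).ker : Set Q8) = 2
    rw [h3, Nat.card_coe_set_eq, Set.ncard_pair (by decide)]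
  rw [h2, q8_card] at h1
  omega

/-- a subgroup of the automorphism group containing the inner automorphisms and moving all cyclic subgroups of order 4 -/
theorem twelve_dvd (Γ : Subgroup (MulAut Q8)) (h1 : ∀ u : Q8, MulAut.conj u ∈ Γ)
    (h2 : ∀ u : Q8, u * u ≠ 1 → ∃ φ ∈ Γ, φ u ≠ u ∧ φ u ≠ u⁻¹) : 12 ∣ Nat.card Γ := by
  classical
  have hord : ∀ (φ : MulAut Q8) (u : Q8), u * u ≠ 1 → φ u * φ u ≠ 1 := by
    intro φ u hu h
    rw [← map_mul, map_eq_one_iff φ φ.injective] at h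
    exact hu h
  let rel : Q8 → Q8 → Prop := fun u w => ∃ φ ∈ Γ, φ u = w
  have hsymm : ∀ u w, rel u w → rel w u := by
    rintro u w ⟨φ, hφ, rfl⟩
    exact ⟨φ⁻¹, Γ.inv_mem hφ, by simp⟩
  have htrans : ∀ u v w, rel u v → rel v w → rel u w := by
    rintro u v w ⟨φ, hφ, rfl⟩ ⟨ψ, hψ, rfl⟩
    exact ⟨ψ * φ, Γ.mul_mem hψ hφ, rfl⟩
  have hinv : ∀ u, u * u ≠ 1 → rel u u⁻¹ := by
    intro u hu
    obtain ⟨v, hv⟩ := q8_conj u hu
    exact ⟨MulAut.conj v, h1 v, hv⟩
  have hall : ∀ u w : Q8, u * u ≠ 1 → w * w ≠ 1 → rel u w := by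
    intro u w hu hw
    by_contra hcon
    have c1 : w ≠ u := by rintro rfl; exact hcon ⟨1, Γ.one_mem, rfl⟩
    have c2 : w ≠ u⁻¹ := by rintro rfl; exact hcon (hinv u hu)
    obtain ⟨φ, hφ, d1, d2⟩ := h2 u hu
    obtain ⟨ψ, hψ, d3, d4⟩ := h2 w hw
    have r1 : rel u (φ u) := ⟨φ, hφ, rfl⟩
    have r2 : rel w (ψ w) := ⟨ψ, hψ, rfl⟩
    have n1 : φ u ≠ w := by intro h; rw [h] at r1; exact hcon r1
    have n2 : φ u ≠ w⁻¹ := by
      intro h; rw [h] at r1
      exact hcon (htrans _ _ _ r1 (hsymm _ _ (hinv w hw)))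
    have n3 : ψ w ≠ u := by intro h; rw [h] at r2; exact hcon (hsymm _ _ r2)
    have n4 : ψ w ≠ u⁻¹ := by
      intro h; rw [h] at r2
      exact hcon (htrans _ _ _ (hinv u hu) (hsymm _ _ r2))
    have k1 := q8_key u w (φ u) hu hw (hord φ u hu) c1 c2 d1 d2 n1 n2
    have k2 := q8_key u w (ψ w) hu hw (hord ψ w hw) c1 c2 n3 n4 d3 d4
    have k3 : rel (φ u) (ψ w) := by
      rcases k1 with k1 | k1 <;> rcases k2 with k2 | k2
      · rw [k1, k2]; exact ⟨1, Γ.one_mem, rfl⟩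
      · rw [k2, ← k1]; exact hinv _ (hord φ u hu)
      · rw [k1, ← k2]; exact hsymm _ _ (hinv _ (hord ψ w hw))
      · rw [k1, k2]; exact ⟨1, Γ.one_mem, rfl⟩
    exact hcon (htrans _ _ _ r1 (htrans _ _ _ k3 (hsymm _ _ r2)))
  have h6 : 6 ∣ Nat.card Γ := by
    have h3 := MulAction.index_stabilizer Γ (QuaternionGroup.a 1 : Q8)
    have h5 : MulAction.orbit Γ (QuaternionGroup.a 1 : Q8) = {u : Q8 | u * u ≠ 1} := by
      ext u
      rw [Set.mem_setOf_eq]
      constructor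
      · rintro ⟨φ, rfl⟩
        exact hord φ.1 _ (by decide)
      · intro hu
        obtain ⟨φ, hφ, h⟩ := hall (QuaternionGroup.a 1) u (by decide) hu
        exact ⟨⟨φ, hφ⟩, h⟩
    have h7 : (MulAction.orbit Γ (QuaternionGroup.a 1 : Q8)).ncard = 6 := by
      rw [h5, ← Nat.card_coe_set_eq, ← q8_six, ← Nat.card_eq_fintype_card]
      rfl
    rw [← h7, ← h3]
    exact Subgroup.index_dvd_card _
  have h4 : 4 ∣ Nat.card Γ := by
    rw [← card_inn]
    apply Subgroup.card_dvd_of_le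
    rintro _ ⟨u, rfl⟩
    exact h1 u
  have : Nat.lcm 6 4 ∣ Nat.card Γ := Nat.lcm_dvd h6 h4
  exact this

end Cfsg.Agent.H21.RG
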