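import Mathlib

set_option autoImplicit false
set_option linter.all false

/-!
Carlitz–McConnel theorem over prime fields (helper21).
-/

namespace Cfsg.Agent.H21

open Polynomial Finset

variable {p : ℕ} [Fact p.Prime]

theorem sum_pow_zmod (i : ℕ) (h0 : 0 < i) (h1 : i < 2 * (p - 1)) :
    ∑ c : ZMod p, c ^ i = if i = p - 1 then -1 else 0 := by
  have hcard : Fintype.card (ZMod p) = p := ZMod.card p
  split_ifs with h
  · have h2 : ∀ c : ZMod p, c ^ i = 1 - (if c = 0 then 1 else 0) := by
      intro c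
      split_ifs with hc
      · rw [hc, zero_pow h0.ne', sub_self]
      · rw [h, ZMod.pow_card_sub_one_eq_one hc, sub_zero]
    rw [Finset.sum_congr rfl (fun c _ => h2 c), Finset.sum_sub_distrib, Finset.sum_ite_eq' Finset.univ (0 : ZMod p)]
    simp [hcard]
  · by_cases h3 : i < p - 1
    · apply FiniteField.sum_pow_lt_card_sub_one
      rw [hcard]; exact h3
    · have h4 : ∀ c : ZMod p, c ^ i = c ^ (i - (p - 1)) := by
        intro c
        by_cases hc : c = 0
        · rw [hc, zero_pow h0.ne', zero_pow (by omega)]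
        · have : i = (p - 1) + (i - (p - 1)) := by omega
          conv_lhs => rw [this]
          rw [pow_add, ZMod.pow_card_sub_one_eq_one hc, one_mul]
      rw [Finset.sum_congr rfl (fun c _ => h4 c)]
      apply FiniteField.sum_pow_lt_card_sub_one
      rw [hcard]; omega

/-- powers of `σ` are polynomials of degree at most `d` -/
theorem exists_poly (d : ℕ) (hd' : 2 * d ≤ p - 1) (hd0 : 0 < d) (σ : Equiv.Perm (ZMod p))
    (h : ∀ x y, (σ x - σ y) ^ d = (x - y) ^ d) (k : ℕ) (hk : k ≤ d) :
    ∃ P : (ZMod p)[X], P.natDegree ≤ d ∧ ∀ x, P.eval x = σ x ^ k := by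
  have hp : p.Prime := Fact.out
  set m := p - 1 - (d - k) with hm
  -- left hand side
  have hL : ∀ T : ZMod p, ∑ c : ZMod p, c ^ m * (T - c) ^ d = - ((d.choose k : ZMod p) * (-1) ^ (d - k)) * T ^ k := by
    intro T
    have h1 : ∀ c : ZMod p, c ^ m * (T - c) ^ d = ∑ i ∈ range (d + 1), (T ^ i * (d.choose i : ZMod p) * (-1) ^ (d - i)) * c ^ (m + (d - i)) := by
      intro c
      rw [sub_eq_add_neg, add_pow, Finset.mul_sum]
      apply Finset.sum_congr rfl
      intro i _
      rw [neg_pow, pow_add]; ring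
    rw [Finset.sum_congr rfl (fun c _ => h1 c), Finset.sum_comm]
    have h2 : ∀ i ∈ range (d + 1), ∑ c : ZMod p, (T ^ i * (d.choose i : ZMod p) * (-1) ^ (d - i)) * c ^ (m + (d - i)) =
        if i = k then - ((d.choose k : ZMod p) * (-1) ^ (d - k)) * T ^ k else 0 := by
      intro i hi
      have hi' : i ≤ d := by simpa using Finset.mem_range_succ_iff.1 hi
      rw [← Finset.mul_sum, sum_pow_zmod _ (by omega) (by omega)]
      by_cases hik : i = k
      · rw [if_pos (by omega), if_pos hik, hik]; ring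
      · rw [if_neg (by omega), if_neg hik, mul_zero]
    rw [Finset.sum_congr rfl h2, Finset.sum_ite_eq', if_pos (Finset.mem_range_succ_iff.2 hk)]
  have hc0 : (-((d.choose k : ZMod p) * (-1) ^ (d - k))) ≠ 0 := by
    rw [neg_ne_zero]
    apply mul_ne_zero
    · intro h0
      rw [ZMod.natCast_eq_zero_iff] at h0
      have h1 : p ∣ d.factorial := by
        rw [← Nat.choose_mul_factorial_mul_factorial hk, mul_assoc]
        exact Dvd.dvd.mul_right h0 _
      rw [hp.dvd_factorial] at h1
      omega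
    · exact pow_ne_zero _ (neg_ne_zero.2 one_ne_zero)
  set c0 := (-((d.choose k : ZMod p) * (-1) ^ (d - k))) with hc0def
  refine ⟨C c0⁻¹ * ∑ y : ZMod p, C (σ y ^ m) * (X - C y) ^ d, ?_, ?_⟩
  · apply natDegree_C_mul_le _ _ |>.trans
    apply natDegree_sum_le_of_forall_le
    intro y _
    apply (natDegree_C_mul_le _ _).trans
    rw [natDegree_pow, natDegree_X_sub_C, mul_one]
  · intro x
    rw [eval_mul, eval_C, eval_finset_sum]
    have h3 : ∀ y : ZMod p, (C (σ y ^ m) * (X - C y) ^ d).eval x = (σ y) ^ m * (σ x - σ y) ^ d := by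
      intro y
      rw [eval_mul, eval_C, eval_pow, eval_sub, eval_X, eval_C, h]
    rw [Finset.sum_congr rfl (fun y _ => h3 y), Equiv.sum_comp σ (fun c => c ^ m * (σ x - c) ^ d), hL, ← mul_assoc,
      inv_mul_cancel₀ hc0, one_mul]

theorem carlitz (d : ℕ) (hd' : 2 * d ≤ p - 1) (hd0 : 0 < d) (σ : Equiv.Perm (ZMod p))
    (h : ∀ x y, (σ x - σ y) ^ d = (x - y) ^ d) : ∃ a b : ZMod p, ∀ x, σ x = a * x + b := by
  obtain ⟨P, hP, hPe⟩ := exists_poly d hd' hd0 σ h 1 hd0
  have hdeg : P.natDegree ≤ 1 := by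
    by_contra hcon
    push Not at hcon
    set m := P.natDegree with hm
    have hj : d / m + 1 ≤ d := by
      have h1 : d / m ≤ d / 2 := Nat.div_le_div_left hcon (by norm_num)
      omega
    obtain ⟨Q, hQ, hQe⟩ := exists_poly d hd' hd0 σ h (d / m + 1) hj
    have h2 : (d / m + 1) * m ≤ d + m := by
      have := Nat.div_mul_le_self d m
      rw [add_mul, one_mul]; omega
    have h3 : d < (d / m + 1) * m := by
      rw [mul_comm]
      exact Nat.lt_mul_div_succ d (by omega)
    have h4 : (P ^ (d / m + 1)).natDegree = (d / m + 1) * m := natDegree_pow _ _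
    have hp1 : 1 < p := (Fact.out : p.Prime).one_lt
    have h5 : P ^ (d / m + 1) = Q := by
      apply eq_of_natDegree_lt_card_of_eval_eq' _ _ (Finset.univ : Finset (ZMod p))
      · intro x _
        rw [eval_pow, hPe, hQe, pow_one]
      · rw [Finset.card_univ, ZMod.card, h4]
        apply max_lt <;> omega
    rw [h5] at h4
    omega
  obtain ⟨a, b, hab⟩ := exists_eq_X_add_C_of_natDegree_le_one hdeg
  refine ⟨a, b, fun x => ?_⟩
  rw [← pow_one (σ x), ← hPe x, hab]
  simp

end Cfsg.Agent.H21
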