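import Cfsg.Agent.H25.FrobKernel

set_option autoImplicit false
set_option linter.all false

/-!
Extremely primitive affine groups, part 1 (helper21): the linear group acting with maximal stabilizers.
-/

universe u v

namespace Cfsg.Agent.H21.EP

open scoped commutatorElement

variable {H : Type u} [Group H] [Finite H] {V : Type v} [CommGroup V] [Finite V] [MulDistribMulAction H V]

/-- irreducible faithful action with maximal stabilizers -/
structure EPA (H : Type u) [Group H] (V : Type v) [CommGroup V] [MulDistribMulAction H V] : Prop where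
  faithful : ∀ h : H, (∀ v : V, h • v = v) → h = 1
  irr : ∀ W : Subgroup V, (∀ h : H, ∀ w ∈ W, h • w ∈ W) → W = ⊥ ∨ W = ⊤
  coat : ∀ v : V, v ≠ 1 → IsCoatom (MulAction.stabilizer H v)
  ns : ¬ Group.IsSolvable H
  nt : Nontrivial V

variable (E : EPA H V)
include E

/-- a normal subgroup fixing a vector is trivial -/
theorem normal_le_stab {N : Subgroup H} (hN : N.Normal) {v : V} (hv : v ≠ 1) (h : N ≤ MulAction.stabilizer H v) : N = ⊥ := by
  have h1 := E.irr
    { carrier := {w | ∀ n ∈ N, n • w = w}
      one_mem' := fun n _ => smul_one n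
      mul_mem' := fun {a b} ha hb n hn => by rw [smul_mul', ha n hn, hb n hn]
      inv_mem' := fun {a} ha n hn => by rw [smul_inv', ha n hn] }
    (by
      intro g w hw n hn
      have h2 := hw (g⁻¹ * n * g) (by have := hN.conj_mem n hn g⁻¹; rwa [inv_inv] at this)
      calc n • g • w = g • ((g⁻¹ * n * g) • w) := by rw [smul_smul, smul_smul]; congr 1; group
        _ = g • w := by rw [h2])
  rcases h1 with h1 | h1
  · exfalso
    apply hv
    rw [← Subgroup.mem_bot, ← h1]
    intro n hn
    exact h hn
  · rw [eq_bot_iff]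
    intro n hn
    rw [Subgroup.mem_bot]
    apply E.faithful
    intro w
    have : w ∈ (⊤ : Subgroup V) := Subgroup.mem_top w
    rw [← h1] at this
    exact this n hn

/-- the product of a normal subgroup and a stabilizer -/
theorem sup_stab {N : Subgroup H} (hN : N.Normal) (hne : N ≠ ⊥) {v : V} (hv : v ≠ 1) : N ⊔ MulAction.stabilizer H v = ⊤ := by
  have h1 : ¬ N ≤ MulAction.stabilizer H v := fun h => hne (normal_le_stab E hN hv h)
  apply (E.coat v hv).2
  apply lt_of_le_of_ne le_sup_right
  intro h
  apply h1
  rw [h]; exact le_sup_left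

/-- solvable if the order is odd is assumed: the prime is two -/
theorem eq_two (hodd : Odd (Nat.card H) → Group.IsSolvable H) {p : ℕ} (hp : p.Prime) (hV : ∀ v : V, v ^ p = 1) : p = 2 := by
  classical
  by_contra hp2
  apply E.ns
  apply hodd
  rw [← Nat.not_even_iff_odd]
  intro heven
  haveI : Fact (Nat.Prime 2) := ⟨Nat.prime_two⟩
  obtain ⟨t, ht⟩ := exists_prime_orderOf_dvd_card' (G := H) 2 heven.two_dvd
  have ht1 : t ≠ 1 := by rintro rfl; rw [orderOf_one] at ht; omega
  have htt : t * t = 1 := by have := pow_orderOf_eq_one t; rwa [ht, pow_two] at this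
  obtain ⟨u, hu⟩ : ∃ u : V, t • u ≠ u := by
    by_contra hcon
    push Not at hcon
    exact ht1 (E.faithful t hcon)
  set v := u⁻¹ * t • u with hv
  have hv1 : v ≠ 1 := by
    intro h
    apply hu
    rw [hv, inv_mul_eq_one] at h
    exact h.symm
  have htv : t • v = v⁻¹ := by
    rw [hv, smul_mul', smul_inv', smul_smul, htt, one_smul, mul_inv_rev, inv_inv]
  have hvv : v⁻¹ ≠ v := by
    intro h
    have h2 : v ^ 2 = 1 := by
      rw [pow_two]; nth_rewrite 1 [← h]; exact inv_mul_cancel v
    have h3 := orderOf_dvd_of_pow_eq_one h2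
    have h4 := orderOf_dvd_of_pow_eq_one (hV v)
    have h5 : Nat.Coprime 2 p := (Nat.coprime_primes Nat.prime_two hp).2 (Ne.symm hp2)
    have h6 := Nat.eq_one_of_dvd_coprimes h5 h3 h4
    exact hv1 (orderOf_eq_one_iff.1 h6)
  -- the stabilizer of {v, v⁻¹}
  let K : Subgroup H :=
    { carrier := {h | h • v = v ∨ h • v = v⁻¹}
      one_mem' := Or.inl (one_smul _ _)
      mul_mem' := by
        rintro a b (ha | ha) (hb | hb)
        · left; rw [mul_smul, hb, ha]
        · right; rw [mul_smul, hb, smul_inv', ha]
        · right; rw [mul_smul, hb, ha]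
        · left; rw [mul_smul, hb, smul_inv', ha, inv_inv]
      inv_mem' := by
        rintro a (ha | ha)
        · left; rw [inv_smul_eq_iff]; exact ha.symm
        · right; rw [inv_smul_eq_iff, smul_inv', ha, inv_inv] }
  have hK : K = ⊤ := by
    apply (E.coat v hv1).2
    apply lt_of_le_of_ne
    · intro h hh; exact Or.inl hh
    · intro h
      have h1 : t ∈ K := Or.inr htv
      rw [← h, MulAction.mem_stabilizer_iff, htv] at h1
      exact hvv h1
  have hall : ∀ h : H, h • v = v ∨ h • v = v⁻¹ := by
    intro h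
    have : h ∈ K := by rw [hK]; exact Subgroup.mem_top h
    exact this
  -- V is generated by v
  have hV' : Subgroup.zpowers v = ⊤ := by
    rcases E.irr (Subgroup.zpowers v) (by
      intro h w hw
      obtain ⟨k, rfl⟩ := Subgroup.mem_zpowers_iff.1 hw
      rw [smul_zpow']
      rcases hall h with h1 | h1
      · rw [h1]; exact Subgroup.zpow_mem _ (Subgroup.mem_zpowers v) k
      · rw [h1]; exact Subgroup.zpow_mem _ (Subgroup.inv_mem _ (Subgroup.mem_zpowers v)) k) with h1 | h1
    · exfalso
      apply hv1
      rw [← Subgroup.mem_bot, ← h1]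
      exact Subgroup.mem_zpowers v
    · exact h1
  apply E.ns
  apply Group.isSolvable_of_comm
  intro a b
  have h1 : ∀ w : V, (a * b) • w = (b * a) • w := by
    intro w
    have hw : w ∈ Subgroup.zpowers v := by rw [hV']; exact Subgroup.mem_top w
    obtain ⟨k, rfl⟩ := Subgroup.mem_zpowers_iff.1 hw
    rw [smul_zpow', smul_zpow', mul_smul, mul_smul]
    congr 1
    rcases hall a with h1 | h1 <;> rcases hall b with h2 | h2 <;> rw [h1, h2] <;>
      simp only [smul_inv', h1, h2]
  have h2 : (b * a)⁻¹ * (a * b) = 1 := by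
    apply E.faithful
    intro w
    rw [mul_smul, h1, ← mul_smul, inv_mul_cancel, one_smul]
  rw [inv_mul_eq_one] at h2
  exact h2.symm

end Cfsg.Agent.H21.EP
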