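import Cfsg.Agent.H21.EP1
import Cfsg.Agent.H21.ZF12
import Cfsg.Agent.H1.Chief

set_option autoImplicit false
set_option linter.all false

/-!
Extremely primitive affine groups, part 2 (helper21): characteristic two, minimal normal subgroups.
-/

universe u v

namespace Cfsg.Agent.H21.EP

open scoped commutatorElement

variable {H : Type u} [Group H] [Finite H] {V : Type v} [CommGroup V] [Finite V] [MulDistribMulAction H V]

omit [Finite H] [Finite V] in
theorem exists_fixed (E : EPA H V) (h2 : ∀ v : V, v * v = 1) {t : H} (ht : t * t = 1) : ∃ v : V, v ≠ 1 ∧ t • v = v := by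
  haveI := E.nt
  obtain ⟨u, hu⟩ := exists_ne (1 : V)
  by_cases h : t • u = u
  · exact ⟨u, hu, h⟩
  · refine ⟨u * t • u, ?_, ?_⟩
    · intro h1
      apply h
      have h4 : t • u = u⁻¹ := eq_inv_of_mul_eq_one_right h1
      rw [h4, inv_eq_iff_mul_eq_one]
      exact h2 u
    · rw [smul_mul', smul_smul, ht, one_smul, mul_comm]

/-- a normal subgroup centralized by a non-trivial normal subgroup acts freely -/
theorem free_of_comm (E : EPA H V) {N0 N1 : Subgroup H} (h0 : N0.Normal) (h1 : N1.Normal) (hne : N1 ≠ ⊥)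
    (hc : ∀ a ∈ N0, ∀ b ∈ N1, a * b = b * a) {v : V} (hv : v ≠ 1) : N0 ⊓ MulAction.stabilizer H v = ⊥ := by
  apply normal_le_stab E _ hv inf_le_right
  constructor
  intro n hn g
  have hg : g ∈ N1 ⊔ MulAction.stabilizer H v := by rw [sup_stab E h1 hne hv]; exact Subgroup.mem_top g
  obtain ⟨a, ha, m, hm, rfl⟩ := Subgroup.mem_sup_of_normal_left.1 hg
  obtain ⟨hn0, hnm⟩ := Subgroup.mem_inf.1 hn
  have h3 : m * n * m⁻¹ ∈ N0 ⊓ MulAction.stabilizer H v :=
    ⟨h0.conj_mem n hn0 m, Subgroup.mul_mem _ (Subgroup.mul_mem _ hm hnm) (Subgroup.inv_mem _ hm)⟩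
  have h4 := hc _ (Subgroup.mem_inf.1 h3).1 a ha
  have h5 : a * m * n * (a * m)⁻¹ = m * n * m⁻¹ := by
    calc a * m * n * (a * m)⁻¹ = a * (m * n * m⁻¹) * a⁻¹ := by group
      _ = (m * n * m⁻¹) * a * a⁻¹ := by rw [h4]
      _ = m * n * m⁻¹ := by group
  rw [h5]
  exact h3

/-- no abelian normal subgroups -/
theorem no_abelian (E : EPA H V) (h2 : ∀ v : V, v * v = 1) {A : Subgroup H} (hA : A.Normal) (hs : Group.IsSolvable A) : A = ⊥ := by
  classical
  by_contra hne
  obtain ⟨B, hB, hB0, hBA, hBm⟩ := H1.exists_minimal_normal_le hA hne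
  haveI := hs
  have hsB : Group.IsSolvable B := Group.isSolvable_of_isSolvable_injective (f := Subgroup.inclusion hBA) (Subgroup.inclusion_injective hBA)
  obtain ⟨hBc, r, hr, hBr, hpow⟩ := H1.minimal_normal_solvable hB hB0 hBm hsB
  haveI : Fact r.Prime := ⟨hr⟩
  haveI : Fact (Nat.Prime 2) := ⟨Nat.prime_two⟩
  have hcomm : ∀ a ∈ B, ∀ b ∈ B, a * b = b * a := fun a ha b hb => congrArg Subtype.val (hBc.is_comm.comm ⟨a, ha⟩ ⟨b, hb⟩)
  have hfree : ∀ v : V, v ≠ 1 → B ⊓ MulAction.stabilizer H v = ⊥ := fun v hv => free_of_comm E hB hB hB0 hcomm hv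
  haveI := E.nt
  -- the ring data
  obtain ⟨A', i1, i2, i3, ρ', D⟩ := ZF.zd_of_VF (ZF.exists_VF_of_comm (G := B) (p := 2) (V := V) (fun v => by rw [pow_two]; exact h2 v)
    ((MulDistribMulAction.toMulAut H V).comp B.subtype) (fun g hg v hv => by
      by_contra hv1
      apply hg
      have h3 : (g : H) ∈ B ⊓ MulAction.stabilizer H v := ⟨g.2, hv⟩
      rw [hfree v hv1, Subgroup.mem_bot] at h3
      exact Subtype.ext h3))
  -- B is generated by one element
  obtain ⟨a, haB, ha1⟩ : ∃ a ∈ B, a ≠ 1 := by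
    by_contra hcon
    push Not at hcon
    apply hB0
    rw [Subgroup.eq_bot_iff_forall]
    exact hcon
  have hord : ∀ b ∈ B, b ≠ 1 → orderOf b = r := fun b hb hb1 => orderOf_eq_prime (hpow b hb) hb1
  have hgen : ∀ b ∈ B, ∃ k : ℤ, a ^ k = b := by
    intro b hb
    by_cases hb1 : b = 1
    · exact ⟨0, by rw [zpow_zero, hb1]⟩
    · have h3 := D.comm_prime (p := r) (x := (⟨a, haB⟩ : B)) (z := ⟨b, hb⟩) (by rw [← Subgroup.orderOf_coe]; exact hord a haB ha1)
        (by rw [← Subgroup.orderOf_coe]; exact hord b hb hb1) (Subtype.ext (hcomm a haB b hb))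
      obtain ⟨k, hk⟩ := Subgroup.mem_zpowers_iff.1 h3
      exact ⟨k, congrArg Subtype.val hk⟩
  obtain ⟨v, hv⟩ := exists_ne (1 : V)
  set M := MulAction.stabilizer H v with hM
  have hMC : ∀ m ∈ M, m * a = a * m → m = 1 := by
    intro m hm hma
    haveI := hB
    have hn : (Subgroup.centralizer (B : Set H) ⊓ M : Subgroup H) = ⊥ := by
      have := free_of_comm E (N0 := Subgroup.centralizer (B : Set H)) (N1 := B) inferInstance hB hB0 (by
        intro x hx b hb
        rw [Subgroup.mem_centralizer_iff] at hx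
        exact (hx b hb).symm) hv
      exact this
    have h3 : m ∈ Subgroup.centralizer (B : Set H) ⊓ M := by
      refine Subgroup.mem_inf.2 ⟨?_, hm⟩
      rw [Subgroup.mem_centralizer_iff]
      intro b hb
      obtain ⟨k, rfl⟩ := hgen b hb
      exact ((show Commute m a from hma).zpow_right k).symm
    rw [hn, Subgroup.mem_bot] at h3
    exact h3
  have hMab : ∀ m ∈ M, ∀ n ∈ M, m * n = n * m := by
    intro m hm n hn
    obtain ⟨i, hi⟩ := hgen (m * a * m⁻¹) (hB.conj_mem a haB m)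
    obtain ⟨j, hj⟩ := hgen (n * a * n⁻¹) (hB.conj_mem a haB n)
    have h3 : (m * n) * a * (m * n)⁻¹ = (n * m) * a * (n * m)⁻¹ := by
      calc (m * n) * a * (m * n)⁻¹ = m * (n * a * n⁻¹) * m⁻¹ := by group
        _ = m * a ^ j * m⁻¹ := by rw [hj]
        _ = (m * a * m⁻¹) ^ j := by rw [conj_zpow]
        _ = (a ^ i) ^ j := by rw [hi]
        _ = (a ^ j) ^ i := by rw [← zpow_mul, ← zpow_mul, mul_comm]
        _ = (n * a * n⁻¹) ^ i := by rw [hj]
        _ = n * a ^ i * n⁻¹ := by rw [conj_zpow]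
        _ = n * (m * a * m⁻¹) * n⁻¹ := by rw [hi]
        _ = (n * m) * a * (n * m)⁻¹ := by group
    have h4 : (n * m)⁻¹ * (m * n) = 1 := by
      apply hMC _ (M.mul_mem (M.inv_mem (M.mul_mem hn hm)) (M.mul_mem hm hn))
      calc (n * m)⁻¹ * (m * n) * a = (n * m)⁻¹ * ((m * n) * a * (m * n)⁻¹) * (m * n) := by group
        _ = (n * m)⁻¹ * ((n * m) * a * (n * m)⁻¹) * (m * n) := by rw [h3]
        _ = a * ((n * m)⁻¹ * (m * n)) := by group
    rw [inv_mul_eq_one] at h4
    exact h4.symm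
  apply E.ns
  rw [Group.isSolvable_iff_subgroup_quotient B]
  refine ⟨hsB, ?_⟩
  apply Group.isSolvable_of_comm
  intro x y
  obtain ⟨x, rfl⟩ := QuotientGroup.mk_surjective x
  obtain ⟨y, rfl⟩ := QuotientGroup.mk_surjective y
  have hx : x ∈ B ⊔ M := by rw [sup_stab E hB hB0 hv]; exact Subgroup.mem_top x
  have hy : y ∈ B ⊔ M := by rw [sup_stab E hB hB0 hv]; exact Subgroup.mem_top y
  obtain ⟨b, hb, m, hm, rfl⟩ := Subgroup.mem_sup_of_normal_left.1 hx
  obtain ⟨c, hc, n, hn, rfl⟩ := Subgroup.mem_sup_of_normal_left.1 hy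
  have h3 : ((b * m : H) : H ⧸ B) = (m : H ⧸ B) := by
    rw [QuotientGroup.mk_mul, (QuotientGroup.eq_one_iff b).2 hb, one_mul]
  have h4 : ((c * n : H) : H ⧸ B) = (n : H ⧸ B) := by
    rw [QuotientGroup.mk_mul, (QuotientGroup.eq_one_iff c).2 hc, one_mul]
  rw [h3, h4, ← QuotientGroup.mk_mul, ← QuotientGroup.mk_mul, hMab m hm n hn]

end Cfsg.Agent.H21.EP
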