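import Cfsg.Agent.H21.EP2

set_option autoImplicit false
set_option linter.all false

/-!
Extremely primitive affine groups, part 3 (helper21): the factors of a non-abelian minimal normal subgroup.
-/

universe u v

namespace Cfsg.Agent.H21.EP

variable {H : Type u} [Group H] [Finite H]

/-- conjugate subgroup -/
def cj (h : H) (T : Subgroup H) : Subgroup H := T.map (MulAut.conj h).toMonoidHom

omit [Finite H] in
theorem mem_cj {h : H} {T : Subgroup H} {x : H} : x ∈ cj h T ↔ h⁻¹ * x * h ∈ T := by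
  constructor
  · rintro ⟨t, ht, rfl⟩
    have : h⁻¹ * (MulAut.conj h).toMonoidHom t * h = t := by
      show h⁻¹ * (h * t * h⁻¹) * h = t
      group
    rw [this]; exact ht
  · intro hx
    refine ⟨h⁻¹ * x * h, hx, ?_⟩
    show h * (h⁻¹ * x * h) * h⁻¹ = x
    group

omit [Finite H] in
theorem conj_mem_cj {h : H} {T : Subgroup H} {x : H} (hx : x ∈ T) : h * x * h⁻¹ ∈ cj h T := ⟨x, hx, rfl⟩

omit [Finite H] in
theorem cj_cj (g h : H) (T : Subgroup H) : cj g (cj h T) = cj (g * h) T := by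
  ext x
  rw [mem_cj, mem_cj, mem_cj]
  constructor <;> intro hx
  · have : (g * h)⁻¹ * x * (g * h) = h⁻¹ * (g⁻¹ * x * g) * h := by group
    rw [this]; exact hx
  · have : (g * h)⁻¹ * x * (g * h) = h⁻¹ * (g⁻¹ * x * g) * h := by group
    rw [← this]; exact hx

omit [Finite H] in
theorem cj_one (T : Subgroup H) : cj 1 T = T := by
  ext x; rw [mem_cj]; simp

omit [Finite H] in
theorem card_cj (h : H) (T : Subgroup H) : Nat.card (cj h T) = Nat.card T :=
  Nat.card_congr (T.equivMapOfInjective _ (MulAut.conj h).injective).toEquiv.symm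

theorem cj_eq_of_le {h : H} {T : Subgroup H} (hle : T ≤ cj h T) : cj h T = T := by
  apply (Subgroup.eq_of_le_of_card_ge hle _).symm
  rw [card_cj]

/-- `T` is minimal among the non-trivial subgroups of `N` normalized by `N`, `N` minimal normal with trivial centralizer -/
structure MinT (N T : Subgroup H) : Prop where
  nN : N.Normal
  mN : ∀ K : Subgroup H, K.Normal → K ≤ N → K = ⊥ ∨ K = N
  cN : Subgroup.centralizer (N : Set H) = ⊥
  le : T ≤ N
  ne : T ≠ ⊥
  nor : ∀ n ∈ N, ∀ t ∈ T, n * t * n⁻¹ ∈ T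
  mi : ∀ K : Subgroup H, K ≤ T → (∀ n ∈ N, ∀ t ∈ K, n * t * n⁻¹ ∈ K) → K = ⊥ ∨ K = T

theorem exists_minT {N : Subgroup H} (nN : N.Normal) (hN : N ≠ ⊥) (mN : ∀ K : Subgroup H, K.Normal → K ≤ N → K = ⊥ ∨ K = N)
    (cN : Subgroup.centralizer (N : Set H) = ⊥) : ∃ T, MinT N T := by
  obtain ⟨T, hT⟩ := (Set.toFinite {T : Subgroup H | T ≤ N ∧ T ≠ ⊥ ∧ ∀ n ∈ N, ∀ t ∈ T, n * t * n⁻¹ ∈ T}).exists_minimal
    ⟨N, le_rfl, hN, fun n hn t ht => N.mul_mem (N.mul_mem hn ht) (N.inv_mem hn)⟩
  refine ⟨T, nN, mN, cN, hT.prop.1, hT.prop.2.1, hT.prop.2.2, fun K hKT hK => ?_⟩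
  by_cases h : K = ⊥
  · exact Or.inl h
  · right
    exact le_antisymm hKT (hT.le_of_le ⟨hKT.trans hT.prop.1, h, hK⟩ hKT)

namespace MinT
variable {N T : Subgroup H} (D : MinT N T)
include D

omit [Finite H] in
theorem cj (h : H) : MinT N (cj h T) := by
  refine ⟨D.nN, D.mN, D.cN, ?_, ?_, ?_, ?_⟩
  · intro x hx
    rw [mem_cj] at hx
    have h1 := D.nN.conj_mem _ (D.le hx) h
    have : h * (h⁻¹ * x * h) * h⁻¹ = x := by group
    rwa [this] at h1
  · intro hb
    apply D.ne
    rw [Subgroup.eq_bot_iff_forall] at hb ⊢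
    intro t ht
    have := hb _ (conj_mem_cj (h := h) ht)
    exact conj_eq_one_iff.1 this
  · intro n hn t ht
    rw [mem_cj] at ht ⊢
    have h1 := D.nor (h⁻¹ * n * h) (by have := D.nN.conj_mem n hn h⁻¹; rwa [inv_inv] at this) _ ht
    have : h⁻¹ * n * h * (h⁻¹ * t * h) * (h⁻¹ * n * h)⁻¹ = h⁻¹ * (n * t * n⁻¹) * h := by group
    rwa [this] at h1
  · intro K hK hKn
    have h1 := D.mi (EP.cj h⁻¹ K) (by
      intro x hx
      rw [mem_cj, inv_inv] at hx
      have h1 := hK hx
      rw [mem_cj] at h1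
      have : h⁻¹ * (h * x * h⁻¹) * h = x := by group
      rwa [this] at h1) (by
      intro n hn t ht
      rw [mem_cj, inv_inv] at ht ⊢
      have h1 := hKn (h * n * h⁻¹) (D.nN.conj_mem n hn h) _ ht
      have : h * n * h⁻¹ * (h * t * h⁻¹) * (h * n * h⁻¹)⁻¹ = h * (n * t * n⁻¹) * h⁻¹ := by group
      rwa [this] at h1)
    have h2 : EP.cj h (EP.cj h⁻¹ K) = K := by rw [cj_cj, mul_inv_cancel, cj_one]
    rcases h1 with h1 | h1
    · left
      rw [← h2, h1]
      exact Subgroup.map_bot _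
    · right
      rw [← h2, h1]

/-- distinct factors commute -/
theorem comm {h : H} (hne : EP.cj h T ≠ T) {a b : H} (ha : a ∈ T) (hb : b ∈ EP.cj h T) : a * b = b * a := by
  have D' := D.cj h
  have h1 : T ⊓ EP.cj h T = ⊥ := by
    rcases D.mi (T ⊓ EP.cj h T) inf_le_left (fun n hn t ht =>
      Subgroup.mem_inf.2 ⟨D.nor n hn t (Subgroup.mem_inf.1 ht).1, D'.nor n hn t (Subgroup.mem_inf.1 ht).2⟩) with h1 | h1
    · exact h1
    · exfalso
      apply hne
      apply cj_eq_of_le
      calc T = T ⊓ EP.cj h T := h1.symm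
        _ ≤ EP.cj h T := inf_le_right
  have h2 : a * b * a⁻¹ * b⁻¹ ∈ T ⊓ EP.cj h T := by
    refine Subgroup.mem_inf.2 ⟨?_, ?_⟩
    · have h3 := D.nor b (D'.le hb) a⁻¹ (T.inv_mem ha)
      have : a * b * a⁻¹ * b⁻¹ = a * (b * a⁻¹ * b⁻¹) := by group
      rw [this]
      exact T.mul_mem ha h3
    · exact Subgroup.mul_mem _ (D'.nor a (D.le ha) b hb) (Subgroup.inv_mem _ hb)
  rw [h1, Subgroup.mem_bot, mul_inv_eq_one, mul_inv_eq_iff_eq_mul] at h2
  exact h2

/-- the factors generate -/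
theorem iSup_eq : (⨆ h : H, EP.cj h T) = N := by
  rcases D.mN (⨆ h : H, EP.cj h T) (by
    constructor
    intro x hx g
    have h1 : g * x * g⁻¹ ∈ EP.cj g (⨆ h : H, EP.cj h T) := conj_mem_cj hx
    have h2 : EP.cj g (⨆ h : H, EP.cj h T) ≤ ⨆ h : H, EP.cj h T := by
      show Subgroup.map _ _ ≤ _
      rw [Subgroup.map_iSup]
      apply iSup_le
      intro h
      show EP.cj g (EP.cj h T) ≤ _
      rw [cj_cj]
      exact le_iSup (fun h => EP.cj h T) (g * h)
    exact h2 h1) (iSup_le (fun h => (D.cj h).le)) with h1 | h1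
  · exfalso
    apply D.ne
    rw [eq_bot_iff, ← h1]
    have := le_iSup (fun h => EP.cj h T) 1
    rwa [cj_one] at this
  · exact h1

/-- a property of `N` can be checked on the factors -/
theorem N_le {K : Subgroup H} (h1 : T ≤ K) (h2 : ∀ b : H, (∀ a ∈ T, a * b = b * a) → b ∈ K) : N ≤ K := by
  rw [← D.iSup_eq]
  apply iSup_le
  intro h
  by_cases hne : EP.cj h T = T
  · rw [hne]; exact h1
  · intro b hb
    exact h2 b (fun a ha => D.comm hne ha hb)

theorem nonab : ¬ ∀ a ∈ T, ∀ b ∈ T, a * b = b * a := by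
  intro hc
  apply D.ne
  rw [eq_bot_iff, ← D.cN]
  intro t ht
  have h1 : N ≤ Subgroup.centralizer ({t} : Set H) := by
    apply D.N_le
    · intro a ha
      rw [Subgroup.mem_centralizer_singleton_iff]
      exact hc a ha t ht
    · intro b hb
      rw [Subgroup.mem_centralizer_singleton_iff]
      exact (hb t ht).symm
  rw [Subgroup.mem_centralizer_iff]
  intro n hn
  have := h1 hn
  rw [Subgroup.mem_centralizer_singleton_iff] at this
  exact this

/-- the factors are simple -/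
theorem simple' {K : Subgroup H} (hK : K ≤ T) (hn : ∀ t ∈ T, ∀ k ∈ K, t * k * t⁻¹ ∈ K) : K = ⊥ ∨ K = T := by
  apply D.mi K hK
  have h1 : N ≤ Subgroup.normalizer (K : Set H) := by
    apply D.N_le
    · intro t ht
      rw [Subgroup.mem_normalizer_iff]
      intro k
      constructor
      · intro hk; exact hn t ht k hk
      · intro hk
        have h2 := hn t⁻¹ (T.inv_mem ht) _ hk
        have : t⁻¹ * (t * k * t⁻¹) * t⁻¹⁻¹ = k := by group
        rwa [this] at h2
    · intro b hb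
      rw [Subgroup.mem_normalizer_iff]
      have hc : ∀ k ∈ T, b * k * b⁻¹ = k := by
        intro k hk
        rw [← hb k hk, mul_inv_cancel_right]
      intro k
      constructor
      · intro hk
        rw [hc k (hK hk)]; exact hk
      · intro hk
        have h3 := hK hk
        have h4 : b⁻¹ * (b * k * b⁻¹) * b = b * k * b⁻¹ := by
          have := hb _ h3
          calc b⁻¹ * (b * k * b⁻¹) * b = b⁻¹ * ((b * k * b⁻¹) * b) := by group
            _ = b⁻¹ * (b * (b * k * b⁻¹)) := by rw [this]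
            _ = b * k * b⁻¹ := by group
        have h5 : b⁻¹ * (b * k * b⁻¹) * b = k := by group
        rw [h5] at h4
        rw [h4]; exact hk
  intro n hn' t ht
  have := h1 hn'
  rw [Subgroup.mem_normalizer_iff] at this
  exact (this t).1 ht

theorem isSimple : IsSimpleGroup T := by
  haveI : Nontrivial T := (Subgroup.nontrivial_iff_ne_bot T).2 D.ne
  constructor
  intro K hK
  have h1 := D.simple' (K := K.map T.subtype) (Subgroup.map_subtype_le K) (by
    rintro t ht _ ⟨k, hk, rfl⟩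
    exact ⟨⟨t, ht⟩ * k * ⟨t, ht⟩⁻¹, hK.conj_mem k hk _, rfl⟩)
  rcases h1 with h1 | h1
  · left
    exact (Subgroup.map_eq_bot_iff_of_injective _ T.subtype_injective).1 h1
  · right
    rw [eq_top_iff]
    intro t _
    have : (t : H) ∈ K.map T.subtype := by rw [h1]; exact t.2
    obtain ⟨k, hk, hkt⟩ := this
    have : k = t := Subtype.ext hkt
    rwa [← this]

end MinT

end Cfsg.Agent.H21.EP
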