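import Cfsg.Agent.H21.EP3

set_option autoImplicit false
set_option linter.all false

/-!
Extremely primitive affine groups, part 4 (helper21): the stabilizers are almost simple.
-/

universe u v

namespace Cfsg.Agent.H21.EP

variable {H : Type u} [Group H] [Finite H] {V : Type v} [CommGroup V] [Finite V] [MulDistribMulAction H V]

section
variable (E : EPA H V) {N T : Subgroup H} (D : MinT N T)
include E D

theorem N_ne : N ≠ ⊥ := by
  intro h
  apply D.ne
  rw [eq_bot_iff, ← h]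
  exact D.le

/-- the stabilizer is transitive on the factors -/
theorem F1 {v : V} (hv : v ≠ 1) (h : H) : ∃ m ∈ MulAction.stabilizer H v, cj h T = cj m T := by
  have h1 : h ∈ N ⊔ MulAction.stabilizer H v := by rw [sup_stab E D.nN (N_ne E D) hv]; exact Subgroup.mem_top h
  rw [sup_comm] at h1
  haveI := D.nN
  obtain ⟨m, hm, n, hn, rfl⟩ := Subgroup.mem_sup_of_normal_right.1 h1
  refine ⟨m, hm, ?_⟩
  rw [← cj_cj]
  congr 1
  symm
  apply le_antisymm
  · intro t ht
    rw [mem_cj]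
    have := D.nor n⁻¹ (N.inv_mem hn) t ht
    rwa [inv_inv] at this
  · intro t ht
    rw [mem_cj] at ht
    have := D.nor n hn _ ht
    have h2 : n * (n⁻¹ * t * n) * n⁻¹ = t := by group
    rwa [h2] at this

theorem F2' {v : V} {m : H} (hm : m ∈ MulAction.stabilizer H v) (K : Subgroup H) :
    cj m K ⊓ MulAction.stabilizer H v = cj m (K ⊓ MulAction.stabilizer H v) := by
  ext x
  rw [Subgroup.mem_inf, mem_cj, mem_cj, Subgroup.mem_inf]
  constructor
  · rintro ⟨h1, h2⟩
    exact ⟨h1, Subgroup.mul_mem _ (Subgroup.mul_mem _ (Subgroup.inv_mem _ hm) h2) hm⟩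
  · rintro ⟨h1, h2⟩
    refine ⟨h1, ?_⟩
    have := Subgroup.mul_mem _ (Subgroup.mul_mem _ hm h2) (Subgroup.inv_mem _ hm)
    have h3 : m * (m⁻¹ * x * m) * m⁻¹ = x := by group
    rwa [h3] at this

theorem F2 {v : V} (hv : v ≠ 1) (h : H) :
    Nat.card (cj h T ⊓ MulAction.stabilizer H v : Subgroup H) = Nat.card (T ⊓ MulAction.stabilizer H v : Subgroup H) := by
  obtain ⟨m, hm, h1⟩ := F1 E D hv h
  rw [h1, F2' E D hm, card_cj]

/-- intersections of factors with stabilizers are self-normalizing -/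
theorem F3 {v : V} (hv : v ≠ 1) (hne : T ⊓ MulAction.stabilizer H v ≠ ⊥) {x : H} (hx : x ∈ T)
    (hn : ∀ y ∈ T ⊓ MulAction.stabilizer H v, x * y * x⁻¹ ∈ T ⊓ MulAction.stabilizer H v) : x ∈ MulAction.stabilizer H v := by
  set M := MulAction.stabilizer H v with hM
  let R : Subgroup H := ⨆ m : M, cj (m : H) (T ⊓ M)
  have hRM : R ≤ M := by
    apply iSup_le
    intro m y hy
    rw [mem_cj] at hy
    have := M.mul_mem (M.mul_mem m.2 (Subgroup.mem_inf.1 hy).2) (M.inv_mem m.2)
    have h3 : (m : H) * ((m : H)⁻¹ * y * m) * (m : H)⁻¹ = y := by group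
    rwa [h3] at this
  have hTR : T ⊓ M ≤ R := by
    have := le_iSup (fun m : M => cj (m : H) (T ⊓ M)) 1
    rwa [OneMemClass.coe_one, cj_one] at this
  by_contra hxM
  -- the set of elements conjugating R into R
  have hconjM : ∀ g ∈ M, cj g R ≤ R := by
    intro g hg
    show Subgroup.map _ _ ≤ _
    rw [Subgroup.map_iSup]
    apply iSup_le
    intro m
    show cj g (cj (m : H) (T ⊓ M)) ≤ _
    rw [cj_cj]
    exact le_iSup (fun m : M => cj (m : H) (T ⊓ M)) (⟨g, hg⟩ * m)
  have hconjx : cj x R ≤ R := by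
    show Subgroup.map _ _ ≤ _
    rw [Subgroup.map_iSup]
    apply iSup_le
    intro m
    by_cases hm : cj (m : H) T = T
    · have h1 : cj (m : H) (T ⊓ M) = T ⊓ M := by rw [← F2' E D m.2, hm]
      show cj x (cj (m : H) (T ⊓ M)) ≤ _
      rw [h1]
      rintro _ ⟨y, hy, rfl⟩
      exact hTR (hn y hy)
    · rintro _ ⟨y, hy, rfl⟩
      have h1 : y ∈ cj (m : H) T := by
        rw [SetLike.mem_coe, mem_cj] at hy
        rw [mem_cj]
        exact (Subgroup.mem_inf.1 hy).1
      have h2 := D.comm hm hx h1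
      have h3 : (MulAut.conj x).toMonoidHom y = y := by
        show x * y * x⁻¹ = y
        rw [h2, mul_inv_cancel_right]
      rw [h3]
      exact le_iSup (fun m : M => cj (m : H) (T ⊓ M)) m hy
  have hnorm : ∀ g : H, cj g R ≤ R → g ∈ Subgroup.normalizer (R : Set H) := by
    intro g hg
    have h1 : cj g R = R := Subgroup.eq_of_le_of_card_ge hg (by rw [card_cj])
    rw [Subgroup.mem_normalizer_iff]
    intro y
    constructor
    · intro hy; exact hg (conj_mem_cj hy)
    · intro hy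
      rw [← h1, mem_cj] at hy
      have h3 : g⁻¹ * (g * y * g⁻¹) * g = y := by group
      rwa [h3] at hy
  have htop : Subgroup.normalizer (R : Set H) = ⊤ := by
    apply (E.coat v hv).2
    apply lt_of_le_of_ne
    · intro g hg; exact hnorm g (hconjM g hg)
    · intro h
      apply hxM
      rw [hM, h]
      exact hnorm x hconjx
  have hRn : R.Normal := Subgroup.normalizer_eq_top_iff.1 htop
  have hR0 := normal_le_stab E hRn hv hRM
  apply hne
  rw [eq_bot_iff, ← hR0]
  exact hTR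

theorem T_not_le {v : V} (hv : v ≠ 1) : ¬ T ≤ MulAction.stabilizer H v := by
  intro h
  have h1 : N ≤ MulAction.stabilizer H v := by
    rw [← D.iSup_eq]
    apply iSup_le
    intro g
    have h2 := F2 E D hv g
    have h3 : T ⊓ MulAction.stabilizer H v = T := inf_eq_left.2 h
    rw [h3, ← card_cj g T] at h2
    have h4 : cj g T ⊓ MulAction.stabilizer H v = cj g T := Subgroup.eq_of_le_of_card_ge inf_le_left h2.ge
    exact inf_eq_left.1 h4
  exact N_ne E D (normal_le_stab E D.nN hv h1)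

end

/-- the key computation -/
theorem key (E : EPA H V) (h2 : ∀ v : V, v * v = 1) {N T1 T2 : Subgroup H} (D1 : MinT N T1) (D2 : MinT N T2)
    (hc : ∀ a ∈ T1, ∀ b ∈ T2, a * b = b * a)
    {v : V} (hv : v ≠ 1) (hR : T2 ⊓ MulAction.stabilizer H v ≠ ⊥)
    (hmax : ∀ v' : V, v' ≠ 1 → Nat.card (T2 ⊓ MulAction.stabilizer H v' : Subgroup H) ≤ Nat.card (T2 ⊓ MulAction.stabilizer H v : Subgroup H))
    {t1 t2 : H} (ht1 : t1 ∈ T1) (ht2 : t2 ∈ T2) (ht2' : t2 ∉ MulAction.stabilizer H v) :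
    v * (t1 * t2) • v ≠ 1 ∧ ∀ a ∈ T1, a • (v * (t1 * t2) • v) = v * (t1 * t2) • v ↔ (a • v = v ∧ a • t1 • v = t1 • v) := by
  have hself : ∀ x ∈ T2, (∀ y ∈ T2 ⊓ MulAction.stabilizer H v, x * y * x⁻¹ ∈ T2 ⊓ MulAction.stabilizer H v) → x ∈ MulAction.stabilizer H v :=
    fun x hx h => F3 E D2 hv hR hx h
  have hinv : ∀ w : V, w⁻¹ = w := fun w => by rw [inv_eq_iff_mul_eq_one]; exact h2 w
  constructor
  · intro h
    have h3 : (t1 * t2) • v = v := by rw [eq_inv_of_mul_eq_one_right h, hinv]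
    apply ht2'
    apply hself t2 ht2
    intro y hy
    obtain ⟨hy1, hy2⟩ := Subgroup.mem_inf.1 hy
    refine Subgroup.mem_inf.2 ⟨T2.mul_mem (T2.mul_mem ht2 hy1) (T2.inv_mem ht2), ?_⟩
    have h4 : t2 * y * t2⁻¹ = (t1 * t2) * y * (t1 * t2)⁻¹ := by
      have h5 : t2 * y * t2⁻¹ ∈ T2 := T2.mul_mem (T2.mul_mem ht2 hy1) (T2.inv_mem ht2)
      have h6 := hc t1 ht1 _ h5
      calc t2 * y * t2⁻¹ = (t2 * y * t2⁻¹) * t1 * t1⁻¹ := by group
        _ = t1 * (t2 * y * t2⁻¹) * t1⁻¹ := by rw [h6]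
        _ = _ := by group
    rw [h4]
    have h7 : t1 * t2 ∈ MulAction.stabilizer H v := h3
    exact Subgroup.mul_mem _ (Subgroup.mul_mem _ h7 hy2) (Subgroup.inv_mem _ h7)
  · intro a ha
    have hc' : ∀ x ∈ T1, ∀ y ∈ T2, ∀ w : V, x • y • w = y • x • w := by
      intro x hx y hy w
      rw [smul_smul, smul_smul, hc x hx y hy]
    constructor
    · intro h
      have hu : (a • v) * v = t2 • ((t1 • v) * (a • t1 • v)) := by
        have h3 : (a • v) * (a • (t1 * t2) • v) = v * (t1 * t2) • v := by rw [← smul_mul']; exact h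
        have h4 : t2 • ((t1 • v) * (a • t1 • v)) = ((t1 * t2) • v) * (a • (t1 * t2) • v) := by
          rw [smul_mul', mul_smul, hc' t1 ht1 t2 ht2, hc' a ha t2 ht2]
        rw [h4]
        calc (a • v) * v = (a • v) * (a • (t1 * t2) • v) * (a • (t1 * t2) • v) * v := by
              rw [mul_assoc (a • v), h2, mul_one]
          _ = v * (t1 * t2) • v * (a • (t1 * t2) • v) * v := by rw [h3]
          _ = (v * v) * (((t1 * t2) • v) * (a • (t1 * t2) • v)) := by
              simp only [mul_comm, mul_left_comm, mul_assoc]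
          _ = _ := by rw [h2, one_mul]
      have hu1 : (a • v) * v = 1 := by
        by_contra hne
        set u := (a • v) * v with hudef
        have hf1 : T2 ⊓ MulAction.stabilizer H v ≤ T2 ⊓ MulAction.stabilizer H u := by
          intro r hr
          obtain ⟨hr1, hr2⟩ := Subgroup.mem_inf.1 hr
          refine Subgroup.mem_inf.2 ⟨hr1, ?_⟩
          rw [MulAction.mem_stabilizer_iff] at hr2 ⊢
          rw [hudef, smul_mul', ← hc' a ha r hr1, hr2]
        have hf2 : T2 ⊓ MulAction.stabilizer H u = T2 ⊓ MulAction.stabilizer H v :=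
          (Subgroup.eq_of_le_of_card_ge hf1 (hmax u hne)).symm
        apply ht2'
        apply hself t2 ht2
        intro y hy
        obtain ⟨hy1, hy2⟩ := Subgroup.mem_inf.1 hy
        rw [← hf2]
        refine Subgroup.mem_inf.2 ⟨T2.mul_mem (T2.mul_mem ht2 hy1) (T2.inv_mem ht2), ?_⟩
        rw [MulAction.mem_stabilizer_iff] at hy2 ⊢
        rw [hu, smul_smul, inv_mul_cancel_right, mul_smul, smul_mul' y, ← hc' a ha y hy1, ← hc' t1 ht1 y hy1, hy2]
      have h5 : a • v = v := by rw [eq_inv_of_mul_eq_one_left hu1, hinv]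
      refine ⟨h5, ?_⟩
      rw [hu1] at hu
      have h6 : (t1 • v) * (a • t1 • v) = 1 := by
        rw [eq_comm, smul_eq_iff_eq_inv_smul, smul_one] at hu
        exact hu
      rw [eq_inv_of_mul_eq_one_right h6, hinv]
    · rintro ⟨h3, h4⟩
      rw [smul_mul', h3, mul_smul, hc' t1 ht1 t2 ht2, hc' a ha t2 ht2, h4]

/-- there is only one factor -/
theorem one_factor (E : EPA H V) (h2 : ∀ v : V, v * v = 1) (hodd : ∀ K : Subgroup H, Odd (Nat.card K) → Group.IsSolvable K)
    {N T : Subgroup H} (D : MinT N T) (h : H) : cj h T = T := by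
  classical
  by_contra hne
  haveI : Fact (Nat.Prime 2) := ⟨Nat.prime_two⟩
  haveI := E.nt
  have D' := D.cj h
  have hc : ∀ a ∈ T, ∀ b ∈ cj h T, a * b = b * a := fun a ha b hb => D.comm hne ha hb
  have hc' : ∀ a ∈ cj h T, ∀ b ∈ T, a * b = b * a := fun a ha b hb => (hc b hb a ha).symm
  -- involutions
  have hinv : ∀ {T' : Subgroup H}, MinT N T' → ∃ t ∈ T', orderOf t = 2 := by
    intro T' D1
    have h1 : 2 ∣ Nat.card T' := by
      by_contra h1
      have h3 : Odd (Nat.card T') := by rw [← Nat.not_even_iff_odd]; exact fun h => h1 h.two_dvd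
      have hs := hodd T' h3
      haveI := D1.isSimple
      haveI := hs
      apply D1.nonab
      intro a ha b hb
      have h4 := IsSimpleGroup.comm_iff_isSolvable.2 hs
      exact congrArg Subtype.val (h4 ⟨a, ha⟩ ⟨b, hb⟩)
    obtain ⟨t, ht⟩ := exists_prime_orderOf_dvd_card' (G := T') 2 h1
    exact ⟨t, t.2, by rw [Subgroup.orderOf_coe]; exact ht⟩
  -- an involution outside of a stabilizer
  have hout : ∀ {T' : Subgroup H}, MinT N T' → ∀ {v : V}, v ≠ 1 → ∃ s ∈ T', s * s = 1 ∧ s ∉ MulAction.stabilizer H v := by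
    intro T' D1 v hv
    by_contra hcon
    push Not at hcon
    obtain ⟨t, ht, ht2⟩ := hinv D1
    have htt : t * t = 1 := by have := pow_orderOf_eq_one t; rwa [ht2, pow_two] at this
    -- the subgroup generated by the involutions
    have h1 := D1.simple' (K := Subgroup.closure {s | s ∈ T' ∧ s * s = 1}) (by
      rw [Subgroup.closure_le]; intro s hs; exact hs.1) (by
      intro x hx k hk
      induction hk using Subgroup.closure_induction with
      | mem s hs =>
        apply Subgroup.subset_closure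
        refine ⟨T'.mul_mem (T'.mul_mem hx hs.1) (T'.inv_mem hx), ?_⟩
        calc x * s * x⁻¹ * (x * s * x⁻¹) = x * (s * s) * x⁻¹ := by group
          _ = 1 := by rw [hs.2]; group
      | one => rw [mul_one, mul_inv_cancel]; exact Subgroup.one_mem _
      | mul a b _ _ ha hb =>
        rw [show x * (a * b) * x⁻¹ = (x * a * x⁻¹) * (x * b * x⁻¹) by group]
        exact Subgroup.mul_mem _ ha hb
      | inv a _ ha =>
        rw [show x * a⁻¹ * x⁻¹ = (x * a * x⁻¹)⁻¹ by group]
        exact Subgroup.inv_mem _ ha)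
    rcases h1 with h1 | h1
    · have h3 : t ∈ Subgroup.closure {s | s ∈ T' ∧ s * s = 1} := Subgroup.subset_closure ⟨ht, htt⟩
      rw [h1, Subgroup.mem_bot] at h3
      rw [h3, orderOf_one] at ht2
      omega
    · apply T_not_le E D1 hv
      rw [← h1, Subgroup.closure_le]
      intro s hs
      exact hcon s hs.1 hs.2
  -- a vector with maximal intersection
  obtain ⟨v, hv, hmax⟩ : ∃ v : V, v ≠ 1 ∧ ∀ v' : V, v' ≠ 1 →
      Nat.card (T ⊓ MulAction.stabilizer H v' : Subgroup H) ≤ Nat.card (T ⊓ MulAction.stabilizer H v : Subgroup H) := by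
    obtain ⟨u, hu⟩ := exists_ne (1 : V)
    obtain ⟨v, hv, hm⟩ := (Set.toFinite {v : V | v ≠ 1}).exists_maximalFor
      (fun v => Nat.card (T ⊓ MulAction.stabilizer H v : Subgroup H)) _ ⟨u, hu⟩
    refine ⟨v, hv, fun v' hv' => ?_⟩
    rcases le_total (Nat.card (T ⊓ MulAction.stabilizer H v' : Subgroup H)) (Nat.card (T ⊓ MulAction.stabilizer H v : Subgroup H)) with h | h
    · exact h
    · exact hm hv' h
  set M := MulAction.stabilizer H v with hM
  have hR : T ⊓ M ≠ ⊥ := by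
    obtain ⟨t, ht, ht2⟩ := hinv D
    have htt : t * t = 1 := by have := pow_orderOf_eq_one t; rwa [ht2, pow_two] at this
    obtain ⟨u, hu, htu⟩ := exists_fixed E h2 htt
    intro hb
    have h3 := hmax u hu
    rw [hb, Subgroup.card_bot] at h3
    have h4 : T ⊓ MulAction.stabilizer H u = ⊥ := by
      rw [← Subgroup.card_eq_one]
      exact le_antisymm h3 Nat.card_pos
    have h5 : t ∈ T ⊓ MulAction.stabilizer H u := Subgroup.mem_inf.2 ⟨ht, htu⟩
    rw [h4, Subgroup.mem_bot] at h5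
    rw [h5, orderOf_one] at ht2
    omega
  have hR2 : cj h T ⊓ M ≠ ⊥ := by
    intro hb
    apply hR
    have := F2 E D hv h
    rw [← hM, hb, Subgroup.card_bot] at this
    rw [← Subgroup.card_eq_one]
    exact this.symm
  have hmax2 : ∀ v' : V, v' ≠ 1 →
      Nat.card (cj h T ⊓ MulAction.stabilizer H v' : Subgroup H) ≤ Nat.card (cj h T ⊓ M : Subgroup H) := by
    intro v' hv'
    rw [F2 E D hv' h, F2 E D hv h]
    exact hmax v' hv'
  -- the sizes of the intersections
  have hsize : ∀ t1 ∈ T, t1 ∉ M → ∀ t2 ∈ cj h T, t2 ∉ M →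
      Nat.card (T ⊓ MulAction.stabilizer H (v * (t1 * t2) • v) : Subgroup H) =
      Nat.card (cj h T ⊓ MulAction.stabilizer H (v * (t1 * t2) • v) : Subgroup H) := by
    intro t1 ht1 ht1' t2 ht2 ht2'
    have hw := (key E h2 D D' hc hv hR2 hmax2 ht1 ht2 ht2').1
    exact (F2 E D hw h).symm
  have hint : ∀ t1 ∈ T, t1 ∉ M → ∀ t2 ∈ cj h T, t2 ∉ M →
      T ⊓ MulAction.stabilizer H (v * (t1 * t2) • v) = (T ⊓ M) ⊓ MulAction.stabilizer H (t1 • v) := by
    intro t1 ht1 ht1' t2 ht2 ht2'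
    have hw := (key E h2 D D' hc hv hR2 hmax2 ht1 ht2 ht2').2
    ext a
    rw [Subgroup.mem_inf, Subgroup.mem_inf, Subgroup.mem_inf]
    constructor
    · rintro ⟨ha, h3⟩
      have := (hw a ha).1 h3
      exact ⟨⟨ha, this.1⟩, this.2⟩
    · rintro ⟨⟨ha, h3⟩, h4⟩
      exact ⟨ha, (hw a ha).2 ⟨h3, h4⟩⟩
  have hint2 : ∀ t1 ∈ T, t1 ∉ M → ∀ t2 ∈ cj h T, t2 ∉ M →
      cj h T ⊓ MulAction.stabilizer H (v * (t1 * t2) • v) = (cj h T ⊓ M) ⊓ MulAction.stabilizer H (t2 • v) := by
    intro t1 ht1 ht1' t2 ht2 ht2'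
    have hw := (key E h2 D' D hc' hv hR hmax ht2 ht1 ht1').2
    rw [hc' t2 ht2 t1 ht1] at hw
    ext a
    rw [Subgroup.mem_inf, Subgroup.mem_inf, Subgroup.mem_inf]
    constructor
    · rintro ⟨ha, h3⟩
      have := (hw a ha).1 h3
      exact ⟨⟨ha, this.1⟩, this.2⟩
    · rintro ⟨⟨ha, h3⟩, h4⟩
      exact ⟨ha, (hw a ha).2 ⟨h3, h4⟩⟩
  -- involutions outside
  obtain ⟨s1, hs1, hs1s, hs1'⟩ := hout D hv
  obtain ⟨s2, hs2, hs2s, hs2'⟩ := hout D' hv
  have htriv : T ⊓ MulAction.stabilizer H (v * (s1 * s2) • v) = ⊥ := by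
    by_contra hne2
    have hw1 := (key E h2 D D' hc hv hR2 hmax2 hs1 hs2 hs2').1
    have hsw : (s1 * s2) • (v * (s1 * s2) • v) = v * (s1 * s2) • v := by
      rw [smul_mul', smul_smul]
      have : s1 * s2 * (s1 * s2) = 1 := by
        calc s1 * s2 * (s1 * s2) = s1 * (s2 * s1) * s2 := by group
          _ = s1 * s1 * (s2 * s2) := by rw [← hc s1 hs1 s2 hs2]; group
          _ = 1 := by rw [hs1s, hs2s, one_mul]
      rw [this, one_smul, mul_comm]
    have h3 : s1 ∈ MulAction.stabilizer H (v * (s1 * s2) • v) := by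
      apply F3 E D hw1 hne2 hs1
      intro y hy
      obtain ⟨hy1, hy2⟩ := Subgroup.mem_inf.1 hy
      refine Subgroup.mem_inf.2 ⟨T.mul_mem (T.mul_mem hs1 hy1) (T.inv_mem hs1), ?_⟩
      have h4 : s1 * y * s1⁻¹ = (s1 * s2) * y * (s1 * s2)⁻¹ := by
        have h5 := hc y hy1 s2 hs2
        calc s1 * y * s1⁻¹ = s1 * (y * s2) * s2⁻¹ * s1⁻¹ := by group
          _ = s1 * (s2 * y) * s2⁻¹ * s1⁻¹ := by rw [h5]
          _ = _ := by group
      rw [h4]
      exact Subgroup.mul_mem _ (Subgroup.mul_mem _ hsw hy2) (Subgroup.inv_mem _ hsw)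
    have h5 : s1 ∈ (T ⊓ M) ⊓ MulAction.stabilizer H (s1 • v) := by
      rw [← hint s1 hs1 hs1' s2 hs2 hs2']
      exact Subgroup.mem_inf.2 ⟨hs1, h3⟩
    exact hs1' (Subgroup.mem_inf.1 (Subgroup.mem_inf.1 h5).1).2
  have htriv2 : Nat.card ((cj h T ⊓ M) ⊓ MulAction.stabilizer H (s2 • v) : Subgroup H) = 1 := by
    rw [← hint2 s1 hs1 hs1' s2 hs2 hs2', ← hsize s1 hs1 hs1' s2 hs2 hs2', htriv, Subgroup.card_bot]
  have hmal : ∀ t1 ∈ T, t1 ∉ M → (T ⊓ M) ⊓ MulAction.stabilizer H (t1 • v) = ⊥ := by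
    intro t1 ht1 ht1'
    rw [← hint t1 ht1 ht1' s2 hs2 hs2', ← Subgroup.card_eq_one, hsize t1 ht1 ht1' s2 hs2 hs2',
      hint2 t1 ht1 ht1' s2 hs2 hs2', htriv2]
  -- a Frobenius complement in T
  haveI := D.isSimple
  have hF : Cfsg.IsFrobeniusComplement (M.subgroupOf T) := by
    refine ⟨?_, ?_, ?_⟩
    · intro hb
      apply hR
      rw [Subgroup.eq_bot_iff_forall] at hb ⊢
      intro x hx
      obtain ⟨hx1, hx2⟩ := Subgroup.mem_inf.1 hx
      exact congrArg Subtype.val (hb ⟨x, hx1⟩ hx2)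
    · intro ht
      rw [Subgroup.subgroupOf_eq_top] at ht
      exact T_not_le E D hv ht
    · intro g hg
      rw [Subgroup.eq_bot_iff_forall]
      intro x hx
      obtain ⟨hx1, hx2⟩ := Subgroup.mem_inf.1 hx
      have hgM : (g : H) ∉ M := hg
      have h3 : (x : H) ∈ (T ⊓ M) ⊓ MulAction.stabilizer H ((g : H) • v) := by
        refine Subgroup.mem_inf.2 ⟨Subgroup.mem_inf.2 ⟨x.2, hx1⟩, ?_⟩
        obtain ⟨y, hy, hyx⟩ := Subgroup.mem_map.1 hx2
        have h4 : (x : H) = g * y * (g : H)⁻¹ := by rw [← hyx]; rfl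
        rw [MulAction.mem_stabilizer_iff, h4, smul_smul, inv_mul_cancel_right, mul_smul]
        have h5 : (y : H) • v = v := hy
        rw [h5]
      rw [hmal g g.2 hgM, Subgroup.mem_bot] at h3
      exact Subtype.ext h3
  obtain ⟨K, -, hKn, hKc⟩ := H25.frobenius_kernel hF
  rcases hKn.eq_bot_or_eq_top with hK | hK
  · rw [hK] at hKc
    have := Subgroup.isComplement'_bot_left.1 hKc
    exact hF.2.1 this
  · rw [hK] at hKc
    have := Subgroup.isComplement'_top_left.1 hKc
    exact hF.1 this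

end Cfsg.Agent.H21.EP
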