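import Cfsg.Agent.H21.EP4

set_option autoImplicit false
set_option linter.all false

/-!
Extremely primitive affine groups, part 5 (helper21): the theorem.
-/

universe u v

namespace Cfsg.Agent.H21.EP

section
variable {H : Type u} [Group H] [Finite H] {V : Type v} [CommGroup V] [Finite V] [MulDistribMulAction H V]

theorem exists_simple (E : EPA H V) (h2 : ∀ v : V, v * v = 1) (hodd : ∀ K : Subgroup H, Odd (Nat.card K) → Group.IsSolvable K) :
    ∃ T : Subgroup H, T.Normal ∧ IsSimpleGroup T ∧ ¬ IsMulCommutative T ∧ Subgroup.centralizer (T : Set H) = ⊥ := by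
  classical
  haveI : Fact (Nat.Prime 2) := ⟨Nat.prime_two⟩
  haveI := E.nt
  have htop : (⊤ : Subgroup H) ≠ ⊥ := by
    intro h
    apply E.ns
    haveI : Subsingleton H := by
      rw [← Subgroup.subsingleton_iff]
      exact subsingleton_of_bot_eq_top h.symm
    infer_instance
  obtain ⟨N, hN, hN0, -, hNm⟩ := H1.exists_minimal_normal_le (N := (⊤ : Subgroup H)) inferInstance htop
  have hNs : ¬ Group.IsSolvable N := fun hs => hN0 (no_abelian E h2 hN hs)
  have hcN : Subgroup.centralizer (N : Set H) = ⊥ := by
    by_contra hC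
    have hev : 2 ∣ Nat.card N := by
      by_contra h1
      exact hNs (hodd N (by rw [← Nat.not_even_iff_odd]; exact fun h => h1 h.two_dvd))
    obtain ⟨t, ht⟩ := exists_prime_orderOf_dvd_card' (G := N) 2 hev
    have htt : (t : H) * t = 1 := by
      have := pow_orderOf_eq_one t
      rw [ht, pow_two] at this
      exact congrArg Subtype.val this
    obtain ⟨v, hv, hfix⟩ := exists_fixed E h2 htt
    have h3 := free_of_comm E hN (N1 := Subgroup.centralizer (N : Set H)) inferInstance hC (by
      intro a ha b hb
      rw [Subgroup.mem_centralizer_iff] at hb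
      exact hb a ha) hv
    have h4 : (t : H) ∈ N ⊓ MulAction.stabilizer H v := Subgroup.mem_inf.2 ⟨t.2, hfix⟩
    rw [h3, Subgroup.mem_bot] at h4
    have h5 : t = 1 := Subtype.ext h4
    rw [h5, orderOf_one] at ht
    omega
  obtain ⟨T, D⟩ := exists_minT hN hN0 hNm hcN
  have hT : N = T := by
    rw [← D.iSup_eq]
    apply le_antisymm
    · apply iSup_le
      intro h
      rw [one_factor E h2 hodd D h]
    · have := le_iSup (fun h => cj h T) 1
      rwa [cj_one] at this
  refine ⟨T, by rw [← hT]; exact hN, D.isSimple, ?_, by rw [← hT]; exact hcN⟩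
  intro hc
  apply D.nonab
  intro a ha b hb
  exact congrArg Subtype.val (hc.is_comm.comm ⟨a, ha⟩ ⟨b, hb⟩)

end

theorem row3521 (hFT : ∀ {K : Type u} [Group K] [Finite K], Odd (Nat.card K) → Group.IsSolvable K)
    {G : Type u} [Group G] [Finite G] {Ω : Type v} [Fintype Ω] [MulAction G Ω] [FaithfulSMul G Ω] (p d : ℕ) (hp : p.Prime)
    (hcard : Fintype.card Ω = p ^ d) (hsol : ¬ Group.IsSolvable G)
    (N : Subgroup G) [hNn : N.Normal] (hN : N ≠ ⊥) (hNc : IsMulCommutative N) (hNreg : ∀ ω : Ω, MulAction.stabilizer N ω = ⊥)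
    (hprim : MulAction.IsPreprimitive G Ω) (hH : ∀ α : Ω, MulAction.stabilizer G α ≠ ⊥)
    (hep : ∀ (α : Ω) (ω : Ω), MulAction.IsPreprimitive (MulAction.stabilizer G α) (MulAction.orbit (MulAction.stabilizer G α) ω)) (α : Ω) :
    p = 2 ∧ ∃ T : Subgroup (MulAction.stabilizer G α), T.Normal ∧ IsSimpleGroup T ∧ ¬ IsMulCommutative T ∧
      Subgroup.centralizer (T : Set (MulAction.stabilizer G α)) = ⊥ := by
  classical
  set H := MulAction.stabilizer G α with hHdef
  have hNcomm : ∀ a ∈ N, ∀ b ∈ N, a * b = b * a := fun a ha b hb => congrArg Subtype.val (hNc.is_comm.comm ⟨a, ha⟩ ⟨b, hb⟩)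
  -- regularity
  have hreg : ∀ n ∈ N, ∀ ω : Ω, n • ω = ω → n = 1 := by
    intro n hn ω h
    have h1 : (⟨n, hn⟩ : N) ∈ MulAction.stabilizer N ω := h
    rw [hNreg ω, Subgroup.mem_bot] at h1
    exact congrArg Subtype.val h1
  -- normal subgroups are transitive
  have htr : ∀ K : Subgroup G, K.Normal → K ≠ ⊥ → ∀ ω ω' : Ω, ∃ k ∈ K, k • ω = ω' := by
    intro K hK hK0 ω ω'
    haveI := hprim
    haveI := hK
    have hfp : MulAction.fixedPoints K Ω ≠ Set.univ := by
      intro h
      apply hK0
      rw [Subgroup.eq_bot_iff_forall]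
      intro k hk
      apply FaithfulSMul.eq_of_smul_eq_smul (α := Ω)
      intro ω
      have : ω ∈ MulAction.fixedPoints K Ω := by rw [h]; trivial
      rw [one_smul]
      exact this ⟨k, hk⟩
    haveI : MulAction.IsPretransitive K Ω := MulAction.IsQuasiPreprimitive.isPretransitive_of_normal hfp
    obtain ⟨k, hk⟩ := MulAction.exists_smul_eq K ω ω'
    exact ⟨k, k.2, hk⟩
  have hNtr := htr N hNn hN
  -- the action on N
  letI : CommGroup N := { (inferInstance : Group N) with mul_comm := fun a b => hNc.is_comm.comm a b }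
  letI : MulDistribMulAction H N := MulDistribMulAction.compHom N ((MulAut.conjNormal (G := G) (H := N)).comp H.subtype)
  have hact : ∀ (h : H) (n : N), ((h • n : N) : G) = (h : G) * n * (h : G)⁻¹ := fun h n => rfl
  have hα : ∀ h : H, (h : G) • α = α := fun h => h.2
  -- correspondence of the actions
  have hcorr : ∀ (h : H) (n : N), (h : G) • ((n : G) • α) = ((h • n : N) : G) • α := by
    intro h n
    rw [hact, smul_smul, mul_smul ((h : G) * n), inv_smul_eq_iff.2 (hα h).symm]
  have hinj : ∀ n n' : N, (n : G) • α = (n' : G) • α → n = n' := by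
    intro n n' h
    have h1 : ((n' : G)⁻¹ * n) • α = α := by rw [mul_smul, h, inv_smul_smul]
    have h2 := hreg _ (N.mul_mem (N.inv_mem n'.2) n.2) α h1
    rw [inv_mul_eq_one] at h2
    exact Subtype.ext h2.symm
  have hcardN : Nat.card N = p ^ d := by
    rw [← hcard, ← Nat.card_eq_fintype_card]
    apply Nat.card_congr
    apply Equiv.ofBijective (fun n : N => (n : G) • α)
    refine ⟨fun n n' h => hinj n n' h, fun ω => ?_⟩
    obtain ⟨k, hk, hkω⟩ := hNtr α ω
    exact ⟨⟨k, hk⟩, hkω⟩
  -- G = N H
  have hGNH : ∀ g : G, ∃ n ∈ N, ∃ h ∈ H, g = n * h := by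
    intro g
    obtain ⟨n, hn, hnα⟩ := hNtr α (g • α)
    refine ⟨n, hn, n⁻¹ * g, ?_, by group⟩
    rw [hHdef, MulAction.mem_stabilizer_iff, mul_smul, ← hnα, inv_smul_smul]
  haveI hNnt : Nontrivial N := (Subgroup.nontrivial_iff_ne_bot N).2 hN
  -- the structure
  have E : EPA H N := by
    have hirr : ∀ W : Subgroup N, (∀ h : H, ∀ w ∈ W, h • w ∈ W) → W = ⊥ ∨ W = ⊤ := by
      intro W hW
      by_cases hW0 : W = ⊥
      · exact Or.inl hW0
      right
      have hWn : (W.map N.subtype).Normal := by
        constructor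
        rintro _ ⟨w, hw, rfl⟩ g
        obtain ⟨n, hn, h, hh, rfl⟩ := hGNH g
        refine ⟨(⟨h, hh⟩ : H) • w, hW ⟨h, hh⟩ w hw, ?_⟩
        show h * (w : G) * h⁻¹ = n * h * (w : G) * (n * h)⁻¹
        have h3 : h * (w : G) * h⁻¹ ∈ N := hNn.conj_mem _ w.2 h
        have h4 := hNcomm n hn _ h3
        calc h * (w : G) * h⁻¹ = (h * (w : G) * h⁻¹) * n * n⁻¹ := by group
          _ = n * (h * (w : G) * h⁻¹) * n⁻¹ := by rw [h4]
          _ = _ := by group
      have hWne : W.map N.subtype ≠ ⊥ := by
        intro h
        exact hW0 ((Subgroup.map_eq_bot_iff_of_injective _ N.subtype_injective).1 h)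
      rw [eq_top_iff]
      intro n _
      obtain ⟨k, hk, hkn⟩ := htr _ hWn hWne α ((n : G) • α)
      obtain ⟨w, hw, rfl⟩ := hk
      have : w = n := hinj w n hkn
      rw [← this]; exact hw
    have hfaith : ∀ h : H, (∀ v : N, h • v = v) → h = 1 := by
      intro h hh
      apply Subtype.ext
      apply FaithfulSMul.eq_of_smul_eq_smul (α := Ω)
      intro ω
      obtain ⟨n, hn, rfl⟩ := hNtr α ω
      rw [hcorr h ⟨n, hn⟩, hh]
      show n • α = (1 : G) • n • α
      rw [one_smul]
    refine ⟨hfaith, hirr, ?_, ?_, hNnt⟩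
    · intro n hn1
      set ω : Ω := (n : G) • α with hω
      have hstab : MulAction.stabilizer H n = MulAction.stabilizer H ω := by
        ext h
        rw [MulAction.mem_stabilizer_iff, MulAction.mem_stabilizer_iff]
        constructor
        · intro h1
          show (h : G) • ω = ω
          rw [hω, hcorr, h1]
        · intro h1
          apply hinj
          rw [← hcorr]
          exact h1
      have hP := hep α ω
      set O := MulAction.orbit H ω with hO
      have hωO : ω ∈ O := MulAction.mem_orbit_self ω
      -- the orbit is not a singleton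
      haveI : Nontrivial O := by
        by_contra hnt
        rw [not_nontrivial_iff_subsingleton] at hnt
        have hfix : ∀ h : H, (h : G) • ω = ω := by
          intro h
          have h1 : (⟨(h : G) • ω, ⟨h, rfl⟩⟩ : O) = ⟨ω, hωO⟩ := Subsingleton.elim _ _
          exact congrArg Subtype.val h1
        have hfix' : ∀ h : H, h • n = n := by
          intro h
          apply hinj
          rw [← hcorr]
          exact hfix h
        rcases hirr { carrier := {w | ∀ h : H, h • w = w}
                      one_mem' := fun h => smul_one h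
                      mul_mem' := fun {a b} ha hb h => by rw [smul_mul', ha h, hb h]
                      inv_mem' := fun {a} ha h => by rw [smul_inv', ha h] } (by
            intro h w hw
            have := hw h
            rw [this]; exact hw) with h1 | h1
        · apply hn1
          rw [← Subgroup.mem_bot, ← h1]
          exact hfix'
        · apply hH α
          rw [Subgroup.eq_bot_iff_forall]
          intro h hh
          have := hfaith ⟨h, hh⟩ (by
            intro w
            have hw : w ∈ (⊤ : Subgroup N) := Subgroup.mem_top w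
            rw [← h1] at hw
            exact hw ⟨h, hh⟩)
          exact congrArg Subtype.val this
      haveI := hP
      have h1 := (MulAction.isCoatom_stabilizer_iff_preprimitive H (⟨ω, hωO⟩ : O)).2 hP
      have h3 : MulAction.stabilizer H (⟨ω, hωO⟩ : O) = MulAction.stabilizer H ω := by
        ext h
        rw [MulAction.mem_stabilizer_iff, MulAction.mem_stabilizer_iff]
        constructor
        · intro h4; exact congrArg Subtype.val h4
        · intro h4; exact Subtype.ext h4
      rw [hstab, ← h3]
      exact h1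
    · intro hs
      apply hsol
      rw [Group.isSolvable_iff_subgroup_quotient N]
      refine ⟨Group.isSolvable_of_comm (fun a b => hNc.is_comm.comm a b), ?_⟩
      haveI := hs
      apply Group.isSolvable_of_surjective (f := (QuotientGroup.mk' N).comp H.subtype)
      intro x
      obtain ⟨g, rfl⟩ := QuotientGroup.mk_surjective x
      obtain ⟨n, hn, h, hh, rfl⟩ := hGNH g
      refine ⟨⟨h, hh⟩, ?_⟩
      show ((h : G) : G ⧸ N) = ((n * h : G) : G ⧸ N)
      rw [QuotientGroup.mk_mul, (QuotientGroup.eq_one_iff n).2 hn, one_mul]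
  -- exponent p
  haveI : Fact p.Prime := ⟨hp⟩
  have hd : d ≠ 0 := by
    rintro rfl
    rw [pow_zero] at hcardN
    have := Finite.one_lt_card (α := N)
    omega
  have hexp : ∀ v : N, v ^ p = 1 := by
    rcases E.irr ((powMonoidHom p : N →* N).ker) (by
      intro h w hw
      rw [MonoidHom.mem_ker, powMonoidHom_apply] at hw ⊢
      rw [← smul_pow', hw, smul_one]) with h1 | h1
    · exfalso
      obtain ⟨x, hx⟩ := exists_prime_orderOf_dvd_card' (G := N) p (by rw [hcardN]; exact dvd_pow_self p hd)
      have h3 : x ∈ (powMonoidHom p : N →* N).ker := by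
        rw [MonoidHom.mem_ker, powMonoidHom_apply, ← hx]; exact pow_orderOf_eq_one x
      rw [h1, Subgroup.mem_bot] at h3
      rw [h3, orderOf_one] at hx
      exact hp.one_lt.ne hx
    · intro v
      have : v ∈ (powMonoidHom p : N →* N).ker := by rw [h1]; exact Subgroup.mem_top v
      exact this
  have hp2 : p = 2 := eq_two E (fun h => hFT h) hp hexp
  refine ⟨hp2, exists_simple E (fun v => ?_) (fun K hK => hFT hK)⟩
  have := hexp v
  rwa [hp2, pow_two] at this

end Cfsg.Agent.H21.EP
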