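import Cfsg.Agent.H9.Simple

set_option autoImplicit false
set_option linter.all false

/-!
A finite nonabelian simple group with a group `X` of power-compatible, commutation-preserving permutations
containing the inner automorphisms cannot have all point stabilisers maximal (helper21).
The final step in "extremely primitive groups are affine or almost simple".
-/

namespace Cfsg.Agent.H21

open MulAction

theorem card_center_mul_sq_le {P : Type*} [Group P] [Finite P] {p : ℕ} [hp : Fact p.Prime] (hP : IsPGroup p P)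
    (hna : ¬ ∀ a b : P, a * b = b * a) : Nat.card (Subgroup.center P) * p ^ 2 ≤ Nat.card P := by
  have h1 : Nat.card (Subgroup.center P) * (Subgroup.center P).index = Nat.card P := Subgroup.card_mul_index _
  obtain ⟨n, hn⟩ := IsPGroup.iff_card.1 hP
  have h2 : (Subgroup.center P).index ∣ p ^ n := by rw [← hn]; exact Subgroup.index_dvd_card _
  obtain ⟨k, hk, hk2⟩ := (Nat.dvd_prime_pow hp.out).1 h2
  have h3 : 2 ≤ k := by
    by_contra hcon
    push Not at hcon
    apply hna
    interval_cases k
    · rw [pow_zero, Subgroup.index_eq_one] at hk2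
      intro a b
      have : a ∈ Subgroup.center P := by rw [hk2]; trivial
      exact (Subgroup.mem_center_iff.1 this b).symm
    · rw [pow_one] at hk2
      haveI : IsCyclic (P ⧸ Subgroup.center P) := isCyclic_of_prime_card (p := p) (by rw [← hk2]; rfl)
      have := isMulCommutative_of_isCyclic_quotient_center_self P
      exact fun a b => this.is_comm.comm a b
  rw [← h1, hk2]
  exact Nat.mul_le_mul_left _ (Nat.pow_le_pow_right hp.out.pos h3)

theorem sum_inv_sq_le (n : ℕ) (hn : 1 ≤ n) : ∑ k ∈ Finset.Icc 2 n, (1 : ℚ) / (k : ℚ) ^ 2 ≤ 1 - 1 / n := by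
  induction n, hn using Nat.le_induction with
  | base => simp
  | succ n hn ih =>
    rw [Finset.sum_Icc_succ_top (by omega)]
    have hn' : (0 : ℚ) < n := by exact_mod_cast hn
    have h1 : (1 : ℚ) / ((n + 1 : ℕ) : ℚ) ^ 2 ≤ 1 / n - 1 / ((n + 1 : ℕ) : ℚ) := by
      push_cast
      rw [div_sub_div _ _ hn'.ne' (by positivity), div_le_div_iff₀ (by positivity) (by positivity)]
      nlinarith
    linarith

section F
variable {T : Type*} [Group T] [Finite T] [IsSimpleGroup T] {X : Type*} [Group X] [MulAction X T]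

theorem simple_center_eq_bot (hna : ¬ IsMulCommutative T) {t : T} (h : ∀ s : T, s * t = t * s) : t = 1 := by
  have h1 : t ∈ Subgroup.center T := Subgroup.mem_center_iff.2 h
  rcases (inferInstance : (Subgroup.center T).Normal).eq_bot_or_eq_top with h2 | h2
  · rwa [h2, Subgroup.mem_bot] at h1
  · exfalso
    apply hna
    refine ⟨⟨fun a b => ?_⟩⟩
    have : b ∈ Subgroup.center T := by rw [h2]; trivial
    exact Subgroup.mem_center_iff.1 this a

theorem extprim_final (hna : ¬ IsMulCommutative T)
    (ha : ∀ (x : X) (t : T) (j : ℕ), x • (t ^ j) = (x • t) ^ j)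
    (hb : ∀ (x : X) (s t : T), s * t = t * s → (x • s) * (x • t) = (x • t) * (x • s))
    (hc : ∀ s : T, ∃ x : X, ∀ t : T, x • t = s * t * s⁻¹)
    (hd : ∀ t : T, t ≠ 1 → ∀ K : Subgroup X, stabilizer X t ≤ K → K = stabilizer X t ∨ K = ⊤) : False := by
  classical
  -- stabilisers are proper
  have hprop : ∀ t : T, t ≠ 1 → stabilizer X t ≠ ⊤ := by
    intro t ht h
    apply ht
    apply simple_center_eq_bot hna
    intro s
    obtain ⟨x, hx⟩ := hc s
    have h1 : x • t = t := by
      have : x ∈ stabilizer X t := by rw [h]; trivial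
      exact this
    rw [hx] at h1
    exact mul_inv_eq_iff_eq_mul.1 h1
  -- F1
  have F1 : ∀ (t : T) (j : ℕ), t ^ j ≠ 1 → stabilizer X (t ^ j) = stabilizer X t := by
    intro t j htj
    have ht : t ≠ 1 := by rintro rfl; exact htj (one_pow j)
    have hle : stabilizer X t ≤ stabilizer X (t ^ j) := by
      intro x hx
      rw [mem_stabilizer_iff] at hx ⊢
      rw [ha, hx]
    rcases hd t ht _ hle with h | h
    · exact h
    · exact absurd h (hprop _ htj)
  -- centralisers as a function
  have memC : ∀ (t g : T), g ∈ Subgroup.centralizer ({t} : Set T) ↔ g * t = t * g := by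
    intro t g
    rw [Subgroup.mem_centralizer_singleton_iff]
  -- F2
  have F2 : ∀ s t : T, stabilizer X s = stabilizer X t → Subgroup.centralizer ({s} : Set T) ≤ Subgroup.centralizer ({t} : Set T) := by
    intro s t hst g hg
    rw [memC] at hg ⊢
    obtain ⟨x, hx⟩ := hc g
    have h1 : x ∈ stabilizer X s := by
      rw [mem_stabilizer_iff, hx, hg, mul_inv_cancel_right]
    rw [hst, mem_stabilizer_iff, hx] at h1
    exact mul_inv_eq_iff_eq_mul.1 h1
  have F2' : ∀ s t : T, stabilizer X s = stabilizer X t → Subgroup.centralizer ({s} : Set T) = Subgroup.centralizer ({t} : Set T) :=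
    fun s t hst => le_antisymm (F2 s t hst) (F2 t s hst.symm)
  -- F3
  have F3 : ∀ t : T, t ≠ 1 → ∀ g : T, (∀ u, u ∈ Subgroup.centralizer ({t} : Set T) ↔ g * u * g⁻¹ ∈ Subgroup.centralizer ({t} : Set T)) →
      g ∈ Subgroup.centralizer ({t} : Set T) := by
    intro t ht g hg
    let K : Subgroup X :=
      { carrier := {x | ∀ u, u ∈ Subgroup.centralizer ({t} : Set T) ↔ x • u ∈ Subgroup.centralizer ({t} : Set T)}
        one_mem' := fun u => by rw [one_smul]
        mul_mem' := by
          intro x y hx hy u
          rw [mul_smul, ← hx, ← hy]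
        inv_mem' := by
          intro x hx u
          rw [hx (x⁻¹ • u), smul_inv_smul] }
    have hKmem : ∀ x, x ∈ K ↔ ∀ u, u ∈ Subgroup.centralizer ({t} : Set T) ↔ x • u ∈ Subgroup.centralizer ({t} : Set T) := fun x => Iff.rfl
    have hle : stabilizer X t ≤ K := by
      have key : ∀ x, x ∈ stabilizer X t → ∀ u, u ∈ Subgroup.centralizer ({t} : Set T) → x • u ∈ Subgroup.centralizer ({t} : Set T) := by
        intro x hx u hu
        rw [memC] at hu ⊢
        have := hb x u t hu
        rwa [mem_stabilizer_iff.1 hx] at this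
      intro x hx
      rw [hKmem]
      intro u
      constructor
      · exact key x hx u
      · intro h
        have := key x⁻¹ ((stabilizer X t).inv_mem hx) _ h
        rwa [inv_smul_smul] at this
    rcases hd t ht K hle with h | h
    · obtain ⟨x, hx⟩ := hc g
      have h1 : x ∈ K := by
        rw [hKmem]
        intro u
        rw [hx]; exact hg u
      rw [h, mem_stabilizer_iff, hx] at h1
      rw [memC]
      exact mul_inv_eq_iff_eq_mul.1 h1
    · exfalso
      have hn : (Subgroup.centralizer ({t} : Set T)).Normal := by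
        constructor
        intro u hu s
        obtain ⟨x, hx⟩ := hc s
        have h1 : x ∈ K := by rw [h]; trivial
        rw [← hx]
        exact ((hKmem x).1 h1 u).1 hu
      rcases hn.eq_bot_or_eq_top with h2 | h2
      · apply ht
        have : t ∈ Subgroup.centralizer ({t} : Set T) := (memC t t).2 rfl
        rwa [h2, Subgroup.mem_bot] at this
      · apply ht
        apply simple_center_eq_bot hna
        intro s
        rw [← memC, h2]; trivial
  -- powers of prime order
  have Fpow : ∀ t : T, t ≠ 1 → ∃ j q : ℕ, q.Prime ∧ orderOf (t ^ j) = q := by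
    intro t ht
    have h1 : orderOf t ≠ 1 := by rwa [Ne, orderOf_eq_one_iff]
    obtain ⟨q, hq, k, hk⟩ := Nat.exists_prime_and_dvd h1
    have hk0 : k ≠ 0 := by rintro rfl; rw [mul_zero] at hk; exact (orderOf_pos t).ne' hk
    refine ⟨k, q, hq, ?_⟩
    rw [orderOf_pow' t hk0, hk, Nat.gcd_mul_left_left]
    exact Nat.mul_div_cancel _ (Nat.pos_of_ne_zero hk0)
  -- commuting elements of different prime orders
  have Fcop : ∀ (s t : T) (p q : ℕ), p.Prime → q.Prime → p ≠ q → orderOf s = p → orderOf t = q → s * t = t * s →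
      stabilizer X s = stabilizer X t := by
    intro s t p q hp hq hpq hs ht hst
    have hcomm : Commute s t := hst
    have hcop : Nat.Coprime p q := (Nat.coprime_primes hp hq).2 hpq
    obtain ⟨j, hj1, hj2⟩ := Nat.chineseRemainder hcop 1 0
    obtain ⟨k, hk1, hk2⟩ := Nat.chineseRemainder hcop 0 1
    have e1 : (s * t) ^ j = s := by
      rw [hcomm.mul_pow]
      have h1 : s ^ j = s := by
        conv_rhs => rw [← pow_one s]
        rw [pow_inj_mod, hs]; exact hj1
      have h2 : t ^ j = 1 := by
        rw [← orderOf_dvd_iff_pow_eq_one, ht]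
        exact (Nat.modEq_zero_iff_dvd).1 hj2
      rw [h1, h2, mul_one]
    have e2 : (s * t) ^ k = t := by
      rw [hcomm.mul_pow]
      have h1 : t ^ k = t := by
        conv_rhs => rw [← pow_one t]
        rw [pow_inj_mod, ht]; exact hk2
      have h2 : s ^ k = 1 := by
        rw [← orderOf_dvd_iff_pow_eq_one, hs]
        exact (Nat.modEq_zero_iff_dvd).1 hk1
      rw [h1, h2, one_mul]
    have hs1 : s ≠ 1 := by rintro rfl; rw [orderOf_one] at hs; exact hp.one_lt.ne hs
    have ht1 : t ≠ 1 := by rintro rfl; rw [orderOf_one] at ht; exact hq.one_lt.ne ht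
    have f1 := F1 (s * t) j (by rw [e1]; exact hs1)
    have f2 := F1 (s * t) k (by rw [e2]; exact ht1)
    rw [e1] at f1
    rw [e2] at f2
    rw [f1, f2]
  -- F4 for elements of prime order
  have F4 : ∀ (t : T) (p : ℕ), p.Prime → orderOf t = p → IsPGroup p (Subgroup.centralizer ({t} : Set T)) := by
    intro t p hp ht
    haveI : Fact p.Prime := ⟨hp⟩
    by_contra hnp
    have ht1 : t ≠ 1 := by rintro rfl; rw [orderOf_one] at ht; exact hp.one_lt.ne ht
    set Q := Subgroup.centralizer ({t} : Set T) with hQ
    -- an element of prime order q ≠ p in Q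
    obtain ⟨s, q, hq, hqp, hsQ, hs⟩ : ∃ (s : T) (q : ℕ), q.Prime ∧ q ≠ p ∧ s ∈ Q ∧ orderOf s = q := by
      by_contra hcon
      push Not at hcon
      apply hnp
      have h1 : Nat.card Q = p ^ (Nat.card Q).primeFactorsList.length := by
        apply Nat.eq_prime_pow_of_unique_prime_dvd Nat.card_pos.ne'
        intro q hq hqd
        by_contra hne
        haveI : Fact q.Prime := ⟨hq⟩
        obtain ⟨s, hs⟩ := exists_prime_orderOf_dvd_card' q hqd
        exact hcon s q hq hne s.2 (by rw [Subgroup.orderOf_coe, hs])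
      exact IsPGroup.of_card h1
    have hst : s * t = t * s := (memC t s).1 hsQ
    have hXs : stabilizer X s = stabilizer X t := Fcop s t q p hq hp hqp hs ht hst
    have hCs : Subgroup.centralizer ({s} : Set T) = Q := F2' s t hXs
    -- all nontrivial elements of Q have the same centraliser
    have hall : ∀ u ∈ Q, u ≠ 1 → Subgroup.centralizer ({u} : Set T) = Q := by
      intro u hu hu1
      obtain ⟨j, r, hr, hjr⟩ := Fpow u hu1
      have huj1 : u ^ j ≠ 1 := by intro h; rw [h, orderOf_one] at hjr; exact hr.one_lt.ne hjr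
      rw [← F2' _ _ (F1 u j huj1)]
      have hujQ : u ^ j ∈ Q := Q.pow_mem hu j
      by_cases hrp : r = p
      · have h1 : u ^ j * s = s * u ^ j := by
          rw [← hCs] at hujQ
          exact (memC s _).1 hujQ
        rw [F2' _ _ (Fcop (u ^ j) s r q hr hq (by rw [hrp]; exact hqp.symm) hjr hs h1), hCs]
      · exact F2' _ _ (Fcop (u ^ j) t r p hr hp hrp hjr ht ((memC t _).1 hujQ))
    have hQab : ∀ a ∈ Q, ∀ b ∈ Q, a * b = b * a := by
      intro a haQ b hbQ
      by_cases hb1 : b = 1
      · rw [hb1, mul_one, one_mul]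
      · have := hall b hbQ hb1
        rw [← this] at haQ
        exact (memC b a).1 haQ
    -- Sylow p-subgroup containing t
    have htz : IsPGroup p (Subgroup.zpowers t) := IsPGroup.of_card (n := 1) (by rw [Nat.card_zpowers, ht, pow_one])
    obtain ⟨R, hR⟩ := htz.exists_le_sylow
    have htR : t ∈ (R : Subgroup T) := hR (Subgroup.mem_zpowers t)
    haveI : Nontrivial (R : Subgroup T) := ⟨⟨t, htR⟩, 1, fun h => ht1 (congrArg Subtype.val h)⟩
    haveI := R.2.center_nontrivial
    obtain ⟨⟨z, hz⟩, hz1⟩ := exists_ne (1 : Subgroup.center (R : Subgroup T))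
    have hz1' : (z : T) ≠ 1 := fun h => hz1 (Subtype.ext (Subtype.ext h))
    have hzc : ∀ g ∈ (R : Subgroup T), g * (z : T) = z * g := fun g hg =>
      congrArg Subtype.val (Subgroup.mem_center_iff.mp hz ⟨g, hg⟩)
    have hzQ : (z : T) ∈ Q := (memC t _).2 (hzc t htR).symm
    have hRQ : (R : Subgroup T) ≤ Q := by
      intro g hg
      rw [← hall _ hzQ hz1']
      exact (memC _ _).2 (hzc g hg)
    refine H9.Simple.not_normalizer_le_centralizer hna (p := p) ?_ R ?_
    · rw [← ht]; exact orderOf_dvd_natCard t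
    · intro g hg
      -- g normalises Q
      have h1 : g * t * g⁻¹ ∈ Q := hRQ ((Subgroup.mem_normalizer_iff.1 hg t).1 htR)
      have h2 : g * t * g⁻¹ ≠ 1 := by
        intro h
        apply ht1
        have : t = g⁻¹ * (g * t * g⁻¹) * g := by group
        rw [this, h]; group
      have h3 := hall _ h1 h2
      have hgQ : g ∈ Q := by
        apply F3 t ht1
        intro u
        show u ∈ Q ↔ g * u * g⁻¹ ∈ Q
        have e1 : u ∈ Q ↔ u * t = t * u := memC t u
        have e2 : g * u * g⁻¹ ∈ Q ↔ (g * u * g⁻¹) * (g * t * g⁻¹) = (g * t * g⁻¹) * (g * u * g⁻¹) := by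
          rw [← h3]; exact memC _ _
        rw [e1, e2]
        constructor
        · intro hu'
          calc g * u * g⁻¹ * (g * t * g⁻¹) = g * (u * t) * g⁻¹ := by group
            _ = g * (t * u) * g⁻¹ := by rw [hu']
            _ = g * t * g⁻¹ * (g * u * g⁻¹) := by group
        · intro hu
          calc u * t = g⁻¹ * (g * u * g⁻¹ * (g * t * g⁻¹)) * g := by group
              _ = g⁻¹ * (g * t * g⁻¹ * (g * u * g⁻¹)) * g := by rw [hu]
              _ = t * u := by group
      rw [Subgroup.mem_centralizer_iff]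
      intro r hr
      exact hQab r (hRQ hr) g hgQ
  -- for every t ≠ 1 the centraliser is a Sylow subgroup
  have F5 : ∀ t : T, t ≠ 1 → ∃ p : ℕ, p.Prime ∧ p ∣ Nat.card T ∧ ∃ P : Sylow p T, (P : Subgroup T) = Subgroup.centralizer ({t} : Set T) := by
    intro t ht
    obtain ⟨j, p, hp, hjp⟩ := Fpow t ht
    have htj1 : t ^ j ≠ 1 := by intro h; rw [h, orderOf_one] at hjp; exact hp.one_lt.ne hjp
    rw [← F2' _ _ (F1 t j htj1)]
    set s := t ^ j with hs
    haveI : Fact p.Prime := ⟨hp⟩
    refine ⟨p, hp, by rw [← hjp]; exact orderOf_dvd_natCard s, ?_⟩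
    have hpg := F4 s p hp hjp
    obtain ⟨P, hP⟩ := hpg.exists_le_sylow
    refine ⟨P, ?_⟩
    by_contra hne
    have hlt : Subgroup.centralizer ({s} : Set T) < P := lt_of_le_of_ne hP (Ne.symm hne)
    -- normaliser grows
    have hnc : NormalizerCondition (P : Subgroup T) := by
      haveI := P.2.isNilpotent
      exact Group.normalizerCondition_of_isNilpotent
    have hlt2 : (Subgroup.centralizer ({s} : Set T)).subgroupOf P < ⊤ := by
      rw [lt_top_iff_ne_top, Ne, Subgroup.subgroupOf_eq_top]
      exact hlt.not_ge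
    obtain ⟨g, hg, hg2⟩ := SetLike.exists_of_lt (hnc _ hlt2)
    apply hg2
    rw [Subgroup.mem_subgroupOf]
    apply F3 s htj1
    intro u
    rw [Subgroup.mem_normalizer_iff] at hg
    constructor
    · intro hu
      have := (hg ⟨u, hP hu⟩).1 (Subgroup.mem_subgroupOf.2 hu)
      exact Subgroup.mem_subgroupOf.1 this
    · intro hu
      have huP : (g : T) * u * (g : T)⁻¹ ∈ (P : Subgroup T) := hP hu
      have huP' : u ∈ (P : Subgroup T) := by
        have := (P : Subgroup T).mul_mem ((P : Subgroup T).mul_mem ((P : Subgroup T).inv_mem g.2) huP) g.2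
        have e : (g : T)⁻¹ * (g * u * (g : T)⁻¹) * g = u := by group
        rwa [e] at this
      have := (hg ⟨u, huP'⟩).2 (Subgroup.mem_subgroupOf.2 hu)
      exact Subgroup.mem_subgroupOf.1 this
  -- for every Sylow p-subgroup, p | |T|: self-normalising, nonabelian
  have F6 : ∀ (p : ℕ) [Fact p.Prime], p ∣ Nat.card T → ∀ P : Sylow p T, Nat.card (Sylow p T) * Nat.card (P : Subgroup T) = Nat.card T ∧
      Nat.card (Subgroup.center (P : Subgroup T)) * p ^ 2 ≤ Nat.card (P : Subgroup T) := by
    intro p hp hpd P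
    have hPne : (P : Subgroup T) ≠ ⊥ := P.ne_bot_of_dvd_card hpd
    haveI : Nontrivial (P : Subgroup T) := (Subgroup.nontrivial_iff_ne_bot _).2 hPne
    haveI := P.2.center_nontrivial
    obtain ⟨⟨z, hz⟩, hz1⟩ := exists_ne (1 : Subgroup.center (P : Subgroup T))
    have hz1' : (z : T) ≠ 1 := fun h => hz1 (Subtype.ext (Subtype.ext h))
    have hzc : ∀ g ∈ (P : Subgroup T), g * (z : T) = z * g := fun g hg =>
      congrArg Subtype.val (Subgroup.mem_center_iff.mp hz ⟨g, hg⟩)
    have hPC : (P : Subgroup T) ≤ Subgroup.centralizer ({(z : T)} : Set T) := fun g hg => (memC _ _).2 (hzc g hg)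
    obtain ⟨q, hq, hqd, Q, hQ⟩ := F5 _ hz1'
    have hqp : q = p := by
      -- both p-group and q-group
      haveI : Fact q.Prime := ⟨hq⟩
      by_contra hne
      have h1 : IsPGroup q (P : Subgroup T) := Q.2.to_le (by rw [hQ]; exact hPC)
      have h2 : IsPGroup p (P : Subgroup T) := P.2
      have := IsPGroup.disjoint_of_ne q p hne _ _ h1 h2
      rw [disjoint_self] at this
      exact hPne this
    subst hqp
    have hPeq : (P : Subgroup T) = Subgroup.centralizer ({(z : T)} : Set T) := by
      rw [← hQ]
      have : (P : Subgroup T) ≤ Q := by rw [hQ]; exact hPC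
      exact P.3 Q.2 this |>.symm
    have hNP : Subgroup.normalizer ((P : Subgroup T) : Set T) = P := by
      apply le_antisymm _ Subgroup.le_normalizer
      intro g hg
      rw [hPeq]
      apply F3 _ hz1'
      intro u
      rw [← hPeq]
      exact Subgroup.mem_normalizer_iff.1 hg u
    constructor
    · have e : Nat.card (Sylow q T) = (P : Subgroup T).index := by
        rw [← hNP]; exact Sylow.card_eq_index_normalizer P
      rw [e, mul_comm]
      exact Subgroup.card_mul_index _
    · apply card_center_mul_sq_le P.2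
      intro hab
      refine H9.Simple.not_normalizer_le_centralizer hna (p := q) hpd P ?_
      rw [hNP]
      intro g hg
      rw [Subgroup.mem_centralizer_iff]
      intro r hr
      exact congrArg Subtype.val (hab ⟨r, hr⟩ ⟨g, hg⟩)
  -- counting
  haveI := Fintype.ofFinite T
  haveI hfS : ∀ p : ℕ, Fintype (Sylow p T) := fun p => Fintype.ofFinite _
  set n := Nat.card T with hn
  have hnpos : 0 < n := Nat.card_pos
  have hn1 : 1 < n := by
    haveI : Nontrivial T := inferInstance
    exact Finite.one_lt_card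
  let Zset : (p : ℕ) → Sylow p T → Finset T := fun p P => Finset.univ.filter (fun t => t ≠ 1 ∧ (P : Subgroup T) = Subgroup.centralizer ({t} : Set T))
  have hcover : (Finset.univ.filter (fun t : T => t ≠ 1)) ⊆ n.primeFactors.biUnion (fun p => Finset.univ.biUnion (fun P : Sylow p T => Zset p P)) := by
    intro t ht
    have ht1 : t ≠ 1 := (Finset.mem_filter.1 ht).2
    obtain ⟨p, hp, hpd, P, hP⟩ := F5 t ht1
    rw [Finset.mem_biUnion]
    refine ⟨p, (Nat.mem_primeFactors.2 ⟨hp, hpd, hnpos.ne'⟩), ?_⟩
    rw [Finset.mem_biUnion]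
    exact ⟨P, Finset.mem_univ _, Finset.mem_filter.2 ⟨Finset.mem_univ _, ht1, hP⟩⟩
  have hcard1 : (Finset.univ.filter (fun t : T => t ≠ 1)).card = n - 1 := by
    rw [Finset.filter_ne', Finset.card_erase_of_mem (Finset.mem_univ _), Finset.card_univ, ← Nat.card_eq_fintype_card]
  have hZ : ∀ p ∈ n.primeFactors, ((Finset.univ.biUnion (fun P : Sylow p T => Zset p P)).card : ℚ) < n * (1 / (p : ℚ) ^ 2) := by
    intro p hp
    have hpp := (Nat.mem_primeFactors.1 hp).1
    have hpd := (Nat.mem_primeFactors.1 hp).2.1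
    haveI : Fact p.Prime := ⟨hpp⟩
    obtain ⟨P₀⟩ : Nonempty (Sylow p T) := inferInstance
    have hc0 : ∀ P : Sylow p T, Nat.card (P : Subgroup T) = Nat.card (P₀ : Subgroup T) := fun P => Nat.card_congr (P.equiv P₀).toEquiv
    have hZP : ∀ P : Sylow p T, (Zset p P).card * p ^ 2 + p ^ 2 ≤ Nat.card (P₀ : Subgroup T) := by
      intro P
      have h1 := (F6 p hpd P).2
      rw [hc0 P] at h1
      have h2 : (Zset p P).card + 1 ≤ Nat.card (Subgroup.center (P : Subgroup T)) := by
        have h3 : (insert (1 : T) (Zset p P)) ⊆ ((Subgroup.center (P : Subgroup T)).map (P : Subgroup T).subtype : Set T).toFinset := by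
          intro t ht
          rw [Set.mem_toFinset]
          rcases Finset.mem_insert.1 ht with h | h
          · rw [h]; exact Subgroup.one_mem _
          · obtain ⟨_, ht1, htP⟩ := Finset.mem_filter.1 h
            have htP' : t ∈ (P : Subgroup T) := by rw [htP]; exact (memC t t).2 rfl
            refine ⟨⟨t, htP'⟩, ?_, rfl⟩
            rw [SetLike.mem_coe, Subgroup.mem_center_iff]
            intro g
            apply Subtype.ext
            have hg : (g : T) ∈ Subgroup.centralizer ({t} : Set T) := by rw [← htP]; exact g.2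
            exact (memC t g).1 hg
        have h4 := Finset.card_le_card h3
        rw [Finset.card_insert_of_notMem] at h4
        · rw [Set.toFinset_card, ← Nat.card_eq_fintype_card] at h4
          refine h4.trans (le_of_eq ?_)
          exact Subgroup.card_map_of_injective (P : Subgroup T).subtype_injective
        · intro h; exact (Finset.mem_filter.1 h).2.1 rfl
      calc (Zset p P).card * p ^ 2 + p ^ 2 = ((Zset p P).card + 1) * p ^ 2 := by ring
        _ ≤ Nat.card (Subgroup.center (P : Subgroup T)) * p ^ 2 := Nat.mul_le_mul_right _ h2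
        _ ≤ _ := h1
    have hsum : ((Finset.univ.biUnion (fun P : Sylow p T => Zset p P)).card) * p ^ 2 < n := by
      have h1 : (Finset.univ.biUnion (fun P : Sylow p T => Zset p P)).card ≤ ∑ P : Sylow p T, (Zset p P).card :=
        Finset.card_biUnion_le
      have hpos2 : 0 < p ^ 2 := pow_pos hpp.pos 2
      have h2 : ∀ P ∈ (Finset.univ : Finset (Sylow p T)), (Zset p P).card * p ^ 2 + 1 ≤ Nat.card (P₀ : Subgroup T) := by
        intro P _
        have := hZP P
        omega
      have h3 := Finset.sum_le_sum h2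
      rw [Finset.sum_add_distrib, Finset.sum_const, Finset.sum_const, smul_eq_mul, smul_eq_mul, Finset.card_univ,
        ← Nat.card_eq_fintype_card, (F6 p hpd P₀).1, ← Finset.sum_mul] at h3
      have h4 : 0 < Nat.card (Sylow p T) := Nat.card_pos
      calc ((Finset.univ.biUnion (fun P : Sylow p T => Zset p P)).card) * p ^ 2 ≤ (∑ P : Sylow p T, (Zset p P).card) * p ^ 2 :=
            Nat.mul_le_mul_right _ h1
        _ < n := by omega
    have hp2 : (0 : ℚ) < (p : ℚ) ^ 2 := by
      have : (0 : ℚ) < p := by exact_mod_cast hpp.pos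
      positivity
    rw [mul_one_div, lt_div_iff₀ hp2]
    exact_mod_cast hsum
  have h1 := Finset.card_le_card hcover
  rw [hcard1] at h1
  have h2 : ((n : ℚ) - 1) ≤ ∑ p ∈ n.primeFactors, ((Finset.univ.biUnion (fun P : Sylow p T => Zset p P)).card : ℚ) := by
    have h3 := h1.trans Finset.card_biUnion_le
    have h4 : ((n - 1 : ℕ) : ℚ) ≤ ((∑ p ∈ n.primeFactors, (Finset.univ.biUnion (fun P : Sylow p T => Zset p P)).card : ℕ) : ℚ) := by
      exact_mod_cast h3
    rw [Nat.cast_sub (by omega)] at h4
    push_cast at h4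
    exact h4
  have hne : n.primeFactors.Nonempty := Nat.nonempty_primeFactors.2 hn1
  have h3 := h2.trans_lt (Finset.sum_lt_sum_of_nonempty hne hZ)
  rw [← Finset.mul_sum] at h3
  have h4 : ∑ p ∈ n.primeFactors, (1 : ℚ) / (p : ℚ) ^ 2 ≤ 1 - 1 / n := by
    refine le_trans ?_ (sum_inv_sq_le n (by omega))
    apply Finset.sum_le_sum_of_subset_of_nonneg
    · intro p hp
      rw [Finset.mem_Icc]
      exact ⟨(Nat.mem_primeFactors.1 hp).1.two_le, Nat.le_of_dvd hnpos (Nat.mem_primeFactors.1 hp).2.1⟩
    · intro i _ _; positivity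
  have hnQ : (0 : ℚ) < n := by exact_mod_cast hnpos
  have h5 : (n : ℚ) * ∑ p ∈ n.primeFactors, (1 : ℚ) / (p : ℚ) ^ 2 ≤ n * (1 - 1 / n) := mul_le_mul_of_nonneg_left h4 hnQ.le
  have h6 : (n : ℚ) * (1 - 1 / n) = n - 1 := by field_simp
  linarith

end F

end Cfsg.Agent.H21
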