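import Cfsg.Agent.H21.ExtPrimR

set_option autoImplicit false
set_option linter.all false

/-!
Extremely primitive groups are affine or almost simple (helper21): main argument.
-/

namespace Cfsg.Agent.H21

open Cfsg.Agent.H22 MulAction

variable {G : Type*} [Group G] {Ω : Type*} [MulAction G Ω]

theorem regular_false [Finite G]
    (hep : ∀ (α : Ω) (ω : Ω), IsPreprimitive (stabilizer G α) (orbit (stabilizer G α) ω))
    (T T' : Subgroup G) (hs : IsSimpleGroup T) (hna : ¬ IsMulCommutative T) (hcomm : ∀ t ∈ T, ∀ s ∈ T', t * s = s * t)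
    (α : Ω) (Z1a : ∀ ω : Ω, ∃ t ∈ T, t • α = ω) (Z1b : ∀ t ∈ T, t • α = α → t = 1)
    (Z2 : ∀ t ∈ T, ∃ s ∈ T', (t * s) • α = α)
    (Z3 : ∀ k : G, k • α = α → (∀ v ∈ T, k * v * k⁻¹ ∈ T) ∨ (∀ v ∈ T, k * v * k⁻¹ ∈ T')) : False := by
  classical
  have uniq : ∀ s t : T, (s : G) • α = (t : G) • α → s = t := by
    intro s t hst
    have h1 : ((t : G)⁻¹ * s) • α = α := by rw [mul_smul, hst, inv_smul_smul]
    have h2 := Z1b _ (T.mul_mem (T.inv_mem t.2) s.2) h1
    exact Subtype.ext (inv_mul_eq_one.1 h2).symm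
  let e : T ≃ Ω := Equiv.ofBijective (fun t : T => (t : G) • α) ⟨fun s t hst => uniq s t hst, fun ω => by
    obtain ⟨t, ht, hω⟩ := Z1a ω
    exact ⟨⟨t, ht⟩, hω⟩⟩
  have he : ∀ t : T, e t = (t : G) • α := fun t => rfl
  letI act : MulAction (stabilizer G α) T :=
    { smul := fun h t => e.symm ((h : G) • e t)
      one_smul := fun t => by
        show e.symm ((1 : G) • e t) = t
        rw [one_smul, Equiv.symm_apply_apply]
      mul_smul := fun h k t => by
        show e.symm (((h : G) * k) • e t) = e.symm ((h : G) • e (e.symm ((k : G) • e t)))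
        rw [Equiv.apply_symm_apply, mul_smul] }
  have hsm : ∀ (h : stabilizer G α) (t : T), ((h • t : T) : G) • α = (h : G) • (t : G) • α := by
    intro h t
    have : e (h • t) = (h : G) • e t := by
      show e (e.symm ((h : G) • e t)) = _
      rw [Equiv.apply_symm_apply]
    rw [he, he] at this
    exact this
  have hconj : ∀ (h : stabilizer G α) (t : G), ((h : G) * t * (h : G)⁻¹) • α = (h : G) • t • α := by
    intro h t
    have hα : (h : G) • α = α := h.2
    rw [mul_smul, mul_smul, inv_smul_eq_iff.2 hα.symm]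
  haveI := hs
  refine extprim_final (T := T) (X := stabilizer G α) hna ?_ ?_ ?_ ?_
  · intro x t j
    apply uniq
    rw [hsm]
    set s := x • t with hsdef
    have hst : (s : G) • α = (x : G) • (t : G) • α := hsm x t
    set w : G := (x : G) * t * (x : G)⁻¹ with hw
    have hwα : w • α = (s : G) • α := by rw [hst, hw, hconj]
    have hwj : w ^ j • α = (x : G) • ((t ^ j : T) : G) • α := by
      rw [hw, conj_pow, hconj]; rfl
    rw [← hwj]
    rcases Z3 x x.2 with h1 | h1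
    · have h2 : s = ⟨w, h1 t t.2⟩ := uniq _ _ hwα.symm
      rw [h2]; rfl
    · have h2 : (s : G) * w = w * s := hcomm s s.2 w (h1 t t.2)
      have h3 : Commute ((s : G)⁻¹) w := (show Commute (s : G) w from h2).inv_left
      have h4 : ((s : G)⁻¹ * w) ^ j • α = α := by
        have : (s : G)⁻¹ * w ∈ stabilizer G α := by
          rw [mem_stabilizer_iff, mul_smul, hwα, inv_smul_smul]
        exact (stabilizer G α).pow_mem this j
      rw [h3.mul_pow, inv_pow, mul_smul, inv_smul_eq_iff] at h4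
      rw [h4]; rfl
  · intro x s t hst
    apply uniq
    set s1 := x • s with hs1
    set t1 := x • t with ht1
    set ws : G := (x : G) * s * (x : G)⁻¹ with hws
    set wt : G := (x : G) * t * (x : G)⁻¹ with hwt
    have hwsα : ws • α = (s1 : G) • α := by rw [hsm, hws, hconj]
    have hwtα : wt • α = (t1 : G) • α := by rw [hsm, hwt, hconj]
    have hst' : (s : G) * t = t * s := congrArg Subtype.val hst
    have hww : ws * wt = wt * ws := by
      rw [hws, hwt]
      calc (x : G) * s * (x : G)⁻¹ * ((x : G) * t * (x : G)⁻¹) = x * (s * t) * (x : G)⁻¹ := by group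
        _ = x * (t * s) * (x : G)⁻¹ := by rw [hst']
        _ = _ := by group
    show ((s1 : G) * (t1 : G)) • α = ((t1 : G) * (s1 : G)) • α
    rcases Z3 x x.2 with h1 | h1
    · have h2 : s1 = ⟨ws, h1 s s.2⟩ := uniq _ _ hwsα.symm
      have h3 : t1 = ⟨wt, h1 t t.2⟩ := uniq _ _ hwtα.symm
      rw [h2, h3]
      show (ws * wt) • α = (wt * ws) • α
      rw [hww]
    · have h2 : (t1 : G) * ws = ws * t1 := hcomm t1 t1.2 ws (h1 s s.2)
      have h3 : (s1 : G) * wt = wt * s1 := hcomm s1 s1.2 wt (h1 t t.2)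
      have p1 : ((s1 : G) * (t1 : G)) • α = (wt * ws) • α := by
        rw [mul_smul, ← hwtα, ← mul_smul, h3, mul_smul, ← hwsα, ← mul_smul]
      have p2 : ((t1 : G) * (s1 : G)) • α = (ws * wt) • α := by
        rw [mul_smul, ← hwsα, ← mul_smul, h2, mul_smul, ← hwtα, ← mul_smul]
      rw [p1, p2, hww]
  · intro s
    obtain ⟨r, hr, hsr⟩ := Z2 s s.2
    refine ⟨⟨(s : G) * r, hsr⟩, ?_⟩
    intro t
    apply uniq
    rw [hsm]
    show ((s : G) * r) • (t : G) • α = ((s : G) * t * (s : G)⁻¹) • α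
    have hrα : r • α = (s : G)⁻¹ • α := by
      rw [mul_smul] at hsr
      rw [eq_inv_smul_iff, hsr]
    have h1 := hcomm t t.2 r hr
    rw [← mul_smul, mul_assoc, ← h1, ← mul_assoc, mul_smul, hrα, ← mul_smul]
  · intro t ht K hK
    have hP := hep α ((t : G) • α)
    let pt : orbit (stabilizer G α) ((t : G) • α) := ⟨(t : G) • α, mem_orbit_self _⟩
    have hstab : stabilizer (stabilizer G α) pt = stabilizer (stabilizer G α) t := by
      ext h
      rw [mem_stabilizer_iff, mem_stabilizer_iff]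
      constructor
      · intro h1
        apply uniq
        rw [hsm]
        exact congrArg Subtype.val h1
      · intro h1
        apply Subtype.ext
        show (h : G) • (t : G) • α = (t : G) • α
        rw [← hsm, h1]
    by_cases hnt : Nontrivial (orbit (stabilizer G α) ((t : G) • α))
    · have hco : IsCoatom (stabilizer (stabilizer G α) pt) := IsPreprimitive.isCoatom_stabilizer_of_isPreprimitive _ pt
      rw [hstab] at hco
      rcases (hco.le_iff).1 hK with h1 | h1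
      · exact Or.inr h1
      · exact Or.inl h1
    · right
      rw [eq_top_iff]
      intro h _
      apply hK
      rw [← hstab, mem_stabilizer_iff]
      rw [not_nontrivial_iff_subsingleton] at hnt
      exact hnt.elim _ _

variable {N T : Subgroup G}

/-- no partner -/
theorem case_star [Finite G] [Finite Ω] [FaithfulSMul G Ω]
    (hprim : IsPreprimitive G Ω)
    (hep : ∀ (α : Ω) (ω : Ω), IsPreprimitive (stabilizer G α) (orbit (stabilizer G α) ω))
    (h : IsTSoc N T) (α : Ω) (hsemi : ∀ ω : Ω, ∀ t ∈ T, t • ω = ω → t = 1)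
    (k₀ : G) (hk₀ : k₀ • α = α) (hk₀T : ¬ ∀ t, t ∈ T ↔ k₀ * t * k₀⁻¹ ∈ T)
    (hstar : ∀ k : G, k • α = α → ∀ a ∈ T, a ≠ 1 → ∀ b ∈ T, a • α = (k * b * k⁻¹) • α → ∀ t, t ∈ T ↔ k * t * k⁻¹ ∈ T) : False := by
  let S : Set Ω := {y | ∃ t ∈ T, t ≠ 1 ∧ y = t • α}
  have hcα : ∀ (k : G), k • α = α → ∀ t : G, k • t • α = (k * t * k⁻¹) • α := by
    intro k hk t
    rw [mul_smul, mul_smul, inv_smul_eq_iff.2 hk.symm]
  have key : ∀ k : G, k • α = α → ∀ t ∈ T, t ≠ 1 → ∀ u ∈ T, u ≠ 1 → k • t • α = u • α → ∀ t, t ∈ T ↔ k * t * k⁻¹ ∈ T := by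
    intro k hk t ht ht1 u hu hu1 htu
    exact hstar k hk u hu hu1 t ht (by rw [← htu, hcα k hk])
  have hinv : ∀ k : G, k • α = α → (∀ t, t ∈ T ↔ k * t * k⁻¹ ∈ T) → ∀ y ∈ S, k • y ∈ S := by
    rintro k hk hkT _ ⟨t, ht, ht1, rfl⟩
    refine ⟨k * t * k⁻¹, (hkT t).1 ht, ?_, hcα k hk t⟩
    intro h1
    apply ht1
    have : t = k⁻¹ * (k * t * k⁻¹) * k := by group
    rw [this, h1]; group
  have main : ∀ z ∈ T, z ≠ 1 → ∀ k : G, k • α = α → (∀ t, t ∈ T ↔ k * t * k⁻¹ ∈ T) → k • z • α = z • α := by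
    intro z hz hz1 k hk hkT
    apply block_lemma α (z • α) (hep α _) S ⟨z, hz, hz1, rfl⟩ _ _ k hk
    · exact hinv k hk hkT _ ⟨z, hz, hz1, rfl⟩
    · rintro g hg ⟨y, ⟨t, ht, ht1, rfl⟩, ⟨u, hu, hu1, htu⟩⟩
      exact hinv g hg (key g hg t ht ht1 u hu hu1 htu)
    · refine ⟨k₀, hk₀, ?_⟩
      rintro ⟨u, hu, hu1, htu⟩
      exact hk₀T (key k₀ hk₀ z hz hz1 u hu hu1 htu)
  obtain ⟨z, hz, hz1⟩ : ∃ x ∈ T, x ≠ 1 := by
    have := h.hT.ne_bot
    rw [Ne, Subgroup.eq_bot_iff_forall] at this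
    push Not at this
    exact this
  have hzα : z • α ≠ α := fun h1 => hz1 (hsemi α z hz h1)
  have hTn : ∀ n ∈ N, ∀ t, t ∈ T ↔ n * t * n⁻¹ ∈ T := by
    intro n hn t
    constructor
    · exact h.hT.conj n hn t
    · intro ht
      have := h.hT.conj n⁻¹ (N.inv_mem hn) _ ht
      have e : n⁻¹ * (n * t * n⁻¹) * n⁻¹⁻¹ = t := by group
      rwa [e] at this
  have hN1 : ∀ n ∈ N, n • α = α → n = 1 := by
    apply normal_fix_eq_one hprim hep h.normal α (z • α) hzα
    intro n hn hnα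
    exact main z hz hz1 n hnα (hTn n hn)
  refine product_contradiction hprim h α hN1 ?_ k₀ hk₀ hk₀T
  intro k hk hkT t ht
  by_cases ht1 : t = 1
  · rw [ht1]; group
  · have h1 := main t ht ht1 k hk hkT
    have h2 : (t⁻¹ * (k * t * k⁻¹)) • α = α := by
      rw [mul_smul, ← hcα k hk, h1, inv_smul_smul]
    have h3 := hsemi α _ (T.mul_mem (T.inv_mem ht) ((hkT t).1 ht)) h2
    exact (inv_mul_eq_one.1 h3).symm

/-- the partner case -/
theorem case_partner [Finite G] [Finite Ω] [FaithfulSMul G Ω]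
    (hprim : IsPreprimitive G Ω)
    (hep : ∀ (α : Ω) (ω : Ω), IsPreprimitive (stabilizer G α) (orbit (stabilizer G α) ω))
    (h : IsTSoc N T) (α : Ω) (hsemi : ∀ ω : Ω, ∀ t ∈ T, t • ω = ω → t = 1)
    (hproj : ∀ t ∈ T, ProjMem N T α t)
    (h₁ : G) (hh₁ : h₁ • α = α) (hh₁T : ¬ ∀ t, t ∈ T ↔ h₁ * t * h₁⁻¹ ∈ T) {a b : G} (ha : a ∈ T) (ha1 : a ≠ 1) (hb : b ∈ T)
    (hab : a • α = (h₁ * b * h₁⁻¹) • α) : False := by
  have hcα : ∀ (k : G), k • α = α → ∀ t : G, k • t • α = (k * t * k⁻¹) • α := by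
    intro k hk t
    rw [mul_smul, mul_smul, inv_smul_eq_iff.2 hk.symm]
  -- general facts on conjugates by elements of the stabiliser
  have hproj' : ∀ k : G, k • α = α → ∀ t ∈ T.map (MulAut.conj k).toMonoidHom, ProjMem N (T.map (MulAut.conj k).toMonoidHom) α t := by
    intro k hk t ht
    rw [mem_cj] at ht
    obtain ⟨c, hc, hc', hcα'⟩ := hproj _ ht
    refine ⟨k * c * k⁻¹, h.normal.conj_mem c hc k, ?_, ?_⟩
    · intro s hs
      rw [mem_cj] at hs
      have := hc' _ hs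
      calc s * (k * c * k⁻¹) = k * ((k⁻¹ * s * k) * c) * k⁻¹ := by group
        _ = k * (c * (k⁻¹ * s * k)) * k⁻¹ := by rw [this]
        _ = k * c * k⁻¹ * s := by group
    · have e : t * (k * c * k⁻¹) = k * (k⁻¹ * t * k * c) * k⁻¹ := by group
      rw [e, ← hcα k hk, hcα', hk]
  set T' := T.map (MulAut.conj h₁).toMonoidHom with hT'
  have memT' : ∀ x, x ∈ T' ↔ h₁⁻¹ * x * h₁ ∈ T := fun x => mem_cj
  have hcj : ∀ k t : G, k⁻¹ * (k * t * k⁻¹) * k = t := fun k t => by group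
  have hsoc' : IsTSoc N T' := h.conj h₁
  have hcommk : ∀ k : G, (¬ ∀ t, t ∈ T ↔ k * t * k⁻¹ ∈ T) → ∀ t ∈ T, ∀ s ∈ T.map (MulAut.conj k).toMonoidHom, t * s = s * t := by
    intro k hk t ht s hs
    have h1 := (h.conj_dich k).resolve_left hk
    rw [mem_cj] at hs
    have := h1 _ hs t ht
    have e : k * (k⁻¹ * s * k) * k⁻¹ = s := by group
    rwa [e] at this
  have hcomm : ∀ t ∈ T, ∀ s ∈ T', t * s = s * t := hcommk h₁ hh₁T
  have hbT' : h₁ * b * h₁⁻¹ ∈ T' := by rw [memT', hcj]; exact hb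
  have P1 := pair_lemma h hsoc' hcomm α hproj ha ha1 hbT' hab
  have hb1 : h₁ * b * h₁⁻¹ ≠ 1 := by
    intro h1
    rw [h1, one_smul] at hab
    exact ha1 (hsemi α a ha hab)
  have P2 := pair_lemma hsoc' h (fun t ht s hs => (hcomm s hs t ht).symm) α (hproj' h₁ hh₁) hbT' hb1 ha hab.symm
  let S : Set Ω := {y | ∃ t ∈ T, t ≠ 1 ∧ y = t • α}
  -- key: a stabiliser element mapping a point of S to S maps T to T or T'
  have key : ∀ k : G, k • α = α → ∀ t ∈ T, t ≠ 1 → ∀ u ∈ T, u ≠ 1 → k • t • α = u • α →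
      (∀ v ∈ T, k * v * k⁻¹ ∈ T) ∨ (∀ v ∈ T, k * v * k⁻¹ ∈ T') := by
    intro k hk t ht ht1 u hu hu1 htu
    by_cases hkT : ∀ t, t ∈ T ↔ k * t * k⁻¹ ∈ T
    · left; exact fun v hv => (hkT v).1 hv
    · right
      have hT'' := h.conj k
      have P3 := pair_lemma h hT'' (hcommk k hkT) α hproj hu hu1 (b := k * t * k⁻¹) (by rw [mem_cj, hcj]; exact ht)
        (by rw [← htu, hcα k hk])
      rcases h.conj_dich (h₁⁻¹ * k) with h2 | h2
      · intro v hv
        rw [memT']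
        have := (h2 v).1 hv
        have e : h₁⁻¹ * k * v * (h₁⁻¹ * k)⁻¹ = h₁⁻¹ * (k * v * k⁻¹) * h₁ := by group
        rwa [e] at this
      · exfalso
        apply hu1
        apply h.eq_one hu
        intro s hs
        -- s s' and u u'' in the stabiliser
        obtain ⟨s', hs', hss'⟩ := P1 s hs
        obtain ⟨u'', hu'', huu''⟩ := P3 u hu
        have c1 : u * s' = s' * u := hcomm u hu s' hs'
        have c2 : s * u'' = u'' * s := hcommk k hkT s hs u'' hu''
        have c3 : s' * u'' = u'' * s' := by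
          rw [memT'] at hs'
          rw [mem_cj] at hu''
          have := h2 _ hu'' _ hs'
          calc s' * u'' = h₁ * ((h₁⁻¹ * s' * h₁) * (h₁⁻¹ * k * (k⁻¹ * u'' * k) * (h₁⁻¹ * k)⁻¹)) * h₁⁻¹ := by group
            _ = h₁ * ((h₁⁻¹ * k * (k⁻¹ * u'' * k) * (h₁⁻¹ * k)⁻¹) * (h₁⁻¹ * s' * h₁)) * h₁⁻¹ := by rw [this]
            _ = u'' * s' := by group
        have e1 : (s * s') * (u * u'') * (s * s')⁻¹ * (u * u'')⁻¹ = s * u * s⁻¹ * u⁻¹ := by
          have d1 : (s * s') * (u * u'') = (s * u) * (s' * u'') := by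
            calc (s * s') * (u * u'') = s * (s' * u) * u'' := by group
              _ = s * (u * s') * u'' := by rw [c1]
              _ = (s * u) * (s' * u'') := by group
          have d2 : (u * u'') * (s * s') = (u * s) * (s' * u'') := by
            calc (u * u'') * (s * s') = u * (u'' * s) * s' := by group
              _ = u * (s * u'') * s' := by rw [c2]
              _ = (u * s) * (u'' * s') := by group
              _ = (u * s) * (s' * u'') := by rw [c3]
          calc (s * s') * (u * u'') * (s * s')⁻¹ * (u * u'')⁻¹ = (s * s') * (u * u'') * ((u * u'') * (s * s'))⁻¹ := by group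
            _ = (s * u) * (s' * u'') * ((u * s) * (s' * u''))⁻¹ := by rw [d1, d2]
            _ = s * u * s⁻¹ * u⁻¹ := by group
        have e2 : (s * u * s⁻¹ * u⁻¹) • α = α := by
          rw [← e1]
          have m1 : s * s' ∈ stabilizer G α := hss'
          have m2 : u * u'' ∈ stabilizer G α := huu''
          exact Subgroup.mul_mem _ (Subgroup.mul_mem _ (Subgroup.mul_mem _ m1 m2) (Subgroup.inv_mem _ m1)) (Subgroup.inv_mem _ m2)
        have e3 := hsemi α _ (T.mul_mem (T.mul_mem (T.mul_mem hs hu) (T.inv_mem hs)) (T.inv_mem hu)) e2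
        rw [mul_inv_eq_one, mul_inv_eq_iff_eq_mul] at e3
        exact e3
  -- S is mapped to itself by such elements
  have hinv : ∀ k : G, k • α = α → ((∀ v ∈ T, k * v * k⁻¹ ∈ T) ∨ (∀ v ∈ T, k * v * k⁻¹ ∈ T')) → ∀ y ∈ S, k • y ∈ S := by
    rintro k hk hkT _ ⟨t, ht, ht1, rfl⟩
    rcases hkT with h2 | h2
    · refine ⟨k * t * k⁻¹, h2 t ht, ?_, hcα k hk t⟩
      intro h1
      apply ht1
      rw [← hcj k t, h1]; group
    · obtain ⟨r, hr, hrα⟩ := P2 _ (h2 t ht)
      have c1 := hcomm r hr _ (h2 t ht)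
      have e1 : (k * t * k⁻¹) • α = r⁻¹ • α := by
        rw [← c1, mul_smul] at hrα
        rw [eq_inv_smul_iff, hrα]
      refine ⟨r⁻¹, T.inv_mem hr, ?_, by rw [hcα k hk, e1]⟩
      intro h1
      rw [h1, one_smul, ← hcα k hk] at e1
      apply ht1
      apply hsemi α t ht
      exact MulAction.injective k (e1.trans hk.symm)
  obtain ⟨z, hz, hz1⟩ : ∃ x ∈ T, x ≠ 1 := ⟨a, ha, ha1⟩
  -- all stabiliser elements map T to T or T'
  have Z3 : ∀ k : G, k • α = α → (∀ v ∈ T, k * v * k⁻¹ ∈ T) ∨ (∀ v ∈ T, k * v * k⁻¹ ∈ T') := by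
    by_contra hcon
    push Not at hcon
    obtain ⟨k₂, hk₂, hk₂1, hk₂2⟩ := hcon
    have main : ∀ n ∈ N, n • α = α → n • z • α = z • α := by
      intro n hn hnα
      apply block_lemma α (z • α) (hep α _) S ⟨z, hz, hz1, rfl⟩ _ _ n hnα
      · exact hinv n hnα (Or.inl (fun v hv => h.hT.conj n hn v hv)) _ ⟨z, hz, hz1, rfl⟩
      · rintro g hg ⟨y, ⟨t, ht, ht1, rfl⟩, ⟨u, hu, hu1, htu⟩⟩
        exact hinv g hg (key g hg t ht ht1 u hu hu1 htu)
      · refine ⟨k₂, hk₂, ?_⟩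
        rintro ⟨u, hu, hu1, htu⟩
        rcases key k₂ hk₂ z hz hz1 u hu hu1 htu with h2 | h2
        · obtain ⟨v, hv, hv'⟩ := hk₂1
          exact hv' (h2 v hv)
        · obtain ⟨v, hv, hv'⟩ := hk₂2
          exact hv' (h2 v hv)
    apply hz1
    apply h.eq_one hz
    intro s hs
    obtain ⟨c, hc, hc', hcα'⟩ := hproj s hs
    have h1 := main (s * c) (N.mul_mem (h.hT.le hs) hc) hcα'
    have h2 : (z⁻¹ * (s * c * z * (s * c)⁻¹)) • α = α := by
      rw [mul_smul, ← hcα _ hcα', h1, inv_smul_smul]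
    have h3 := hsemi α _ (T.mul_mem (T.inv_mem hz) (h.hT.conj _ (N.mul_mem (h.hT.le hs) hc) z hz)) h2
    have h4 : s * c * z * (s * c)⁻¹ = s * z * s⁻¹ := by
      rw [mul_assoc s c, ← hc' z hz]; group
    rw [h4] at h3
    have h5 : z = s * z * s⁻¹ := inv_mul_eq_one.1 h3
    calc s * z = (s * z * s⁻¹) * s := by group
      _ = z * s := by rw [← h5]
  -- T is transitive
  have hNt : IsPretransitive N Ω := isPretransitive_of_normal_of_primitive hprim N h.normal h.hN.ne_bot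
  let K : Subgroup G :=
    { carrier := {x | ∃ t ∈ T, ∃ s ∈ T', x = t * s}
      one_mem' := ⟨1, T.one_mem, 1, T'.one_mem, by simp⟩
      mul_mem' := by
        rintro _ _ ⟨t, ht, s, hs, rfl⟩ ⟨u, hu, r, hr, rfl⟩
        refine ⟨t * u, T.mul_mem ht hu, s * r, T'.mul_mem hs hr, ?_⟩
        have := hcomm u hu s hs
        calc t * s * (u * r) = t * (s * u) * r := by group
          _ = t * (u * s) * r := by rw [this]
          _ = t * u * (s * r) := by group
      inv_mem' := by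
        rintro _ ⟨t, ht, s, hs, rfl⟩
        exact ⟨t⁻¹, T.inv_mem ht, s⁻¹, T'.inv_mem hs, by rw [hcomm t ht s hs, mul_inv_rev]⟩ }
  have hKmem : ∀ x, x ∈ K ↔ ∃ t ∈ T, ∃ s ∈ T', x = t * s := fun x => Iff.rfl
  have hTK : ∀ t ∈ T, t ∈ K := fun t ht => ⟨t, ht, 1, T'.one_mem, by simp⟩
  have hT'K : ∀ t ∈ T', t ∈ K := fun t ht => ⟨1, T.one_mem, t, ht, by simp⟩
  have hgT : ∀ g : G, ∀ t ∈ T, g * t * g⁻¹ ∈ K := by
    intro g t ht
    obtain ⟨n, hn⟩ := hNt.exists_smul_eq α (g⁻¹ • α)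
    have hn' : (n : G) • α = g⁻¹ • α := hn
    have hk : (g * n) • α = α := by rw [mul_smul, hn', smul_inv_smul]
    have h1 : (n : G)⁻¹ * t * n ∈ T := by
      have := h.hT.conj (n : G)⁻¹ (N.inv_mem n.2) t ht
      rwa [inv_inv] at this
    have e : g * t * g⁻¹ = (g * n) * ((n : G)⁻¹ * t * n) * (g * n)⁻¹ := by group
    rw [e]
    rcases Z3 _ hk with h2 | h2
    · exact hTK _ (h2 _ h1)
    · exact hT'K _ (h2 _ h1)
  have hKn : ∀ g ∈ (⊤ : Subgroup G), ∀ x ∈ K, g * x * g⁻¹ ∈ K := by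
    rintro g _ _ ⟨t, ht, s, hs, rfl⟩
    have e : g * (t * s) * g⁻¹ = (g * t * g⁻¹) * (g * s * g⁻¹) := by group
    rw [e]
    apply K.mul_mem (hgT g t ht)
    have e2 : g * s * g⁻¹ = (g * h₁) * (h₁⁻¹ * s * h₁) * (g * h₁)⁻¹ := by group
    rw [e2]
    exact hgT _ _ ((memT' s).1 hs)
  have hKle : K ≤ N := by
    rintro _ ⟨t, ht, s, hs, rfl⟩
    exact N.mul_mem (h.hT.le ht) (hsoc'.hT.le hs)
  have hKN : K = N := by
    rcases h.hN.min K hKn hKle with h1 | h1
    · exfalso; apply hz1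
      have := hTK z hz
      rwa [h1, Subgroup.mem_bot] at this
    · exact h1
  have Z1a : ∀ ω : Ω, ∃ t ∈ T, t • α = ω := by
    intro ω
    obtain ⟨n, hn⟩ := hNt.exists_smul_eq α ω
    have hn2 : (n : G) ∈ K := by rw [hKN]; exact n.2
    obtain ⟨t, ht, s, hs, hts⟩ := (hKmem _).1 hn2
    obtain ⟨r, hr, hrα⟩ := P2 s hs
    refine ⟨t * r⁻¹, T.mul_mem ht (T.inv_mem hr), ?_⟩
    have c1 := hcomm r hr s hs
    have e1 : s • α = r⁻¹ • α := by
      rw [← c1, mul_smul] at hrα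
      rw [eq_inv_smul_iff, hrα]
    have hn' : (n : G) • α = ω := hn
    rw [mul_smul, ← e1, ← mul_smul, ← hts, hn']
  exact regular_false hep T T' h.isSimpleGroup h.not_comm hcomm α Z1a (fun t ht => hsemi α t ht) P1 Z3

/-- two regular normal subgroups -/
theorem case_centralizer [Finite G] [Finite Ω] [FaithfulSMul G Ω]
    (hprim : IsPreprimitive G Ω)
    (hep : ∀ (α : Ω) (ω : Ω), IsPreprimitive (stabilizer G α) (orbit (stabilizer G α) ω))
    (h : IsTSoc N T) (α : Ω) (hC : Subgroup.centralizer (N : Set G) ≠ ⊥) : False := by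
  haveI := h.normal
  have hCn : (Subgroup.centralizer (N : Set G)).Normal := inferInstance
  have hNt : IsPretransitive N Ω := isPretransitive_of_normal_of_primitive hprim N h.normal h.hN.ne_bot
  have hCt : IsPretransitive (Subgroup.centralizer (N : Set G)) Ω :=
    isPretransitive_of_normal_of_primitive hprim _ hCn hC
  have hNx : ∀ u ∈ N, ∀ ω : Ω, u • ω = ω → u = 1 := fun u hu ω hω =>
    eq_one_of_centralizes hCt (fun c hc => (mem_centralizer_iff_comm.1 hc u hu).symm) hω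
  have hcα : ∀ (k : G), k • α = α → ∀ t : G, k • t • α = (k * t * k⁻¹) • α := by
    intro k hk t
    rw [mul_smul, mul_smul, inv_smul_eq_iff.2 hk.symm]
  have hcomm : ∀ t ∈ T, ∀ s ∈ Subgroup.centralizer (N : Set G), t * s = s * t := fun t ht s hs =>
    mem_centralizer_iff_comm.1 hs t (h.hT.le ht)
  have Z2 : ∀ t ∈ T, ∃ s ∈ Subgroup.centralizer (N : Set G), (t * s) • α = α := by
    intro t ht
    obtain ⟨s, hs⟩ := hCt.exists_smul_eq α (t⁻¹ • α)
    have hs' : (s : G) • α = t⁻¹ • α := hs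
    exact ⟨s, s.2, by rw [mul_smul, hs', smul_inv_smul]⟩
  obtain ⟨z, hz, hz1⟩ : ∃ x ∈ T, x ≠ 1 := by
    have := h.hT.ne_bot
    rw [Ne, Subgroup.eq_bot_iff_forall] at this
    push Not at this
    exact this
  have hkT : ∀ k : G, k • α = α → ∀ t, t ∈ T ↔ k * t * k⁻¹ ∈ T := by
    by_contra hcon
    push Not at hcon
    obtain ⟨k₀, hk₀, hk₀T⟩ := hcon
    have hk₀T' : ¬ ∀ t, t ∈ T ↔ k₀ * t * k₀⁻¹ ∈ T := by
      intro h'
      obtain ⟨t, ht⟩ := hk₀T
      rcases ht with ⟨h1, h3⟩ | ⟨h1, h3⟩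
      · exact h3 ((h' t).1 h1)
      · exact h1 ((h' t).2 h3)
    let S : Set Ω := {y | ∃ t ∈ T, t ≠ 1 ∧ y = t • α}
    have key : ∀ k : G, k • α = α → ∀ t ∈ T, t ≠ 1 → ∀ u ∈ T, u ≠ 1 → k • t • α = u • α → ∀ t, t ∈ T ↔ k * t * k⁻¹ ∈ T := by
      intro k hk t ht ht1 u hu hu1 htu
      rw [hcα k hk] at htu
      have h1 : (u⁻¹ * (k * t * k⁻¹)) • α = α := by rw [mul_smul, htu, inv_smul_smul]
      have h2 := hNx _ (N.mul_mem (N.inv_mem (h.hT.le hu)) (h.normal.conj_mem t (h.hT.le ht) k)) α h1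
      apply h.inv_of_mem k ht ht1
      rw [← inv_mul_eq_one.1 h2]; exact hu
    have hinv : ∀ k : G, k • α = α → (∀ t, t ∈ T ↔ k * t * k⁻¹ ∈ T) → ∀ y ∈ S, k • y ∈ S := by
      rintro k hk hkT _ ⟨t, ht, ht1, rfl⟩
      refine ⟨k * t * k⁻¹, (hkT t).1 ht, ?_, hcα k hk t⟩
      intro h1
      apply ht1
      have : t = k⁻¹ * (k * t * k⁻¹) * k := by group
      rw [this, h1]; group
    have main : ∀ k : G, k • α = α → (∀ t, t ∈ T ↔ k * t * k⁻¹ ∈ T) → k • z • α = z • α := by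
      intro k hk hkT
      apply block_lemma α (z • α) (hep α _) S ⟨z, hz, hz1, rfl⟩ _ _ k hk
      · exact hinv k hk hkT _ ⟨z, hz, hz1, rfl⟩
      · rintro g hg ⟨y, ⟨t, ht, ht1, rfl⟩, ⟨u, hu, hu1, htu⟩⟩
        exact hinv g hg (key g hg t ht ht1 u hu hu1 htu)
      · refine ⟨k₀, hk₀, ?_⟩
        rintro ⟨u, hu, hu1, htu⟩
        exact hk₀T' (key k₀ hk₀ z hz hz1 u hu hu1 htu)
    apply hz1
    apply h.eq_one hz
    intro s hs
    obtain ⟨r, hr, hsr⟩ := Z2 s hs
    have e1 : s * r * z * (s * r)⁻¹ = s * z * s⁻¹ := by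
      have := hcomm z hz r hr
      calc s * r * z * (s * r)⁻¹ = s * (r * z) * r⁻¹ * s⁻¹ := by group
        _ = s * (z * r) * r⁻¹ * s⁻¹ := by rw [this]
        _ = s * z * s⁻¹ := by group
    have e2 : s * r * z * (s * r)⁻¹ ∈ T := by rw [e1]; exact T.mul_mem (T.mul_mem hs hz) (T.inv_mem hs)
    have h1 := main (s * r) hsr (h.inv_of_mem _ hz hz1 e2)
    rw [hcα _ hsr, e1] at h1
    have h2 : (z⁻¹ * (s * z * s⁻¹)) • α = α := by rw [mul_smul, h1, inv_smul_smul]
    have h3 := hNx _ (h.hT.le (T.mul_mem (T.inv_mem hz) (T.mul_mem (T.mul_mem hs hz) (T.inv_mem hs)))) α h2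
    have h5 : z = s * z * s⁻¹ := inv_mul_eq_one.1 h3
    calc s * z = (s * z * s⁻¹) * s := by group
      _ = z * s := by rw [← h5]
  -- T is normal, so T = N
  have hTn : ∀ g ∈ (⊤ : Subgroup G), ∀ t ∈ T, g * t * g⁻¹ ∈ T := by
    intro g _ t ht
    obtain ⟨n, hn⟩ := hNt.exists_smul_eq α (g⁻¹ • α)
    have hn' : (n : G) • α = g⁻¹ • α := hn
    have hk : (g * n) • α = α := by rw [mul_smul, hn', smul_inv_smul]
    have h1 : (n : G)⁻¹ * t * n ∈ T := by
      have := h.hT.conj (n : G)⁻¹ (N.inv_mem n.2) t ht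
      rwa [inv_inv] at this
    have e : g * t * g⁻¹ = (g * n) * ((n : G)⁻¹ * t * n) * (g * n)⁻¹ := by group
    rw [e]
    exact (hkT _ hk _).1 h1
  have hTN : T = N := by
    rcases h.hN.min T hTn h.hT.le with h1 | h1
    · exact absurd h1 h.hT.ne_bot
    · exact h1
  refine regular_false hep T (Subgroup.centralizer (N : Set G)) h.isSimpleGroup h.not_comm hcomm α ?_
    (fun t ht htα => hNx t (h.hT.le ht) α htα) Z2 (fun k hk => Or.inl (fun v hv => (hkT k hk v).1 hv))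
  intro ω
  obtain ⟨n, hn⟩ := hNt.exists_smul_eq α ω
  exact ⟨n, by rw [hTN]; exact n.2, hn⟩

end Cfsg.Agent.H21
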