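import Cfsg.Agent.H21.Socle
import Cfsg.Agent.H21.Prim
import Cfsg.Agent.H21.ExtPrimF

set_option autoImplicit false
set_option linter.all false

/-!
Extremely primitive groups are affine or almost simple (helper21): reduction.
-/

namespace Cfsg.Agent.H21

open Cfsg.Agent.H22 MulAction

variable {G : Type*} [Group G] {Ω : Type*} [MulAction G Ω]

/-- block lemma -/
theorem block_lemma (α ω : Ω)
    (hep : IsPreprimitive (stabilizer G α) (orbit (stabilizer G α) ω)) (S : Set Ω) (hω : ω ∈ S)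
    (S2 : ∀ h : G, h • α = α → (∃ y ∈ S, h • y ∈ S) → ∀ y ∈ S, h • y ∈ S)
    (S3 : ∃ h : G, h • α = α ∧ h • ω ∉ S) (h : G) (hh : h • α = α) (hhω : h • ω ∈ S) : h • ω = ω := by
  let B : Set (orbit (stabilizer G α) ω) := {y | (y : Ω) ∈ S}
  have hB : IsBlock (stabilizer G α) B := by
    rw [isBlock_iff_smul_eq_of_mem]
    intro g a ha hga
    have ha' : (a : Ω) ∈ S := ha
    have hga' : (g : G) • (a : Ω) ∈ S := hga
    have hgα : (g : G) • α = α := g.2
    have hgα' : (g : G)⁻¹ • α = α := by rw [inv_smul_eq_iff, hgα]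
    have h1 := S2 g hgα ⟨a, ha', hga'⟩
    have h2 := S2 (g : G)⁻¹ hgα' ⟨_, hga', by rw [inv_smul_smul]; exact ha'⟩
    ext y
    rw [Set.mem_smul_set_iff_inv_smul_mem]
    constructor
    · intro hy
      have h3 := h1 _ hy
      have e : (g : G) • ((g⁻¹ • y : orbit (stabilizer G α) ω) : Ω) = (y : Ω) := by
        show (g : G) • ((g⁻¹ : stabilizer G α) : G) • (y : Ω) = y
        rw [Subgroup.coe_inv, smul_inv_smul]
      rw [e] at h3
      exact h3
    · intro hy
      exact h2 _ hy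
  obtain ⟨k, hk, hkω⟩ := S3
  rcases hep.isTrivialBlock_of_isBlock hB with h1 | h1
  · have e1 : (⟨ω, mem_orbit_self ω⟩ : orbit (stabilizer G α) ω) ∈ B := hω
    have e2 : (⟨h • ω, ⟨⟨h, hh⟩, rfl⟩⟩ : orbit (stabilizer G α) ω) ∈ B := hhω
    exact congrArg Subtype.val (h1 e2 e1)
  · exfalso
    apply hkω
    have e2 : (⟨k • ω, ⟨⟨k, hk⟩, rfl⟩⟩ : orbit (stabilizer G α) ω) ∈ B := by rw [h1]; trivial
    exact e2

variable {N T : Subgroup G}

/-- `T` is invariant under `h` in the sense of `conj_dich`, when a nontrivial element goes into `T` -/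
theorem IsTSoc.inv_of_mem (h : IsTSoc N T) (g : G) {t : G} (ht : t ∈ T) (ht1 : t ≠ 1) (hgt : g * t * g⁻¹ ∈ T) :
    ∀ t, t ∈ T ↔ g * t * g⁻¹ ∈ T := by
  rcases h.conj_dich g with h1 | h1
  · exact h1
  · exfalso
    apply ht1
    have h2 := h.eq_one hgt (fun s hs => h1 t ht s hs)
    have : t = g⁻¹ * (g * t * g⁻¹) * g := by group
    rw [this, h2]; group

/-- product argument -/
theorem product_contradiction [Finite G] [FaithfulSMul G Ω] (hprim : IsPreprimitive G Ω) (h : IsTSoc N T) (α : Ω)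
    (hNα : ∀ n ∈ N, n • α = α → n = 1)
    (hcen : ∀ k : G, k • α = α → (∀ t, t ∈ T ↔ k * t * k⁻¹ ∈ T) → ∀ t ∈ T, k * t * k⁻¹ = t)
    (k₀ : G) (hk₀ : k₀ • α = α) (hk₀T : ¬ ∀ t, t ∈ T ↔ k₀ * t * k₀⁻¹ ∈ T) : False := by
  classical
  haveI := Fintype.ofFinite (stabilizer G α)
  obtain ⟨x, hx, hx1⟩ : ∃ x ∈ T, x ≠ 1 := by
    have := h.hT.ne_bot
    rw [Ne, Subgroup.eq_bot_iff_forall] at this
    push Not at this
    exact this
  let f : stabilizer G α → G := fun k => (k : G) * x * (k : G)⁻¹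
  let S : Finset G := Finset.image f Finset.univ
  have hSmem : ∀ y, y ∈ S ↔ ∃ k : G, k • α = α ∧ k * x * k⁻¹ = y := by
    intro y
    rw [Finset.mem_image]
    constructor
    · rintro ⟨k, _, rfl⟩; exact ⟨k, k.2, rfl⟩
    · rintro ⟨k, hk, rfl⟩; exact ⟨⟨k, hk⟩, Finset.mem_univ _, rfl⟩
  -- two elements of S are equal or commute; more precisely
  have key : ∀ k l : G, k • α = α → l • α = α → k * x * k⁻¹ = l * x * l⁻¹ ∨
      ∀ t ∈ T, ∀ s ∈ T, (k * t * k⁻¹) * (l * s * l⁻¹) = (l * s * l⁻¹) * (k * t * k⁻¹) := by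
    intro k l hk hl
    rcases h.conj_dich (k⁻¹ * l) with h1 | h1
    · left
      have h2 := hcen (k⁻¹ * l) (by rw [mul_smul, hl, inv_smul_eq_iff, hk]) h1 x hx
      calc k * x * k⁻¹ = k * (k⁻¹ * l * x * (k⁻¹ * l)⁻¹) * k⁻¹ := by rw [h2]
        _ = l * x * l⁻¹ := by group
    · right
      intro t ht s hs
      have h2 := h1 s hs t ht
      calc (k * t * k⁻¹) * (l * s * l⁻¹) = k * (t * (k⁻¹ * l * s * (k⁻¹ * l)⁻¹)) * k⁻¹ := by group
        _ = k * ((k⁻¹ * l * s * (k⁻¹ * l)⁻¹) * t) * k⁻¹ := by rw [h2]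
        _ = (l * s * l⁻¹) * (k * t * k⁻¹) := by group
  have comm : {y | y ∈ S.val}.Pairwise Commute := by
    intro a ha b hb hab
    obtain ⟨k, hk, rfl⟩ := (hSmem a).1 ha
    obtain ⟨l, hl, rfl⟩ := (hSmem b).1 hb
    rcases key k l hk hl with h1 | h1
    · exact absurd h1 hab
    · exact h1 x hx x hx
  set D := S.val.noncommProd comm with hD
  have hDN : D ∈ N := by
    apply Submonoid.multiset_noncommProd_mem N.toSubmonoid
    intro y hy
    obtain ⟨k, hk, rfl⟩ := (hSmem y).1 hy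
    exact h.normal.conj_mem x (h.hT.le hx) k
  have hDH : ∀ k : G, k • α = α → k * D * k⁻¹ = D := by
    intro k hk
    have h1 : (MulAut.conj k) D = (S.val.map (MulAut.conj k)).noncommProd (Multiset.map_noncommProd_aux S.val comm (MulAut.conj k)) :=
      Multiset.map_noncommProd S.val comm (MulAut.conj k)
    have h2 : S.val.map (MulAut.conj k) = S.val := by
      have h3 : S.map ⟨MulAut.conj k, (MulAut.conj k).injective⟩ = S := by
        apply Finset.eq_of_subset_of_card_le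
        · intro y hy
          rw [Finset.mem_map] at hy
          obtain ⟨z, hz, rfl⟩ := hy
          obtain ⟨l, hl, rfl⟩ := (hSmem z).1 hz
          rw [hSmem]
          refine ⟨k * l, by rw [mul_smul, hl, hk], ?_⟩
          show k * l * x * (k * l)⁻¹ = k * (l * x * l⁻¹) * k⁻¹
          group
        · rw [Finset.card_map]
      have := congrArg Finset.val h3
      rwa [Finset.map_val] at this
    have h3 : (S.val.map (MulAut.conj k)).noncommProd (Multiset.map_noncommProd_aux S.val comm (MulAut.conj k)) = D := by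
      simp only [h2]; rfl
    rw [h3] at h1
    exact h1
  have hxS : x ∈ S.val := (hSmem x).2 ⟨1, one_smul _ _, by group⟩
  have hD1 : D ≠ 1 := by
    intro hD1
    have h1 := Multiset.mul_noncommProd_erase S.val hxS comm
    rw [← hD, hD1] at h1
    set r := (S.val.erase x).noncommProd (fun _ hx _ hy hxy ↦ comm (S.val.mem_of_mem_erase hx) (S.val.mem_of_mem_erase hy) hxy) with hr
    have h2 : ∀ s ∈ T, Commute s r := by
      intro s hs
      apply Multiset.noncommProd_commute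
      intro y hy
      have hyS := S.val.mem_of_mem_erase hy
      have hyx : y ≠ x := by
        rintro rfl
        exact (Multiset.Nodup.notMem_erase S.nodup) hy
      obtain ⟨k, hk, rfl⟩ := (hSmem y).1 hyS
      rcases key 1 k (one_smul _ _) hk with h3 | h3
      · exfalso; apply hyx; rw [← h3]; group
      · have := h3 s hs x hx
        have e : (1 : G) * s * 1⁻¹ = s := by group
        rw [e] at this
        exact this
    apply hx1
    apply h.eq_one hx
    intro s hs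
    have h3 : x = r⁻¹ := eq_inv_of_mul_eq_one_left h1
    rw [h3]
    exact (h2 s hs).inv_right
  -- D moves α, H fixes D α
  have hDα : D • α ≠ α := fun h1 => hD1 (hNα D hDN h1)
  have hle : stabilizer G α ≤ stabilizer G (D • α) := by
    intro k hk
    rw [mem_stabilizer_iff] at hk ⊢
    have h1 := hDH k hk
    have h2 : k * D = D * k := mul_inv_eq_iff_eq_mul.1 h1
    rw [← mul_smul, h2, mul_smul, hk]
  have h1 := stabilizer_eq_bot_of_le hprim hDα.symm hle
  have h2 : k₀ = 1 := by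
    have : k₀ ∈ stabilizer G α := hk₀
    rwa [h1, Subgroup.mem_bot] at this
  apply hk₀T
  intro t
  rw [h2, one_mul, inv_one, mul_one]


/-- projection predicate -/
def ProjMem (N T : Subgroup G) (α : Ω) (t : G) : Prop :=
  ∃ c ∈ N, (∀ s ∈ T, s * c = c * s) ∧ (t * c) • α = α

theorem projMem_conj {h : G} (hN : N.Normal) {α : Ω} (hα : h • α = α) (hT : ∀ t, t ∈ T ↔ h * t * h⁻¹ ∈ T) {v : G}
    (hv : ProjMem N T α (h * v * h⁻¹)) : ProjMem N T α v := by
  obtain ⟨c, hc, hc', hcα⟩ := hv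
  refine ⟨h⁻¹ * c * h, by simpa using hN.conj_mem c hc h⁻¹, ?_, ?_⟩
  · intro s hs
    have h1 := hc' _ ((hT s).1 hs)
    calc s * (h⁻¹ * c * h) = h⁻¹ * ((h * s * h⁻¹) * c) * h := by group
      _ = h⁻¹ * (c * (h * s * h⁻¹)) * h := by rw [h1]
      _ = h⁻¹ * c * h * s := by group
  · have e : v * (h⁻¹ * c * h) = h⁻¹ * (h * v * h⁻¹ * c) * h := by group
    rw [e, mul_smul, mul_smul, hα, hcα, inv_smul_eq_iff, hα]

theorem normal_fix_eq_one [Finite G] [Finite Ω] [FaithfulSMul G Ω]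
    (hprim : IsPreprimitive G Ω)
    (hep : ∀ (α : Ω) (ω : Ω), IsPreprimitive (stabilizer G α) (orbit (stabilizer G α) ω))
    (hN : N.Normal) (α ω : Ω) (hω : ω ≠ α) (hfix : ∀ n ∈ N, n • α = α → n • ω = ω) :
    ∀ n ∈ N, n • α = α → n = 1 := by
  intro n hn hnα
  have := manning hprim hep α ω hω ⟨n, hnα⟩ (by
    rintro _ ⟨k, rfl⟩
    have hk : (k : G) • α = α := k.2
    show n • (k : G) • ω = (k : G) • ω
    have h1 := hfix ((k : G)⁻¹ * n * k) (by simpa using hN.conj_mem n hn (k : G)⁻¹)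
      (by rw [mul_smul, mul_smul, hk, hnα, inv_smul_eq_iff, hk])
    rw [mul_smul, mul_smul, inv_smul_eq_iff] at h1
    exact h1)
  exact congrArg Subtype.val this

/-- Case of a proper projection: `N ∩ G_α = 1` -/
theorem case_proper [Finite G] [Finite Ω] [FaithfulSMul G Ω]
    (hprim : IsPreprimitive G Ω)
    (hep : ∀ (α : Ω) (ω : Ω), IsPreprimitive (stabilizer G α) (orbit (stabilizer G α) ω))
    (h : IsTSoc N T) (α : Ω) (z : G) (hz : z ∈ T) (hzp : ¬ ProjMem N T α z)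
    (k₀ : G) (hk₀ : k₀ • α = α) (hk₀T : ¬ ∀ t, t ∈ T ↔ k₀ * t * k₀⁻¹ ∈ T) :
    ∀ k : G, k • α = α → (∀ t, t ∈ T ↔ k * t * k⁻¹ ∈ T) → k • z • α = z • α := by
  let S : Set Ω := {y | ∃ t ∈ T, ¬ ProjMem N T α t ∧ y = t • α}
  have key : ∀ k : G, k • α = α → ∀ t ∈ T, ∀ u ∈ T, ¬ ProjMem N T α u → k • t • α = u • α → ∀ t, t ∈ T ↔ k * t * k⁻¹ ∈ T := by
    intro k hk t ht u hu hup htu
    rcases h.conj_dich k with h1 | h1
    · exact h1
    · exfalso
      apply hup
      set a := k * t * k⁻¹ with ha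
      have haN : a ∈ N := h.normal.conj_mem t (h.hT.le ht) k
      have haα : a • α = u • α := by
        rw [ha, mul_smul, mul_smul, inv_smul_eq_iff.2 hk.symm, htu]
      refine ⟨a⁻¹, N.inv_mem haN, ?_, ?_⟩
      · intro s hs
        have := h1 t ht s hs
        rw [mul_inv_eq_iff_eq_mul, mul_assoc, this, inv_mul_cancel_left]
      · have := h1 t ht u hu
        have e : u * a⁻¹ = a⁻¹ * u := by
          rw [mul_inv_eq_iff_eq_mul, mul_assoc, this, inv_mul_cancel_left]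
        rw [e, mul_smul, ← haα, inv_smul_smul]
  have hinv : ∀ k : G, k • α = α → (∀ t, t ∈ T ↔ k * t * k⁻¹ ∈ T) → ∀ y ∈ S, k • y ∈ S := by
    rintro k hk hkT _ ⟨t, ht, htp, rfl⟩
    refine ⟨k * t * k⁻¹, (hkT t).1 ht, fun hp => htp (projMem_conj h.normal hk hkT hp), ?_⟩
    rw [mul_smul, mul_smul, inv_smul_eq_iff.2 hk.symm]
  intro k hk hkT
  apply block_lemma α (z • α) (hep α _) S ⟨z, hz, hzp, rfl⟩ _ _ k hk
  · exact hinv k hk hkT _ ⟨z, hz, hzp, rfl⟩
  · rintro g hg ⟨y, ⟨t, ht, htp, rfl⟩, ⟨u, hu, hup, htu⟩⟩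
    exact hinv g hg (key g hg t ht u hu hup htu)
  · refine ⟨k₀, hk₀, ?_⟩
    rintro ⟨u, hu, hup, htu⟩
    exact hk₀T (key k₀ hk₀ z hz u hu hup htu)

/-- proper projection is impossible -/
theorem case_proper_false [Finite G] [Finite Ω] [FaithfulSMul G Ω]
    (hprim : IsPreprimitive G Ω)
    (hep : ∀ (α : Ω) (ω : Ω), IsPreprimitive (stabilizer G α) (orbit (stabilizer G α) ω))
    (h : IsTSoc N T) (α : Ω) (z : G) (hz : z ∈ T) (hzp : ¬ ProjMem N T α z)
    (k₀ : G) (hk₀ : k₀ • α = α) (hk₀T : ¬ ∀ t, t ∈ T ↔ k₀ * t * k₀⁻¹ ∈ T) : False := by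
  have hTn : ∀ n ∈ N, ∀ t, t ∈ T ↔ n * t * n⁻¹ ∈ T := by
    intro n hn t
    constructor
    · exact h.hT.conj n hn t
    · intro ht
      have := h.hT.conj n⁻¹ (N.inv_mem hn) _ ht
      have e : n⁻¹ * (n * t * n⁻¹) * n⁻¹⁻¹ = t := by group
      rwa [e] at this
  have hzα : z • α ≠ α := by
    intro h1
    apply hzp
    exact ⟨1, N.one_mem, by simp, by rw [mul_one]; exact h1⟩
  have hN1 : ∀ n ∈ N, n • α = α → n = 1 := by
    apply normal_fix_eq_one hprim hep h.normal α (z • α) hzα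
    intro n hn hnα
    exact case_proper hprim hep h α z hz hzp k₀ hk₀ hk₀T n hnα (hTn n hn)
  refine product_contradiction hprim h α hN1 ?_ k₀ hk₀ hk₀T
  intro k hk hkT t ht
  by_cases ht1 : t = 1
  · rw [ht1]; group
  · have htp : ¬ ProjMem N T α t := by
      rintro ⟨c, hc, hc', hcα⟩
      have h1 := hN1 _ (N.mul_mem (h.hT.le ht) hc) hcα
      apply ht1
      apply h.eq_one ht
      intro s hs
      have e : t = c⁻¹ := eq_inv_of_mul_eq_one_left h1
      rw [e]
      have := hc' s hs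
      rw [mul_inv_eq_iff_eq_mul, mul_assoc, this, inv_mul_cancel_left]
    have h1 := case_proper hprim hep h α t ht htp k₀ hk₀ hk₀T k hk hkT
    have h2 : (t⁻¹ * (k * t * k⁻¹)) • α = α := by
      rw [mul_smul, mul_smul, mul_smul, inv_smul_eq_iff.2 hk.symm, h1, inv_smul_smul]
    have h3 := hN1 _ (N.mul_mem (N.inv_mem (h.hT.le ht)) (h.hT.le ((hkT t).1 ht))) h2
    exact (inv_mul_eq_one.1 h3).symm

/-- full projection: the pair lemma -/
theorem pair_lemma {T' : Subgroup G} (h : IsTSoc N T) (h' : IsTSoc N T') (hcomm : ∀ t ∈ T, ∀ s ∈ T', t * s = s * t)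
    (α : Ω) (hproj : ∀ t ∈ T, ProjMem N T α t) {a b : G} (ha : a ∈ T) (ha1 : a ≠ 1) (hb : b ∈ T') (hab : a • α = b • α) :
    ∀ t ∈ T, ∃ s ∈ T', (t * s) • α = α := by
  let E : Subgroup G :=
    { carrier := {t | t ∈ T ∧ ∃ s ∈ T', (t * s) • α = α}
      one_mem' := ⟨T.one_mem, 1, T'.one_mem, by simp⟩
      mul_mem' := by
        rintro t u ⟨ht, s, hs, hts⟩ ⟨hu, r, hr, hur⟩
        refine ⟨T.mul_mem ht hu, s * r, T'.mul_mem hs hr, ?_⟩
        have e : t * u * (s * r) = (t * s) * (u * r) := by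
          have := hcomm u hu s hs
          calc t * u * (s * r) = t * (u * s) * r := by group
            _ = t * (s * u) * r := by rw [this]
            _ = (t * s) * (u * r) := by group
        rw [e, mul_smul, hur, hts]
      inv_mem' := by
        rintro t ⟨ht, s, hs, hts⟩
        refine ⟨T.inv_mem ht, s⁻¹, T'.inv_mem hs, ?_⟩
        have e : t⁻¹ * s⁻¹ = (t * s)⁻¹ := by rw [hcomm t ht s hs, mul_inv_rev]
        rw [e, inv_smul_eq_iff, hts] }
  have hEmem : ∀ t, t ∈ E ↔ t ∈ T ∧ ∃ s ∈ T', (t * s) • α = α := fun t => Iff.rfl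
  have hEc : ∀ n ∈ N, ∀ t ∈ E, n * t * n⁻¹ ∈ E := by
    intro n hn t ht
    obtain ⟨htT, s, hs, hts⟩ := (hEmem t).1 ht
    obtain ⟨u, hu, c, hc, hc', rfl⟩ := h.exists_mul hn
    obtain ⟨d, hd, hd', hdα⟩ := hproj u hu
    rw [hEmem]
    refine ⟨h.hT.conj _ hn t htT, d * s * d⁻¹, h'.hT.conj d hd s hs, ?_⟩
    have e1 : u * c * t * (u * c)⁻¹ = u * t * u⁻¹ := by
      rw [mul_assoc u c, ← hc' t htT]; group
    have e2 : u * t * u⁻¹ * (d * s * d⁻¹) = (u * d) * (t * s) * (u * d)⁻¹ := by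
      have h1 := hd' t htT
      have h2 := hd' u hu
      have h3 := hcomm u hu (d * s * d⁻¹) (h'.hT.conj d hd s hs)
      symm
      calc (u * d) * (t * s) * (u * d)⁻¹ = u * (d * t) * (s * d⁻¹) * u⁻¹ := by group
        _ = u * (t * d) * (s * d⁻¹) * u⁻¹ := by rw [h1]
        _ = u * t * ((d * s * d⁻¹) * u⁻¹) := by group
        _ = u * t * (u⁻¹ * (u * (d * s * d⁻¹)) * u⁻¹) := by group
        _ = u * t * (u⁻¹ * ((d * s * d⁻¹) * u) * u⁻¹) := by rw [h3]
        _ = u * t * u⁻¹ * (d * s * d⁻¹) := by group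
    rw [e1, e2, mul_smul, mul_smul, inv_smul_eq_iff.2 hdα.symm, hts, hdα]
  rcases h.hT.min E hEc (fun t ht => ht.1) with h1 | h1
  · exfalso
    apply ha1
    have h2 : a⁻¹ ∈ E := by
      rw [hEmem]
      refine ⟨T.inv_mem ha, b, hb, ?_⟩
      rw [mul_smul, ← hab, inv_smul_smul]
    rw [h1, Subgroup.mem_bot, inv_eq_one] at h2
    exact h2
  · intro t ht
    rw [← h1] at ht
    exact ((hEmem t).1 ht).2

end Cfsg.Agent.H21
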