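import Mathlib

set_option autoImplicit false

namespace Cfsg.Agent.H21.LX1

open Matrix

variable {F : Type} [Field F] [CharP F 3]

abbrev V (F : Type) := Matrix (Fin 2) (Fin 2) F

abbrev SL (F : Type) [Field F] := Matrix.SpecialLinearGroup (Fin 2) F

/-- the twisted matrix. -/
noncomputable def ph (g : SL F) : V F := ((Matrix.SpecialLinearGroup.map (frobenius F 3) g : SL F) : V F)

/-- the linear action. -/
noncomputable def lin (g : SL F) (X : V F) : V F := (g : V F) * X * (ph g)ᵀ

theorem ph_mul (g h : SL F) : ph (g * h) = ph g * ph h := by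
  simp [ph]

theorem lin_mul (g h : SL F) (X : V F) : lin (g * h) X = lin g (lin h X) := by
  simp only [lin, ph_mul, Matrix.transpose_mul, Matrix.SpecialLinearGroup.coe_mul]
  simp only [Matrix.mul_assoc]

theorem lin_one (X : V F) : lin (1 : SL F) X = X := by
  simp [lin, ph]

theorem lin_neg (g : SL F) (X : V F) : lin (-g) X = lin g X := by
  have : ph (-g) = - ph g := by
    ext i j
    simp [ph, frobenius_def, Odd.neg_pow (by decide : Odd 3)]
  simp [lin, this]

theorem lin_add (g : SL F) (X Y : V F) : lin g (X + Y) = lin g X + lin g Y := by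
  simp [lin, Matrix.mul_add, Matrix.add_mul]

theorem lin_smul (g : SL F) (e : F) (X : V F) : lin g (e • X) = e • lin g X := by
  simp [lin]

omit [CharP F 3] in
theorem add_adj (g : V F) : g + adjugate g = (trace g) • (1 : V F) := by
  rw [adjugate_fin_two, trace_fin_two]
  ext i j
  fin_cases i <;> fin_cases j <;> simp [add_comm]

theorem trace_ph (g : SL F) : trace (ph g) = (trace (g : V F)) ^ 3 := by
  rw [trace_fin_two, trace_fin_two, add_pow_char]
  simp [ph, frobenius_def]

theorem det_ph (g : SL F) : (ph g).det = 1 :=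
  (Matrix.SpecialLinearGroup.map (frobenius F 3) g).det_coe

theorem fix_lemma (g : SL F) (e : F) (he : e ^ 2 = 1) (C : V F) (hC : e • lin g C = C) :
    C = 0 ∨ (trace (g : V F)) ^ 3 = e * trace (g : V F) := by
  set τ := trace (g : V F) with hτ
  have h1 : adjugate (g : V F) * (g : V F) = 1 := by
    rw [adjugate_mul, g.2, one_smul]
  have h2 : (ph g)ᵀ * (adjugate (ph g))ᵀ = 1 := by
    rw [← Matrix.transpose_mul, adjugate_mul, det_ph, one_smul, transpose_one]
  have h3 : adjugate (g : V F) * C = e • (C * (ph g)ᵀ) := by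
    conv_lhs => rw [← hC]
    rw [lin, Matrix.mul_smul, Matrix.mul_assoc (g : V F), ← Matrix.mul_assoc, h1, Matrix.one_mul]
  have h4 : C * (adjugate (ph g))ᵀ = e • ((g : V F) * C) := by
    conv_lhs => rw [← hC]
    rw [lin, Matrix.smul_mul, Matrix.mul_assoc, h2, Matrix.mul_one]
  have h5 : (g : V F) * C = e • (C * (adjugate (ph g))ᵀ) := by
    rw [h4, smul_smul, ← pow_two, he, one_smul]
  have h6 : τ • C = (e * τ ^ 3) • C := by
    calc τ • C = (τ • (1 : V F)) * C := by rw [Matrix.smul_mul, Matrix.one_mul]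
      _ = ((g : V F) + adjugate (g : V F)) * C := by rw [add_adj]
      _ = e • (C * (ph g + adjugate (ph g))ᵀ) := by
          rw [Matrix.add_mul, h3, h5, ← smul_add, ← Matrix.mul_add, Matrix.transpose_add, add_comm (ph g)ᵀ]
      _ = (e * τ ^ 3) • C := by
          rw [add_adj, trace_ph, transpose_smul, transpose_one, Matrix.mul_smul, Matrix.mul_one,
            smul_smul]
  have h7 : (τ - e * τ ^ 3) • C = 0 := by rw [sub_smul, h6, sub_self]
  rcases smul_eq_zero.mp h7 with h | h
  · right
    have h8 : τ = e * τ ^ 3 := sub_eq_zero.mp h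
    calc τ ^ 3 = e ^ 2 * τ ^ 3 := by rw [he, one_mul]
      _ = e * (e * τ ^ 3) := by ring
      _ = e * τ := by rw [← h8]
  · left; exact h

/-- the representation predicate. -/
def Rep (T : Equiv.Perm (V F)) (e : F) (g : SL F) (B : V F) : Prop :=
  ∀ X, T X = e • lin g X + B

theorem Rep.mul {T T' : Equiv.Perm (V F)} {e e' : F} {g g' : SL F} {B B' : V F}
    (h : Rep T e g B) (h' : Rep T' e' g' B') :
    Rep (T * T') (e * e') (g * g') (e • lin g B' + B) := by
  intro X
  rw [Equiv.Perm.mul_apply, h', h, lin_add, lin_smul, lin_mul, smul_add, smul_smul]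
  abel

theorem Rep.pow {T : Equiv.Perm (V F)} {e : F} {g : SL F} {B : V F}
    (h : Rep T e g B) (n : ℕ) : ∃ C, Rep (T ^ n) (e ^ n) (g ^ n) C := by
  induction n with
  | zero => exact ⟨0, fun X => by simp [lin_one]⟩
  | succ n ih =>
    obtain ⟨C, hC⟩ := ih
    exact ⟨_, by rw [pow_succ, pow_succ, pow_succ]; exact hC.mul h⟩

/-- if the linear part of a power is trivial then the translation is fixed. -/
theorem Rep.fix {T : Equiv.Perm (V F)} {e : F} {g : SL F} {B : V F}
    (h : Rep T e g B) (n : ℕ) (C : V F) (hC : ∀ X, (T ^ n) X = X + C) : e • lin g C = C := by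
  have h1 : T ((T ^ n) 0) = (T ^ n) (T 0) := by
    rw [← Equiv.Perm.mul_apply, ← Equiv.Perm.mul_apply, ← pow_succ, ← pow_succ']
  rw [hC, hC, h, h, zero_add] at h1
  have h0 : lin g (0 : V F) = 0 := by simp [lin]
  rw [h0, smul_zero, zero_add, add_comm] at h1
  exact add_left_cancel h1

theorem Rep.pow_eq_one {T : Equiv.Perm (V F)} {e : F} {g : SL F} {B : V F}
    (h : Rep T e g B) (he : e ^ 2 = 1) (ht : (trace (g : V F)) ^ 3 ≠ e * trace (g : V F))
    (n : ℕ) (hn : ∀ X : V F, e ^ n • lin (g ^ n) X = X) : T ^ n = 1 := by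
  obtain ⟨C, hC⟩ := h.pow n
  have hC' : ∀ X, (T ^ n) X = X + C := by
    intro X
    rw [hC, hn]
  rcases fix_lemma g e he C (h.fix n C hC') with h0 | h0
  · apply Equiv.ext
    intro X
    rw [hC', h0, add_zero]
    rfl
  · exact absurd h0 ht

end Cfsg.Agent.H21.LX1
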