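import Mathlib
import Cfsg.Agent.H21.LX1

set_option autoImplicit false

namespace Cfsg.Agent.H21.LX2

open Matrix Cfsg.Agent.H21.LX1

variable {F : Type} [Field F] [CharP F 3]

theorem three_eq : (3 : F) = 0 := by
  have := CharP.cast_eq_zero F 3
  exact_mod_cast this

theorem two_ne : (2 : F) ≠ 0 := by
  intro h
  have h3 := three_eq (F := F)
  have : (1 : F) = 0 := by linear_combination h3 - h
  exact one_ne_zero this

omit [CharP F 3] in
theorem sq_eq (g : SL F) : (g : V F) * (g : V F) = (trace (g : V F)) • (g : V F) - 1 := by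
  have h := add_adj (g : V F)
  have h1 : (g : V F) * adjugate (g : V F) = 1 := by rw [mul_adjugate, g.2, one_smul]
  have h2 : (g : V F) * ((g : V F) + adjugate (g : V F)) = (trace (g : V F)) • (g : V F) := by
    rw [h, Matrix.mul_smul, Matrix.mul_one]
  rw [Matrix.mul_add, h1] at h2
  rw [← h2]; abel

omit [CharP F 3] in
theorem pow_lin (g : SL F) (n : ℕ) : ∃ a b : F, (g : V F) ^ n = a • (1 : V F) + b • (g : V F) := by
  induction n with
  | zero => exact ⟨1, 0, by simp⟩
  | succ n ih =>
    obtain ⟨a, b, h⟩ := ih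
    refine ⟨-b, a + b * trace (g : V F), ?_⟩
    rw [pow_succ, h, Matrix.add_mul, Matrix.smul_mul, Matrix.smul_mul, Matrix.one_mul, sq_eq,
      smul_sub, smul_smul, add_smul, neg_smul]
    abel

theorem pow_q [Fintype F] (g : SL F) (ht : (trace (g : V F)) ^ 2 ≠ 4) :
    g ^ Fintype.card F = g ∨ g ^ Fintype.card F * g = 1 := by
  classical
  set q := Fintype.card F with hq
  obtain ⟨a, b, hab⟩ := pow_lin g q
  set τ := trace (g : V F) with hτ
  have htr : trace ((g : V F) ^ q) = τ := by
    rw [FiniteField.trace_pow_card, FiniteField.pow_card]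
  have hdet : ((g : V F) ^ q).det = 1 := by
    rw [det_pow, g.2, one_pow]
  have hg : (g : V F) 0 0 * (g : V F) 1 1 - (g : V F) 0 1 * (g : V F) 1 0 = 1 := by
    rw [← det_fin_two]; exact g.2
  have hτ' : τ = (g : V F) 0 0 + (g : V F) 1 1 := trace_fin_two _
  rw [hab] at htr hdet
  rw [trace_fin_two] at htr
  rw [det_fin_two] at hdet
  simp at htr hdet
  have e1 : 2 * a + b * τ = τ := by rw [hτ']; rw [hτ'] at htr; linear_combination htr
  have e2 : a ^ 2 + a * b * τ + b ^ 2 = 1 := by
    rw [hτ']
    linear_combination hdet + b ^ 2 * (1 - 1) - b ^ 2 * hg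
  have e3 : (1 - b) * (1 + b) * (τ ^ 2 - 4) = 0 := by
    linear_combination (4 : F) * e2 + (-2 * a + b * τ - τ - 2 * b * τ) * e1
  rcases mul_eq_zero.mp e3 with h | h
  · rcases mul_eq_zero.mp h with h | h
    · left
      have hb : b = 1 := by linear_combination -h
      have ha : a = 0 := by
        have : 2 * a = 0 := by rw [hb] at e1; linear_combination e1
        exact (mul_eq_zero.mp this).resolve_left two_ne
      apply Subtype.ext
      rw [Matrix.SpecialLinearGroup.coe_pow, hab, ha, hb]
      simp
    · right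
      have hb : b = -1 := by linear_combination h
      have ha : a = τ := by
        have : 2 * (a - τ) = 0 := by rw [hb] at e1; linear_combination e1
        exact sub_eq_zero.mp ((mul_eq_zero.mp this).resolve_left two_ne)
      apply Subtype.ext
      rw [Matrix.SpecialLinearGroup.coe_mul, Matrix.SpecialLinearGroup.coe_pow, hab, ha, hb,
        Matrix.add_mul, Matrix.smul_mul, Matrix.smul_mul, Matrix.one_mul, sq_eq]
      simp [← hτ]
  · exact absurd (sub_eq_zero.mp h) ht

/-- square one in `SL₂`. -/
theorem sq_one (g : SL F) (h : g * g = 1) : g = 1 ∨ g = -1 := by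
  have h1 := congrArg Subtype.val h
  rw [Matrix.SpecialLinearGroup.coe_mul, sq_eq, Matrix.SpecialLinearGroup.coe_one] at h1
  set τ := trace (g : V F) with hτ
  have h2 : τ • (g : V F) = (2 : F) • (1 : V F) := by
    rw [sub_eq_iff_eq_add] at h1
    rw [h1, two_smul]
  have hτ0 : τ ≠ 0 := by
    intro h0
    rw [h0, zero_smul] at h2
    have := congrFun (congrFun h2 0) 0
    simp at this
    exact two_ne this.symm
  have h3 : (g : V F) = (2 / τ) • (1 : V F) := by
    rw [div_eq_inv_mul, mul_smul, ← h2, smul_smul, inv_mul_cancel₀ hτ0, one_smul]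
  have h4 : (2 / τ) ^ 2 = 1 := by
    have hd := g.2
    rw [h3, det_smul] at hd
    simpa using hd
  have h5 : (2 / τ - 1) * (2 / τ + 1) = 0 := by linear_combination h4
  rcases mul_eq_zero.mp h5 with h | h
  · left
    apply Subtype.ext
    rw [h3, sub_eq_zero.mp h, one_smul]
    rfl
  · right
    apply Subtype.ext
    rw [h3, eq_neg_of_add_eq_zero_left h, neg_smul, one_smul]
    rfl

end Cfsg.Agent.H21.LX2
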