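import Mathlib
import Cfsg.Agent.H21.LX2

set_option autoImplicit false

namespace Cfsg.Agent.H21.LX3

open Matrix Cfsg.Agent.H21.LX1 Cfsg.Agent.H21.LX2

variable {F : Type} [Field F] [CharP F 3]

theorem trans_pow {S : Equiv.Perm (V F)} {C : V F} (h : ∀ X, S X = X + C) : S ^ 3 = 1 := by
  apply Equiv.ext
  intro X
  rw [pow_succ, pow_two, Equiv.Perm.mul_apply, Equiv.Perm.mul_apply, h, h, h, Equiv.Perm.one_apply]
  have h3 := three_eq (F := F)
  have : X + C + C + C = X + (3 : F) • C := by
    rw [show (3 : F) = 1 + 1 + 1 by norm_num, add_smul, add_smul, one_smul]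
    abel
  rw [this, h3, zero_smul, add_zero]

theorem upper [Fintype F] (hq4 : Fintype.card F % 8 = 3)
    (T : Equiv.Perm (V F)) (e : F) (he : e = 1 ∨ e = -1) (g : SL F) (B : V F) (h : Rep T e g B) :
    T ^ 6 = 1 ∨ T ^ 9 = 1 ∨ T ^ (Fintype.card F - 1) = 1 ∨ T ^ ((Fintype.card F + 1) / 2) = 1 := by
  classical
  set q := Fintype.card F with hq
  set τ := trace (g : V F) with hτ
  have he2 : e ^ 2 = 1 := by rcases he with rfl | rfl <;> norm_num
  have h3 := three_eq (F := F)
  have hns : ∀ x : F, x ^ 2 ≠ -1 := by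
    intro x hx
    have : IsSquare (-1 : F) := ⟨x, by rw [← hx, pow_two]⟩
    rw [FiniteField.isSquare_neg_one_iff] at this
    omega
  by_cases h0 : τ = 0
  · left
    have hgg : g * g = -1 := by
      apply Subtype.ext
      rw [Matrix.SpecialLinearGroup.coe_mul, sq_eq, ← hτ, h0, zero_smul, zero_sub]
      rfl
    obtain ⟨C, hC⟩ := h.pow 2
    rw [show (6 : ℕ) = 2 * 3 by norm_num, pow_mul]
    apply trans_pow (C := C)
    intro X
    rw [hC, he2, pow_two, hgg, lin_neg, lin_one, one_smul]
  by_cases h1 : τ ^ 2 = 1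
  · have hg3 : g ^ 3 = 1 ∨ g ^ 3 = -1 := by
      have h1' : (τ - 1) * (τ + 1) = 0 := by linear_combination h1
      rcases mul_eq_zero.mp h1' with h2 | h2
      · right
        have ht : τ = 1 := sub_eq_zero.mp h2
        apply Subtype.ext
        rw [Matrix.SpecialLinearGroup.coe_pow, pow_succ, pow_two, sq_eq, ← hτ, ht, one_smul,
          Matrix.sub_mul, sq_eq, ← hτ, ht, one_smul, Matrix.one_mul]
        simp
      · left
        have ht : τ = -1 := eq_neg_of_add_eq_zero_left h2
        apply Subtype.ext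
        rw [Matrix.SpecialLinearGroup.coe_pow, pow_succ, pow_two, sq_eq, ← hτ, ht, neg_smul,
          one_smul, Matrix.sub_mul, Matrix.neg_mul, sq_eq, ← hτ, ht, neg_smul, one_smul,
          Matrix.one_mul]
        simp
    have hl3 : ∀ X : V F, lin (g ^ 3) X = X := by
      intro X
      rcases hg3 with h2 | h2
      · rw [h2, lin_one]
      · rw [h2, lin_neg, lin_one]
    rcases he with rfl | rfl
    · right; left
      obtain ⟨C, hC⟩ := h.pow 3
      rw [show (9 : ℕ) = 3 * 3 by norm_num, pow_mul]
      apply trans_pow (C := C)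
      intro X
      rw [hC, hl3, one_pow, one_smul]
    · left
      apply h.pow_eq_one he2
      · rw [← hτ]
        intro h2
        have : 2 * τ = 0 := by linear_combination h2 - τ * h1
        rcases mul_eq_zero.mp this with h5 | h5
        · exact two_ne h5
        · exact h0 h5
      · intro X
        rw [show (6 : ℕ) = 3 + 3 by norm_num, pow_add g, lin_mul, hl3, hl3]
        norm_num
  · right; right
    have ht : τ ^ 3 ≠ e * τ := by
      intro h2
      have h5 : τ * (τ ^ 2 - e) = 0 := by linear_combination h2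
      rcases mul_eq_zero.mp h5 with h6 | h6
      · exact h0 h6
      · have h7 : τ ^ 2 = e := sub_eq_zero.mp h6
        rcases he with rfl | rfl
        · exact h1 h7
        · exact hns _ h7
    have h4 : τ ^ 2 ≠ 4 := by
      intro h2
      apply h1
      linear_combination h2 + h3
    have hqpos : 1 ≤ q := Fintype.card_pos
    rcases pow_q g h4 with h2 | h2
    · left
      apply h.pow_eq_one he2 ht
      intro X
      have hg1 : g ^ (q - 1) = 1 := by
        have : g ^ (q - 1) * g = 1 * g := by
          rw [← pow_succ, Nat.sub_add_cancel hqpos, one_mul]; exact h2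
        exact mul_right_cancel this
      have hev : e ^ (q - 1) = 1 := by
        rw [show q - 1 = 2 * ((q - 1) / 2) by omega, pow_mul, he2, one_pow]
      rw [hg1, hev, lin_one, one_smul]
    · right
      apply h.pow_eq_one he2 ht
      intro X
      have hg1 : g ^ ((q + 1) / 2) * g ^ ((q + 1) / 2) = 1 := by
        rw [← pow_add, show (q + 1) / 2 + (q + 1) / 2 = q + 1 by omega, pow_succ]
        exact h2
      have hev : e ^ ((q + 1) / 2) = 1 := by
        rw [show (q + 1) / 2 = 2 * ((q + 1) / 4) by omega, pow_mul, he2, one_pow]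
      rw [hev, one_smul]
      rcases sq_one _ hg1 with h5 | h5
      · rw [h5, lin_one]
      · rw [h5, lin_neg, lin_one]

/-- the group. -/
def H (F : Type) [Field F] [CharP F 3] : Subgroup (Equiv.Perm (V F)) where
  carrier := {T | ∃ (e : F) (g : SL F) (B : V F), (e = 1 ∨ e = -1) ∧ Rep T e g B}
  one_mem' := ⟨1, 1, 0, Or.inl rfl, fun X => by simp [lin_one]⟩
  mul_mem' := by
    rintro S T ⟨e, g, B, he, h⟩ ⟨e', g', B', he', h'⟩
    refine ⟨_, _, _, ?_, h.mul h'⟩
    rcases he with rfl | rfl <;> rcases he' with rfl | rfl <;> simp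
  inv_mem' := by
    rintro T ⟨e, g, B, he, h⟩
    have he2 : e * e = 1 := by rcases he with rfl | rfl <;> norm_num
    refine ⟨e, g⁻¹, -(e • lin g⁻¹ B), he, ?_⟩
    intro X
    rw [Equiv.Perm.inv_eq_iff_eq, h, lin_add, lin_smul, ← lin_mul, mul_inv_cancel, lin_one]
    have : lin g (-(e • lin g⁻¹ B)) = -(e • B) := by
      rw [← neg_smul, lin_smul, ← lin_mul, mul_inv_cancel, lin_one, neg_smul]
    rw [this, smul_add, smul_smul, smul_neg, smul_smul, he2, one_smul, one_smul]
    abel

/-- the affine maps. -/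
noncomputable def mk (e : F) (he : e * e = 1) (g : SL F) (B : V F) : Equiv.Perm (V F) where
  toFun X := e • lin g X + B
  invFun Y := e • lin g⁻¹ (Y - B)
  left_inv X := by
    show e • lin g⁻¹ (e • lin g X + B - B) = X
    rw [add_sub_cancel_right, lin_smul, ← lin_mul, inv_mul_cancel, lin_one, smul_smul, he, one_smul]
  right_inv Y := by
    show e • lin g (e • lin g⁻¹ (Y - B)) + B = Y
    rw [lin_smul, ← lin_mul, mul_inv_cancel, lin_one, smul_smul, he, one_smul, sub_add_cancel]

theorem mk_rep (e : F) (he : e * e = 1) (g : SL F) (B : V F) : Rep (mk e he g B) e g B :=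
  fun _ => rfl

theorem rep_zero_pow {T : Equiv.Perm (V F)} {e : F} {g : SL F} (h : Rep T e g 0) (n : ℕ) :
    ∀ X, (T ^ n) X = e ^ n • lin (g ^ n) X := by
  induction n with
  | zero => intro X; simp [lin_one]
  | succ n ih =>
    intro X
    rw [pow_succ, Equiv.Perm.mul_apply, ih, h, add_zero, lin_smul, ← lin_mul, smul_smul, pow_succ,
      pow_succ]

end Cfsg.Agent.H21.LX3
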