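import Mathlib
import Cfsg.Agent.H21.LX3

set_option autoImplicit false

namespace Cfsg.Agent.H21.LX4

open Matrix Cfsg.Agent.H21.LX1 Cfsg.Agent.H21.LX2 Cfsg.Agent.H21.LX3

variable {F : Type} [Field F] [CharP F 3]

/-- the unipotent matrix. -/
def uu (F : Type) [Field F] : SL F := ⟨!![1, 1; 0, 1], by simp⟩

/-- the torus matrix. -/
def dd (l : F) (hl : l ≠ 0) : SL F := ⟨!![l, 0; 0, l⁻¹], by simp [hl]⟩

theorem ph_apply (g : SL F) (i j : Fin 2) : ph g i j = ((g : V F) i j) ^ 3 := by
  simp [ph, frobenius_def]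

theorem ph_uu : ph (uu F) = !![1, 1; 0, 1] := by
  ext i j
  rw [ph_apply]
  fin_cases i <;> fin_cases j <;> simp [uu]

theorem lin_uu (a b c d : F) : lin (uu F) !![a, b; c, d] = !![a + c + (b + d), b + d; c + d, d] := by
  rw [lin, ph_uu]
  ext i j
  fin_cases i <;> fin_cases j <;> simp [uu, Matrix.mul_apply]

theorem uu_cube : (uu F) ^ 3 = 1 := by
  have h3 := three_eq (F := F)
  apply Subtype.ext
  rw [Matrix.SpecialLinearGroup.coe_pow, pow_succ, pow_two]
  ext i j
  fin_cases i <;> fin_cases j <;> simp [uu, Matrix.mul_apply]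
  linear_combination h3

theorem order9 : ∃ T : H F, orderOf T = 9 := by
  set T := mk (F := F) 1 (by norm_num) (uu F) !![0, 0; 0, 1] with hT
  have hrep : Rep T 1 (uu F) !![0, 0; 0, 1] := mk_rep _ _ _ _
  have hmem : T ∈ H F := ⟨1, uu F, _, Or.inl rfl, hrep⟩
  refine ⟨⟨T, hmem⟩, ?_⟩
  rw [Subgroup.orderOf_mk]
  haveI : Fact (Nat.Prime 3) := ⟨by norm_num⟩
  have h3 := three_eq (F := F)
  apply orderOf_eq_prime_pow (p := 3) (n := 1)
  · rw [pow_one]
    intro h
    have h1 := congrArg (fun S : Equiv.Perm (V F) => S !![0, 0; 0, 0] 0 0) h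
    simp only [pow_succ, pow_zero, one_mul, Equiv.Perm.mul_apply, Equiv.Perm.one_apply] at h1
    rw [hrep, hrep, hrep, lin_uu] at h1
    simp only [one_smul, Matrix.of_add_of, Matrix.add_cons, Matrix.head_cons, Matrix.tail_cons,
      Matrix.empty_add_empty] at h1
    rw [lin_uu] at h1
    simp only [one_smul, Matrix.of_add_of, Matrix.add_cons, Matrix.head_cons, Matrix.tail_cons,
      Matrix.empty_add_empty] at h1
    rw [lin_uu] at h1
    simp at h1
    have : (1 : F) = 0 := by linear_combination 2 * h3 - h1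
    exact one_ne_zero this
  · obtain ⟨C, hC⟩ := hrep.pow 3
    rw [show 3 ^ (1 + 1) = 3 * 3 by norm_num, pow_mul]
    apply trans_pow (C := C)
    intro X
    rw [hC, uu_cube, lin_one, one_pow, one_smul]

theorem prime_dvd_six {p : ℕ} (hp : p.Prime) (h : p ∣ 6) : p = 2 ∨ p = 3 := by
  have hle := Nat.le_of_dvd (by norm_num) h
  interval_cases p <;> revert hp h <;> decide

theorem order6 : ∃ T : H F, orderOf T = 6 := by
  set T := mk (F := F) (-1) (by norm_num) (uu F) 0 with hT
  have hrep : Rep T (-1) (uu F) 0 := mk_rep _ _ _ _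
  have hmem : T ∈ H F := ⟨-1, uu F, _, Or.inr rfl, hrep⟩
  refine ⟨⟨T, hmem⟩, ?_⟩
  rw [Subgroup.orderOf_mk]
  have hp := rep_zero_pow hrep
  apply orderOf_eq_of_pow_and_pow_div_prime (by norm_num)
  · apply Equiv.ext
    intro X
    rw [hp, show (6 : ℕ) = 3 + 3 by norm_num, pow_add (uu F), uu_cube, one_mul, lin_one]
    norm_num
  · intro p hpp hp6
    rcases prime_dvd_six hpp hp6 with rfl | rfl
    · intro h
      have h1 := congrArg (fun S : Equiv.Perm (V F) => S !![0, 0; 0, 1] 1 1) h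
      simp only [Nat.reduceDiv, hp, uu_cube, lin_one, Equiv.Perm.one_apply] at h1
      norm_num at h1
      have : (2 : F) = 0 := by linear_combination -h1
      exact two_ne this
    · intro h
      have h1 := congrArg (fun S : Equiv.Perm (V F) => S !![0, 0; 0, 1] 0 1) h
      simp only [Nat.reduceDiv, hp, Equiv.Perm.one_apply] at h1
      rw [pow_two (uu F), lin_mul, lin_uu, lin_uu] at h1
      norm_num at h1
      exact two_ne h1

end Cfsg.Agent.H21.LX4
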