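import Mathlib
import Cfsg.Agent.H21.LX4
import Cfsg.Agent.H16.SpMin

set_option autoImplicit false

namespace Cfsg.Agent.H21.LX5

open Matrix Cfsg.Agent.H21.LX1 Cfsg.Agent.H21.LX2 Cfsg.Agent.H21.LX3 Cfsg.Agent.H21.LX4

variable {F : Type} [Field F] [CharP F 3] [Fintype F]

omit [CharP F 3] [Fintype F] in
theorem dd_pow (l : F) (hl : l ≠ 0) (n : ℕ) : ((dd l hl) ^ n : SL F) = dd (l ^ n) (pow_ne_zero n hl) := by
  induction n with
  | zero =>
    rw [pow_zero]
    apply Subtype.ext
    ext i j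
    fin_cases i <;> fin_cases j <;> simp [dd]
  | succ n ih =>
    rw [pow_succ, ih]
    apply Subtype.ext
    rw [Matrix.SpecialLinearGroup.coe_mul]
    ext i j
    fin_cases i <;> fin_cases j <;> simp [dd, Matrix.mul_apply, pow_succ, mul_comm]

omit [Fintype F] in
theorem ph_dd (l : F) (hl : l ≠ 0) : ph (dd l hl) = !![l ^ 3, 0; 0, (l ^ 3)⁻¹] := by
  ext i j
  rw [ph_apply]
  fin_cases i <;> fin_cases j <;> simp [dd]

omit [Fintype F] in
theorem lin_dd (l : F) (hl : l ≠ 0) : lin (dd l hl) !![1, 0; 1, 0] = !![l ^ 4, 0; l ^ 2, 0] := by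
  rw [lin, ph_dd]
  ext i j
  fin_cases i <;> fin_cases j <;> simp [dd, Matrix.mul_apply]
  · ring
  · field_simp

theorem order_sub (hq4 : Fintype.card F % 8 = 3) : ∃ T : H F, orderOf T = Fintype.card F - 1 := by
  classical
  set q := Fintype.card F with hq
  have hns : ∀ x : F, x ^ 2 ≠ -1 := by
    intro x hx
    have : IsSquare (-1 : F) := ⟨x, by rw [← hx, pow_two]⟩
    rw [FiniteField.isSquare_neg_one_iff] at this
    omega
  obtain ⟨l, hl⟩ := IsCyclic.exists_generator (α := Fˣ)
  have hol : orderOf l = q - 1 := by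
    rw [orderOf_eq_card_of_forall_mem_zpowers hl, Nat.card_eq_fintype_card, Fintype.card_units]
  set T := mk (F := F) (-1) (by norm_num) (dd (l : F) l.ne_zero) 0 with hT
  have hrep : Rep T (-1) (dd (l : F) l.ne_zero) 0 := mk_rep _ _ _ _
  have hmem : T ∈ H F := ⟨-1, _, _, Or.inr rfl, hrep⟩
  refine ⟨⟨T, hmem⟩, ?_⟩
  rw [Subgroup.orderOf_mk]
  have hp := rep_zero_pow hrep
  apply Nat.dvd_antisymm
  · apply orderOf_dvd_of_pow_eq_one
    apply Equiv.ext
    intro X
    have h1 : (l : F) ^ (q - 1) = 1 := by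
      have := pow_orderOf_eq_one l
      rw [hol] at this
      have := congrArg Units.val this
      simpa using this
    have h2 : (dd (l : F) l.ne_zero) ^ (q - 1) = 1 := by
      rw [dd_pow]
      apply Subtype.ext
      ext i j
      fin_cases i <;> fin_cases j <;> simp [dd, h1]
    have h3 : (-1 : F) ^ (q - 1) = 1 := by
      rw [show q - 1 = 2 * ((q - 1) / 2) by omega, pow_mul]
      norm_num
    rw [hp, h2, h3, lin_one, one_smul]
    rfl
  · set n := orderOf T with hn
    have hTn : T ^ n = 1 := pow_orderOf_eq_one T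
    have h1 := congrArg (fun S : Equiv.Perm (V F) => S !![1, 0; 1, 0]) hTn
    simp only [hp, dd_pow, Equiv.Perm.one_apply, lin_dd] at h1
    have e1 : (-1 : F) ^ n * ((l : F) ^ n) ^ 4 = 1 := by
      have := congrFun (congrFun h1 0) 0
      simpa using this
    have e2 : (-1 : F) ^ n * ((l : F) ^ n) ^ 2 = 1 := by
      have := congrFun (congrFun h1 1) 0
      simpa using this
    have hs : ((-1 : F) ^ n) ^ 2 = 1 := by rw [← pow_mul, mul_comm, pow_mul]; norm_num
    have e3 : ((l : F) ^ n) ^ 2 = (-1 : F) ^ n := by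
      linear_combination ((-1 : F) ^ n) * e2 - ((l : F) ^ n) ^ 2 * hs
    have e4 : ((l : F) ^ n) ^ 2 = 1 := by
      have h5 : ((l : F) ^ n) ^ 2 ≠ 0 := pow_ne_zero _ (pow_ne_zero _ l.ne_zero)
      have h6 : (-1 : F) ^ n * ((l : F) ^ n) ^ 2 * (((l : F) ^ n) ^ 2 - 1) = 0 := by
        linear_combination e1 - e2
      rw [e2, one_mul] at h6
      exact sub_eq_zero.mp h6
    have hev : Even n := by
      by_contra hodd
      rw [Nat.not_even_iff_odd] at hodd
      rw [hodd.neg_one_pow] at e3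
      exact hns _ e3
    have h7 : l ^ (n * 2) = 1 := by
      apply Units.ext
      simpa [pow_mul] using e4
    have h8 : q - 1 ∣ n * 2 := by
      rw [← hol]
      exact orderOf_dvd_of_pow_eq_one h7
    obtain ⟨m, hm⟩ := hev
    obtain ⟨k, hk⟩ := h8
    -- `q - 1 = 2 * odd`, `n = 2 m`, `4 m = (q-1) k` so `k` even
    have hk2 : k % 2 = 0 := by
      have hq1 : q - 1 = 2 * ((q - 1) / 2) := by omega
      have hq2 : ((q - 1) / 2) % 2 = 1 := by omega
      have h9 : 2 * m = ((q - 1) / 2) * k := by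
        have : 2 * (2 * m) = 2 * (((q - 1) / 2) * k) := by
          calc 2 * (2 * m) = n * 2 := by rw [hm]; ring
            _ = (q - 1) * k := hk
            _ = (2 * ((q - 1) / 2)) * k := by rw [← hq1]
            _ = _ := by ring
        omega
      have h10 : (((q - 1) / 2) * k) % 2 = 0 := by rw [← h9]; omega
      rw [Nat.mul_mod, hq2] at h10
      omega
    refine ⟨k / 2, ?_⟩
    have : n * 2 = ((q - 1) * (k / 2)) * 2 := by
      rw [hk]
      calc (q - 1) * k = (q - 1) * (2 * (k / 2)) := by congr 1; omega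
        _ = _ := by ring
    omega

omit [Fintype F] in
theorem lin_eq (g : SL F) (h : ∀ X : V F, lin g X = X) : g * g = 1 := by
  have h1 := h 1
  rw [lin, Matrix.mul_one] at h1
  have h2 : (ph g)ᵀ * (g : V F) = 1 := mul_eq_one_comm.mp h1
  have h3 : ∀ X : V F, (g : V F) * X = X * (g : V F) := by
    intro X
    have := congrArg (fun Y => Y * (g : V F)) (h X)
    simp only [lin] at this
    rw [Matrix.mul_assoc, h2, Matrix.mul_one] at this
    exact this
  have h4 := h3 !![0, 1; 0, 0]
  have h5 := h3 !![0, 0; 1, 0]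
  have a1 := congrFun (congrFun h4 0) 1
  have a2 := congrFun (congrFun h4 0) 0
  have a3 := congrFun (congrFun h5 0) 0
  simp [Matrix.mul_apply] at a1 a2 a3
  have hd := g.2
  rw [det_fin_two] at hd
  apply Subtype.ext
  rw [Matrix.SpecialLinearGroup.coe_mul]
  ext i j
  fin_cases i <;> fin_cases j <;> simp [Matrix.mul_apply]
  · linear_combination hd + (g : V F) 0 0 * a1 + 2 * (g : V F) 1 0 * a3
  · linear_combination ((g : V F) 0 0 + (g : V F) 1 1) * a3
  · linear_combination -((g : V F) 0 0 + (g : V F) 1 1) * a2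
  · linear_combination hd - (g : V F) 1 1 * a1 + 2 * (g : V F) 1 0 * a3

theorem order_add (hq4 : Fintype.card F % 8 = 3) : ∃ T : H F, orderOf T = (Fintype.card F + 1) / 2 := by
  classical
  set q := Fintype.card F with hq
  obtain ⟨c, hc⟩ := Cfsg.Agent.H16.SpMin.exists_c F
  set T := mk (F := F) 1 (by norm_num) c 0 with hT
  have hrep : Rep T 1 c 0 := mk_rep _ _ _ _
  have hmem : T ∈ H F := ⟨1, _, _, Or.inl rfl, hrep⟩
  refine ⟨⟨T, hmem⟩, ?_⟩
  rw [Subgroup.orderOf_mk]
  have hp := rep_zero_pow hrep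
  apply Nat.dvd_antisymm
  · apply orderOf_dvd_of_pow_eq_one
    apply Equiv.ext
    intro X
    have h1 : c ^ ((q + 1) / 2) * c ^ ((q + 1) / 2) = 1 := by
      rw [← pow_add, show (q + 1) / 2 + (q + 1) / 2 = q + 1 by omega, ← hc, pow_orderOf_eq_one]
    rw [hp, one_pow, one_smul]
    rcases sq_one _ h1 with h5 | h5
    · rw [h5, lin_one]; rfl
    · rw [h5, lin_neg, lin_one]; rfl
  · set n := orderOf T with hn
    have hTn : T ^ n = 1 := pow_orderOf_eq_one T
    have h1 : ∀ X : V F, lin (c ^ n) X = X := by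
      intro X
      have := congrArg (fun S : Equiv.Perm (V F) => S X) hTn
      simp only [hp, one_pow, one_smul, Equiv.Perm.one_apply] at this
      exact this
    have h2 := lin_eq _ h1
    rw [← pow_add] at h2
    have h3 : q + 1 ∣ n + n := by
      rw [← hc]
      exact orderOf_dvd_of_pow_eq_one h2
    obtain ⟨k, hk⟩ := h3
    refine ⟨k, ?_⟩
    have h4 : q + 1 = 2 * ((q + 1) / 2) := by omega
    have : 2 * n = 2 * ((q + 1) / 2 * k) := by
      calc 2 * n = n + n := by ring
        _ = (q + 1) * k := hk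
        _ = (2 * ((q + 1) / 2)) * k := by rw [← h4]
        _ = _ := by ring
    omega

end Cfsg.Agent.H21.LX5
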