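import Mathlib
import Cfsg.Agent.H21.LX5

set_option autoImplicit false

namespace Cfsg.Agent.H21.LX6

open Matrix Cfsg.Agent.H21.LX1 Cfsg.Agent.H21.LX2 Cfsg.Agent.H21.LX3 Cfsg.Agent.H21.LX4
  Cfsg.Agent.H21.LX5

variable {F : Type} [Field F] [CharP F 3] 

/-- translations. -/
def P (F : Type) [Field F] [CharP F 3] : Subgroup (H F) where
  carrier := {T | ∃ B : V F, ∀ X, (T : Equiv.Perm (V F)) X = X + B}
  one_mem' := ⟨0, fun X => by simp⟩
  mul_mem' := by
    rintro S T ⟨B, h⟩ ⟨C, h'⟩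
    refine ⟨C + B, fun X => ?_⟩
    rw [Subgroup.coe_mul, Equiv.Perm.mul_apply, h', h, add_assoc]
  inv_mem' := by
    rintro T ⟨B, h⟩
    refine ⟨-B, fun X => ?_⟩
    rw [Subgroup.coe_inv, Equiv.Perm.inv_eq_iff_eq, h]
    abel

theorem P_normal : (P F).Normal := by
  constructor
  rintro T ⟨B, h⟩ S
  obtain ⟨e, g, C, he, hS⟩ := S.2
  refine ⟨e • lin g B, fun X => ?_⟩
  have h1 : ((S * T * S⁻¹ : H F) : Equiv.Perm (V F)) X
      = (S : Equiv.Perm (V F)) ((T : Equiv.Perm (V F)) ((S : Equiv.Perm (V F))⁻¹ X)) := rfl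
  rw [h1, h, hS, lin_add, smul_add, add_right_comm, ← hS]
  simp

theorem P_ne_bot : P F ≠ ⊥ := by
  intro h
  have h1 : mk (F := F) 1 (by norm_num) 1 1 ∈ H F := ⟨1, 1, 1, Or.inl rfl, mk_rep _ _ _ _⟩
  have h2 : (⟨_, h1⟩ : H F) ∈ P F := ⟨1, fun X => by
    show (1 : F) • lin 1 X + 1 = X + 1
    rw [lin_one, one_smul]⟩
  rw [h, Subgroup.mem_bot] at h2
  have h3 := congrArg (fun T : H F => (T : Equiv.Perm (V F)) 0) h2
  have h4 : (1 : F) • lin 1 (0 : V F) + 1 = 0 := h3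
  rw [lin_one, smul_zero, zero_add] at h4
  exact one_ne_zero h4

theorem P_three : IsPGroup 3 (P F) := by
  rintro ⟨T, B, h⟩
  refine ⟨1, ?_⟩
  apply Subtype.ext
  apply Subtype.ext
  rw [pow_one]
  exact trans_pow h

variable [Fintype F]

theorem max_orders (hq4 : Fintype.card F % 8 = 3) (hq : 27 ≤ Fintype.card F) 
    (h3 : 3 ∣ Fintype.card F) :
    {n : ℕ | n ∈ Set.range (orderOf : H F → ℕ) ∧ ∀ m ∈ Set.range (orderOf : H F → ℕ), n ∣ m → m = n}
      = ({6, 9, Fintype.card F - 1, (Fintype.card F + 1) / 2} : Set ℕ) := by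
  set q := Fintype.card F with hqd
  have hup : ∀ m ∈ Set.range (orderOf : H F → ℕ), m ∣ 6 ∨ m ∣ 9 ∨ m ∣ q - 1 ∨ m ∣ (q + 1) / 2 := by
    rintro m ⟨T, rfl⟩
    obtain ⟨e, g, B, he, hT⟩ := T.2
    have key : ∀ n : ℕ, (T : Equiv.Perm (V F)) ^ n = 1 → orderOf T ∣ n := by
      intro n hn
      apply orderOf_dvd_of_pow_eq_one
      apply Subtype.ext
      exact hn
    rcases upper hq4 T e he g B hT with h | h | h | h
    · exact Or.inl (key _ h)
    · exact Or.inr (Or.inl (key _ h))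
    · exact Or.inr (Or.inr (Or.inl (key _ h)))
    · exact Or.inr (Or.inr (Or.inr (key _ h)))
  obtain ⟨T6, h6⟩ := order6 (F := F)
  obtain ⟨T9, h9⟩ := order9 (F := F)
  obtain ⟨Ts, hs⟩ := order_sub (F := F) hq4
  obtain ⟨Ta, ha⟩ := order_add (F := F) hq4
  rw [← hqd] at hs ha
  -- arithmetic facts
  have a1 : ¬ 3 ∣ q - 1 := by omega
  have a2 : ¬ 3 ∣ (q + 1) / 2 := by omega
  have n6s : ¬ 6 ∣ q - 1 := fun h => a1 (dvd_trans (by norm_num) h)
  have n6a : ¬ 6 ∣ (q + 1) / 2 := fun h => a2 (dvd_trans (by norm_num) h)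
  have n9s : ¬ 9 ∣ q - 1 := fun h => a1 (dvd_trans (by norm_num) h)
  have n9a : ¬ 9 ∣ (q + 1) / 2 := fun h => a2 (dvd_trans (by norm_num) h)
  have ns6 : ¬ q - 1 ∣ 6 := fun h => by have := Nat.le_of_dvd (by norm_num) h; omega
  have ns9 : ¬ q - 1 ∣ 9 := fun h => by have := Nat.le_of_dvd (by norm_num) h; omega
  have na6 : ¬ (q + 1) / 2 ∣ 6 := fun h => by have := Nat.le_of_dvd (by norm_num) h; omega
  have na9 : ¬ (q + 1) / 2 ∣ 9 := fun h => by have := Nat.le_of_dvd (by norm_num) h; omega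
  have nsa : ¬ q - 1 ∣ (q + 1) / 2 := fun h => by have := Nat.le_of_dvd (by omega) h; omega
  have nas : ¬ (q + 1) / 2 ∣ q - 1 := fun h => by
    have h1 : (q + 1) / 2 ∣ 2 * ((q + 1) / 2) := Dvd.intro_left 2 rfl
    have h2 : (q + 1) / 2 ∣ 2 * ((q + 1) / 2) - (q - 1) := Nat.dvd_sub h1 h
    have h4 : 2 * ((q + 1) / 2) - (q - 1) = 2 := by omega
    rw [h4] at h2
    have := Nat.le_of_dvd (by norm_num) h2
    omega
  ext n
  simp only [Set.mem_setOf_eq, Set.mem_insert_iff, Set.mem_singleton_iff]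
  constructor
  · rintro ⟨hn, hmax⟩
    rcases hup n hn with h | h | h | h
    · left; exact (hmax 6 ⟨T6, h6⟩ h).symm
    · right; left; exact (hmax 9 ⟨T9, h9⟩ h).symm
    · right; right; left; exact (hmax (q - 1) ⟨Ts, hs⟩ h).symm
    · right; right; right; exact (hmax ((q + 1) / 2) ⟨Ta, ha⟩ h).symm
  · rintro (rfl | rfl | rfl | rfl)
    · refine ⟨⟨T6, h6⟩, fun m hm hd => ?_⟩
      rcases hup m hm with h | h | h | h
      · exact Nat.dvd_antisymm h hd
      · exact absurd (dvd_trans hd h) (by norm_num)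
      · exact absurd (dvd_trans hd h) n6s
      · exact absurd (dvd_trans hd h) n6a
    · refine ⟨⟨T9, h9⟩, fun m hm hd => ?_⟩
      rcases hup m hm with h | h | h | h
      · exact absurd (dvd_trans hd h) (by norm_num)
      · exact Nat.dvd_antisymm h hd
      · exact absurd (dvd_trans hd h) n9s
      · exact absurd (dvd_trans hd h) n9a
    · refine ⟨⟨Ts, hs⟩, fun m hm hd => ?_⟩
      rcases hup m hm with h | h | h | h
      · exact absurd (dvd_trans hd h) ns6
      · exact absurd (dvd_trans hd h) ns9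
      · exact Nat.dvd_antisymm h hd
      · exact absurd (dvd_trans hd h) nsa
    · refine ⟨⟨Ta, ha⟩, fun m hm hd => ?_⟩
      rcases hup m hm with h | h | h | h
      · exact absurd (dvd_trans hd h) na6
      · exact absurd (dvd_trans hd h) na9
      · exact absurd (dvd_trans hd h) nas
      · exact Nat.dvd_antisymm h hd

end Cfsg.Agent.H21.LX6
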