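import Cfsg.Agent.H21.MA22

set_option autoImplicit false
set_option linter.unusedSectionVars false
set_option linter.unusedVariables false
set_option linter.style.haveILetI false

/-! The commuting graph determines `M₁₁`. -/

namespace Cfsg.Agent.H21.MA

open Subgroup MulAction
open scoped Pointwise

theorem card_cz_ne {G : Type*} [Group G] [Finite G] (g : G) :
    Nat.card (centralizer ({g} : Set G)) = 1 + Nat.card {x : {a : G // a ≠ 1} // (x : G) * g = g * x} := by
  have h1 := card_ne_one (A := centralizer ({g} : Set G))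
  have h2 : Nat.card {a : centralizer ({g} : Set G) // a ≠ 1} = Nat.card {x : {a : G // a ≠ 1} // (x : G) * g = g * x} := by
    apply Nat.card_congr
    refine ⟨fun a => ⟨⟨a.1.1, fun h => a.2 (Subtype.ext h)⟩, mem_cz.mp a.1.2⟩, fun x => ⟨⟨x.1.1, mem_cz.mpr x.2⟩, fun h => ?_⟩,
      fun _ => rfl, fun _ => rfl⟩
    have h3 : x.1.1 = 1 := congrArg Subtype.val h
    exact x.1.2 h3
  omega

theorem comm_graph {H : Type*} [Group H] [Finite H]
    (f : {h : H // h ≠ 1} ≃ {g : ↥Cfsg.Spor.M11 // g ≠ 1})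
    (hf : ∀ x y : {h : H // h ≠ 1}, (x : H) * y = y * x ↔ ((f x) : ↥Cfsg.Spor.M11) * (f y) = (f y) * (f x)) :
    Nonempty (H ≃* ↥Cfsg.Spor.M11) := by
  haveI := M11_simple
  haveI : Finite Cfsg.Spor.M11 := Nat.finite_of_card_ne_zero (by rw [Cfsg.Agent.H28.card_M11]; norm_num)
  have hc := Cfsg.Agent.H28.card_M11
  have hH : Nat.card H = 7920 := by
    have h1 := card_ne_one (A := H)
    have h2 := card_ne_one (A := Cfsg.Spor.M11)
    have h3 := Nat.card_congr f
    rw [hc] at h2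
    omega
  have hcz : ∀ x : {h : H // h ≠ 1}, Nat.card (centralizer ({(x : H)} : Set H)) =
      Nat.card (centralizer ({((f x : {g : ↥Cfsg.Spor.M11 // g ≠ 1}) : ↥Cfsg.Spor.M11)} : Set ↥Cfsg.Spor.M11)) := by
    intro x
    rw [card_cz_ne, card_cz_ne]
    congr 1
    exact Nat.card_congr (Equiv.subtypeEquiv f (fun y => hf y x))
  have key : ∀ p : ℕ, p.Prime → p ∣ 7920 → (∀ x : ↥Cfsg.Spor.M11, orderOf x = p →
      Nat.card (centralizer ({x} : Set ↥Cfsg.Spor.M11)) = p) →
      ∃ h : H, orderOf h = p ∧ Nat.card (centralizer ({h} : Set H)) = p := by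
    intro p hp hd hC
    haveI : Fact p.Prime := ⟨hp⟩
    obtain ⟨x, hx⟩ := exists_prime_orderOf_dvd_card' (G := ↥Cfsg.Spor.M11) p (by rw [hc]; exact hd)
    have hx1 : x ≠ 1 := by
      rintro rfl
      rw [orderOf_one] at hx
      exact hp.one_lt.ne hx
    have h1 := hcz (f.symm ⟨x, hx1⟩)
    rw [Equiv.apply_symm_apply, hC x hx] at h1
    refine ⟨(f.symm ⟨x, hx1⟩ : {h : H // h ≠ 1}), ?_, h1⟩
    have h2 : ((f.symm ⟨x, hx1⟩ : {h : H // h ≠ 1}) : H) ∈ centralizer ({((f.symm ⟨x, hx1⟩ : {h : H // h ≠ 1}) : H)} : Set H) :=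
      mem_cz.mpr rfl
    have h3 := orderOf_dvd_card_mem h2
    rw [h1] at h3
    rcases (Nat.dvd_prime hp).mp h3 with h | h
    · exact absurd (orderOf_eq_one_iff.mp h) (f.symm ⟨x, hx1⟩).2
    · exact h
  obtain ⟨x, hx, hCx⟩ := key 11 (by norm_num) (by norm_num) (fun x hx => F11 hc x hx)
  obtain ⟨y, hy, hCy⟩ := key 5 (by norm_num) (by norm_num) (fun x hx => F5 hc x hx)
  haveI := simple_of_cent hH hx hy hCx hCy
  exact iso_Spor hH

end Cfsg.Agent.H21.MA
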