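import Cfsg.Agent.H21.MA22

set_option autoImplicit false
set_option linter.unusedSectionVars false
set_option linter.unusedVariables false
set_option linter.style.haveILetI false

/-! The numbers of elements of each order in the simple group of order 7920. -/

namespace Cfsg.Agent.H21.MA

open Subgroup MulAction
open scoped Pointwise

/-- number of elements of order `n` -/
noncomputable def mo (G : Type*) [Group G] (n : ℕ) : ℕ := Nat.card {g : G // orderOf g = n}

theorem pow_of_ord {G : Type*} [Group G] {g : G} {n : ℕ} (h : orderOf g = n) : g ^ n = 1 := by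
  rw [← h]; exact pow_orderOf_eq_one g

section gen
variable {G : Type*} [Group G] [Finite G]

theorem mo_prime {p : ℕ} [hp : Fact p.Prime] (hP : ∀ P : Sylow p G, Nat.card P = p) :
    mo G p = Nat.card (Sylow p G) * (p - 1) := by
  have h := dc (X := {g : G // orderOf g = p}) (Y := Sylow p G) (fun g P => g.1 ∈ P) (a := 1) (b := p - 1) (by
    intro x
    rw [Nat.card_eq_one_iff_unique]
    obtain ⟨P, hPx⟩ := exists_sylow_zpowers hP x.1 x.2
    have hxP : x.1 ∈ P := by
      show x.1 ∈ (P : Subgroup G)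
      rw [hPx]; exact mem_zpowers _
    have key : ∀ R : Sylow p G, x.1 ∈ R → R = P := by
      intro R hR
      apply Sylow.ext
      symm
      apply Subgroup.eq_of_le_of_card_ge
      · rw [hPx, zpowers_le]; exact hR
      · have h1 : Nat.card (R : Subgroup G) = p := hP R
        have h2 : Nat.card (P : Subgroup G) = p := hP P
        rw [h1, h2]
    exact ⟨⟨fun a b => Subtype.ext ((key a.1 a.2).trans (key b.1 b.2).symm)⟩, ⟨⟨P, hxP⟩⟩⟩) (by
    intro P
    have h1 := card_ne_one (A := (P : Subgroup G))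
    have h2 : Nat.card (P : Subgroup G) = p := hP P
    rw [h2] at h1
    have h3 : Nat.card {x : {g : G // orderOf g = p} // x.1 ∈ P} = Nat.card {a : (P : Subgroup G) // a ≠ 1} := by
      apply Nat.card_congr
      refine ⟨fun x => ⟨⟨x.1.1, x.2⟩, fun h => ?_⟩, fun a => ⟨⟨a.1.1, ?_⟩, a.1.2⟩, fun _ => rfl, fun _ => rfl⟩
      · have h4 : x.1.1 = 1 := congrArg Subtype.val h
        have h5 := x.1.2
        rw [h4, orderOf_one] at h5
        exact hp.out.one_lt.ne h5
      · have h4 := orderOf_dvd_card_mem a.1.2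
        rw [h2] at h4
        rcases (Nat.dvd_prime hp.out).mp h4 with h | h
        · exact absurd (Subtype.ext (orderOf_eq_one_iff.mp h)) a.2
        · exact h
    show Nat.card {x : {g : G // orderOf g = p} // x.1 ∈ P} = p - 1
    rw [h3]; omega)
  rw [mul_one] at h
  exact h

/-- `m(2n)` is a multiple of the number of involutions if these form one class -/
theorem mo_dvd {n : ℕ} (hn : 0 < n) (hone : ∀ u v : G, orderOf u = 2 → orderOf v = 2 → IsConj u v) :
    mo G 2 ∣ mo G (2 * n) := by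
  rcases Nat.eq_zero_or_pos (mo G 2) with h0 | h0
  · rw [h0]
    have : mo G (2 * n) = 0 := by
      unfold mo
      rw [Nat.card_eq_zero]
      left
      refine ⟨fun g => ?_⟩
      have h1 : orderOf (g.1 ^ n) = 2 := by
        rw [orderOf_pow, g.2, Nat.gcd_eq_right (Dvd.intro_left 2 rfl), Nat.mul_div_cancel _ hn]
      unfold mo at h0
      rw [Nat.card_eq_zero] at h0
      rcases h0 with h | h
      · exact h.false ⟨_, h1⟩
      · exact h.not_finite inferInstance
    rw [this]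
  · obtain ⟨⟨z, hz⟩⟩ := (Nat.card_pos_iff.mp h0).1
    have h := dc (X := {g : G // orderOf g = 2 * n}) (Y := {g : G // orderOf g = 2}) (fun g z => g.1 ^ n = z.1)
      (a := 1) (b := Nat.card {g : {g : G // orderOf g = 2 * n} // g.1 ^ n = z}) (by
        intro g
        rw [Nat.card_eq_one_iff_unique]
        have h1 : orderOf (g.1 ^ n) = 2 := by
          rw [orderOf_pow, g.2, Nat.gcd_eq_right (Dvd.intro_left 2 rfl), Nat.mul_div_cancel _ hn]
        exact ⟨⟨fun a b => Subtype.ext (Subtype.ext (a.2.symm.trans b.2))⟩, ⟨⟨⟨_, h1⟩, rfl⟩⟩⟩) (by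
        intro u
        obtain ⟨c, hc⟩ := isConj_iff.mp (hone z u.1 hz u.2)
        apply Nat.card_congr
        refine ⟨fun g => ⟨⟨c⁻¹ * g.1.1 * c, ?_⟩, ?_⟩, fun g => ⟨⟨c * g.1.1 * c⁻¹, ?_⟩, ?_⟩, fun g => ?_, fun g => ?_⟩
        · have := orderOf_cj c⁻¹ g.1.1
          rw [inv_inv] at this
          rw [this, g.1.2]
        · have h2 : (c⁻¹ * g.1.1 * c) ^ n = c⁻¹ * g.1.1 ^ n * c := by
            have := conj_pow (i := n) (a := c⁻¹) (b := g.1.1)
            rwa [inv_inv] at this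
          show (c⁻¹ * g.1.1 * c) ^ n = z
          have h3 : g.1.1 ^ n = u.1 := g.2
          rw [h2, h3, ← hc]; group
        · rw [orderOf_cj, g.1.2]
        · show (c * g.1.1 * c⁻¹) ^ n = u.1
          have h3 : g.1.1 ^ n = z := g.2
          rw [conj_pow, h3, hc]
        · apply Subtype.ext; apply Subtype.ext
          show c * (c⁻¹ * g.1.1 * c) * c⁻¹ = g.1.1
          group
        · apply Subtype.ext; apply Subtype.ext
          show c⁻¹ * (c * g.1.1 * c⁻¹) * c = g.1.1
          group)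
    rw [mul_one] at h
    exact ⟨_, h⟩

end gen

section three
variable {G : Type*} [Group G] [Finite G] [IsSimpleGroup G] (hc : Nat.card G = 7920)
include hc

theorem one_class' {u v : G} (hu : orderOf u = 2) (hv : orderOf v = 2) : IsConj u v := by
  apply one_class hc
  · rw [← pow_two, ← hu]; exact pow_orderOf_eq_one u
  · rintro rfl; rw [orderOf_one] at hu; norm_num at hu
  · rw [← pow_two, ← hv]; exact pow_orderOf_eq_one v
  · rintro rfl; rw [orderOf_one] at hv; norm_num at hv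

theorem mo_two : mo G 2 = 165 := by
  obtain ⟨a, b, ha, hb, hab, ha1, hb1, hne⟩ := exists_four hc
  rw [← card_Cl hc ha ha1]
  apply Nat.card_congr
  apply Equiv.subtypeEquivRight
  intro x
  constructor
  · intro hx
    exact one_class' hc (orderOf_two ha ha1) hx
  · intro hx
    obtain ⟨g, hg⟩ := isConj_iff.mp hx
    rw [← hg, orderOf_cj, orderOf_two ha ha1]

theorem mo_five : mo G 5 = 1584 := by
  haveI : Fact (Nat.Prime 5) := ⟨by norm_num⟩
  rw [mo_prime (syl5 hc), n5 hc]

theorem mo_eleven : mo G 11 = 1440 := by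
  haveI : Fact (Nat.Prime 11) := ⟨by norm_num⟩
  rw [mo_prime (syl11 hc), n11 hc]

theorem ord_E {E : Sylow 3 G} {x : G} (hx : x ∈ E) (hx1 : x ≠ 1) : orderOf x = 3 := by
  obtain ⟨T, hT⟩ := exists_T hc E
  exact (T_data hc hT hx hx1).2.2

theorem mo_three : mo G 3 = 440 := by
  haveI : Fact (Nat.Prime 3) := ⟨by norm_num⟩
  have h := dc (X := {g : G // orderOf g = 3}) (Y := Sylow 3 G) (fun g P => g.1 ∈ P) (a := 1) (b := 8) (by
    intro x
    rw [Nat.card_eq_one_iff_unique]
    obtain ⟨E, hE⟩ := exists_E hc x.2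
    exact ⟨⟨fun a b => Subtype.ext (ti hc a.2 b.2 (ne_one_of_ord hc x.2 (by norm_num)))⟩, ⟨⟨E, hE⟩⟩⟩) (by
    intro E
    show Nat.card {x : {g : G // orderOf g = 3} // x.1 ∈ E} = 8
    refine Eq.trans (Nat.card_congr ?_) (card_E8 hc E)
    refine ⟨fun x => ⟨⟨x.1.1, x.2⟩, fun h => ?_⟩, fun a => ⟨⟨a.1.1, ?_⟩, a.1.2⟩, fun _ => rfl, fun _ => rfl⟩
    · have h4 : x.1.1 = 1 := congrArg Subtype.val h
      exact ne_one_of_ord hc x.1.2 (by norm_num) h4
    · exact ord_E hc a.1.2 (fun h => a.2 (Subtype.ext h)))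
  rw [mul_one, (n3_55 hc).1] at h
  exact h

/-- the number of involutions commuting with an element of order 3 -/
theorem invol_three {f : G} (hf : orderOf f = 3) : Nat.card {t : G // orderOf t = 2 ∧ t * f = f * t} = 3 := by
  obtain ⟨E, hfE⟩ := exists_E hc hf
  have hf1 : f ≠ 1 := ne_one_of_ord hc hf (by norm_num)
  have hC := C18 hc hf
  have hEC : (E : Subgroup G) ≤ centralizer ({f} : Set G) := ((mem_iff_le hc E f).mp hfE).1
  obtain ⟨⟨r, hr⟩, hro⟩ := exists_prime_orderOf_dvd_card' (G := centralizer ({f} : Set G)) 2 (by rw [hC]; norm_num)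
  rw [orderOf_mk] at hro
  have hr2 : r * r = 1 := by rw [← pow_two, ← hro]; exact pow_orderOf_eq_one r
  have hr1 : r ≠ 1 := by rintro rfl; rw [orderOf_one] at hro; norm_num at hro
  have hrE : ∀ t : G, orderOf t = 2 → t ∉ (E : Subgroup G) := by
    intro t ht h
    have := orderOf_dvd_card_mem h
    have h2 : Nat.card (E : Subgroup G) = 9 := syl3 hc E
    rw [ht, h2] at this; norm_num at this
  have h1 := orbit_stab (A := (E : Subgroup G)) (Cl.base r)
  have h2 : Nat.card (stabilizer (E : Subgroup G) (Cl.base r)) = 3 := by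
    refine Eq.trans (Nat.card_congr ?_) (cent3 hc hfE hf1 (hrE r hro) (mem_cz.mp hr))
    refine ⟨fun g => ⟨g.1.1, g.1.2, ?_⟩, fun g => ⟨⟨g.1, g.2.1⟩, ?_⟩, fun _ => rfl, fun _ => rfl⟩
    · have h4 : (g.1.1 : G) • Cl.base r = Cl.base r := g.2
      rw [cl_smul_eq] at h4
      exact mem_cz.mpr h4
    · have h4 := mem_cz.mp g.2.2
      show (g.1 : G) • Cl.base r = Cl.base r
      rw [cl_smul_eq]; exact h4
  have h3 : Nat.card (E : Subgroup G) = 9 := syl3 hc E
  rw [h2, h3] at h1
  have h4 : Nat.card (orbit (E : Subgroup G) (Cl.base r)) = 3 := by omega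
  rw [← h4]
  symm
  apply Nat.card_eq_of_bijective (fun p : orbit (E : Subgroup G) (Cl.base r) => (⟨p.1.1, by
    obtain ⟨p, ⟨x, hx⟩, rfl⟩ := p
    show orderOf (x * r * x⁻¹) = 2
    rw [orderOf_cj, hro], by
    obtain ⟨p, ⟨x, hx⟩, rfl⟩ := p
    show (x * r * x⁻¹) * f = f * (x * r * x⁻¹)
    have c1 : Commute x f := mem_cz.mp (hEC hx)
    have c2 : Commute r f := mem_cz.mp hr
    exact (c1.mul_left c2).mul_left c1.inv_left⟩ : {t : G // orderOf t = 2 ∧ t * f = f * t}))
  constructor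
  · intro a b hab
    have h5 : a.1.1 = b.1.1 := congrArg (fun w => w.1) hab
    exact Subtype.ext (Subtype.ext h5)
  · rintro ⟨t, ht, htf⟩
    have ht2 : t * t = 1 := by rw [← pow_two, ← ht]; exact pow_orderOf_eq_one t
    have htinv : t⁻¹ = t := inv_eq_of_mul_eq_one_left ht2
    have hrinv : r⁻¹ = r := inv_eq_of_mul_eq_one_left hr2
    have h5 := mul_mem_of_index_two' hEC (by rw [hC, h3]) (mem_cz.mpr htf) hr (hrE t ht) (hrE r hro)
    have h6 : r * (t * r) * r⁻¹ = (t * r)⁻¹ := by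
      rw [mul_inv_rev, htinv, hrinv, mul_assoc, mul_assoc, hr2, mul_one]
    have h7 := yc_conj h6 (pow9 hc h5)
    refine ⟨⟨_, ⟨⟨(t * r) ^ 5, pow_mem h5 5⟩, rfl⟩⟩, ?_⟩
    apply Subtype.ext
    show (t * r) ^ 5 * r * ((t * r) ^ 5)⁻¹ = t
    rw [h7, mul_assoc, hr2, mul_one]

theorem mo_six : mo G 6 = 1320 := by
  have h := dc (X := {g : G // orderOf g = 6}) (Y := {g : G // orderOf g = 3}) (fun g f => g.1 ^ 4 = f.1) (a := 1) (b := 3) (by
    intro g
    rw [Nat.card_eq_one_iff_unique]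
    have h1 : orderOf (g.1 ^ 4) = 3 := by
      rw [orderOf_pow, g.2]; norm_num
    exact ⟨⟨fun a b => Subtype.ext (Subtype.ext (a.2.symm.trans b.2))⟩, ⟨⟨⟨_, h1⟩, rfl⟩⟩⟩) (by
    rintro ⟨f, hf⟩
    show Nat.card {x : {g : G // orderOf g = 6} // x.1 ^ 4 = f} = 3
    refine Eq.trans (Nat.card_congr ?_) (invol_three hc hf)
    have hf3 : f ^ 3 = 1 := by rw [← hf]; exact pow_orderOf_eq_one f
    refine ⟨fun g => ⟨g.1.1 ^ 3, ?_, ?_⟩, fun t => ⟨⟨t.1 * f, ?_⟩, ?_⟩, fun g => ?_, fun t => ?_⟩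
    · rw [orderOf_pow, g.1.2]; norm_num
    · have h5 : g.1.1 ^ 4 = f := g.2
      have h6 := ((Commute.refl g.1.1).pow_pow 3 4).eq
      rwa [h5] at h6
    · have h1 := (show Commute t.1 f from t.2.2).orderOf_mul_eq_mul_orderOf_of_coprime (by rw [t.2.1, hf]; norm_num)
      rw [h1, t.2.1, hf]
    · show (t.1 * f) ^ 4 = f
      have ht : t.1 ^ 2 = 1 := pow_of_ord t.2.1
      rw [(show Commute t.1 f from t.2.2).mul_pow, show 4 = 2 * 2 by norm_num, pow_mul, ht, one_pow, one_mul,
        show 2 * 2 = 3 + 1 by norm_num, pow_succ, hf3, one_mul]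
    · apply Subtype.ext; apply Subtype.ext
      show g.1.1 ^ 3 * f = g.1.1
      have h1 : g.1.1 ^ 6 = 1 := pow_of_ord g.1.2
      have h2 : g.1.1 ^ 4 = f := g.2
      have h3 : g.1.1 ^ 3 * g.1.1 ^ 4 = g.1.1 := by
        rw [← pow_add, show 3 + 4 = 6 + 1 by norm_num, pow_succ, h1, one_mul]
      rwa [h2] at h3
    · apply Subtype.ext
      show (t.1 * f) ^ 3 = t.1
      have ht : t.1 ^ 2 = 1 := pow_of_ord t.2.1
      rw [(show Commute t.1 f from t.2.2).mul_pow, hf3, mul_one, pow_succ, ht, one_mul])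
  rw [mul_one] at h
  have h3 : Nat.card {g : G // orderOf g = 3} = 440 := mo_three hc
  rw [h3] at h
  exact h

end three

end Cfsg.Agent.H21.MA
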