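import Cfsg.Agent.H21.MA24

set_option autoImplicit false
set_option linter.unusedSectionVars false
set_option linter.unusedVariables false
set_option linter.style.haveILetI false

/-! `M₁₁` is determined by its order and the numbers of elements of each order. -/

namespace Cfsg.Agent.H21.MA

open Subgroup MulAction
open scoped Pointwise

section gen
variable {G : Type*} [Group G] [Finite G]

theorem pow_div_ord {g : G} {p : ℕ} (hp : 0 < p) (h : p ∣ orderOf g) : orderOf (g ^ (orderOf g / p)) = p := by
  obtain ⟨k, hk⟩ := h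
  have h0 := orderOf_pos g
  have hk0 : 0 < k := by
    rcases Nat.eq_zero_or_pos k with rfl | h
    · rw [mul_zero] at hk; omega
    · exact h
  rw [hk, Nat.mul_div_cancel_left _ hp, orderOf_pow, hk, Nat.gcd_eq_right (Dvd.intro_left p rfl),
    Nat.mul_div_cancel _ hk0]

theorem card_eq_sum_mo {D : Finset ℕ} (hD : ∀ g : G, orderOf g ∈ D) : Nat.card G = ∑ n ∈ D, mo G n := by
  classical
  haveI := Fintype.ofFinite G
  rw [Nat.card_eq_fintype_card, ← Finset.card_univ,
    Finset.card_eq_sum_card_fiberwise (f := orderOf) (t := D) (fun g _ => hD g)]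
  apply Finset.sum_congr rfl
  intro n _
  unfold mo
  rw [Nat.card_eq_fintype_card, Fintype.card_subtype]

theorem mo_one : mo G 1 = 1 := by
  unfold mo
  rw [Nat.card_eq_one_iff_unique]
  refine ⟨⟨fun a b => Subtype.ext ?_⟩, ⟨⟨1, orderOf_one⟩⟩⟩
  rw [orderOf_eq_one_iff.mp a.2, orderOf_eq_one_iff.mp b.2]

theorem mo_pos {n : ℕ} (h : 0 < mo G n) : ∃ g : G, orderOf g = n := by
  obtain ⟨⟨g, hg⟩⟩ := (Nat.card_pos_iff.mp h).1
  exact ⟨g, hg⟩

theorem mo_pos' {g : G} : 0 < mo G (orderOf g) := by
  unfold mo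
  rw [Nat.card_pos_iff]
  exact ⟨⟨⟨g, rfl⟩⟩, inferInstance⟩

/-- counting by values -/
theorem sum_values (C : Finset ℕ) (b : ℕ → ℕ) (hb : ∀ c ∈ C, b c ≤ Nat.card {g : G // mo G (orderOf g) = c}) :
    ∑ c ∈ C, b c ≤ Nat.card G := by
  classical
  haveI := Fintype.ofFinite G
  have h1 : ∑ c ∈ C, Nat.card {g : G // mo G (orderOf g) = c} = (Finset.univ.filter (fun g : G => mo G (orderOf g) ∈ C)).card := by
    rw [Finset.card_eq_sum_card_fiberwise (f := fun g : G => mo G (orderOf g)) (t := C) (fun g hg => by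
      have := (Finset.mem_filter.mp (Finset.mem_coe.mp hg)).2
      exact this)]
    apply Finset.sum_congr rfl
    intro c hc
    rw [Nat.card_eq_fintype_card, Fintype.card_subtype]
    congr 1
    ext g
    simp only [Finset.mem_filter, Finset.mem_univ, true_and]
    constructor
    · intro h; exact ⟨by rw [h]; exact hc, h⟩
    · intro h; exact h.2
  calc ∑ c ∈ C, b c ≤ ∑ c ∈ C, Nat.card {g : G // mo G (orderOf g) = c} := Finset.sum_le_sum hb
    _ = _ := h1
    _ ≤ Finset.univ.card := Finset.card_filter_le _ _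
    _ = Nat.card G := by rw [Finset.card_univ, Nat.card_eq_fintype_card]

theorem value_ge {n c : ℕ} (h : mo G n = c) (hc : 0 < c) : c ≤ Nat.card {g : G // mo G (orderOf g) = c} := by
  conv_lhs => rw [← h]
  apply Nat.card_le_card_of_injective (fun g : {g : G // orderOf g = n} =>
    (⟨g.1, by rw [g.2]; exact h⟩ : {g : G // mo G (orderOf g) = c}))
  intro a b hab
  have h1 : a.1 = b.1 := congrArg (fun w => w.1) hab
  exact Subtype.ext h1

theorem value_ge2 {n n' c : ℕ} (hn : n ≠ n') (h : mo G n = c) (h' : mo G n' = c) (hc : 0 < c) :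
    2 * c ≤ Nat.card {g : G // mo G (orderOf g) = c} := by
  have h2 : 2 * c = Nat.card ({g : G // orderOf g = n} ⊕ {g : G // orderOf g = n'}) := by
    rw [Nat.card_sum]
    show 2 * c = mo G n + mo G n'
    rw [h, h']; ring
  rw [h2]
  apply Nat.card_le_card_of_injective (fun g : {g : G // orderOf g = n} ⊕ {g : G // orderOf g = n'} =>
    (match g with
      | Sum.inl g => ⟨g.1, by rw [g.2]; exact h⟩
      | Sum.inr g => ⟨g.1, by rw [g.2]; exact h'⟩ : {g : G // mo G (orderOf g) = c}))
  rintro (a | a) (b | b) hab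
  · have h1 : a.1 = b.1 := congrArg (fun w => w.1) hab
    rw [Subtype.ext h1]
  · have h1 : a.1 = b.1 := congrArg (fun w => w.1) hab
    exact absurd (by rw [← a.2, ← b.2, h1]) hn
  · have h1 : a.1 = b.1 := congrArg (fun w => w.1) hab
    exact absurd (by rw [← a.2, ← b.2, h1]) hn
  · have h1 : a.1 = b.1 := congrArg (fun w => w.1) hab
    rw [Subtype.ext h1]

end gen

section three
variable {G : Type*} [Group G] [Finite G] [IsSimpleGroup G] (hc : Nat.card G = 7920)
include hc

theorem ord_p {p : ℕ} (hp : p.Prime) (hC : ∀ x : G, orderOf x = p → Nat.card (centralizer ({x} : Set G)) = p) {g : G}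
    (h : p ∣ orderOf g) : orderOf g = p := by
  have h1 := pow_div_ord hp.pos h
  have h2 : g ∈ centralizer ({g ^ (orderOf g / p)} : Set G) := mem_cz.mpr ((Commute.refl g).pow_right _)
  have h3 := orderOf_dvd_card_mem h2
  rw [hC _ h1] at h3
  exact Nat.dvd_antisymm h3 h

theorem no16 {g : G} (hg : orderOf g = 16) : False := by
  haveI : Fact (Nat.Prime 2) := ⟨by norm_num⟩
  have hz := pow_div_ord (g := g) (p := 2) (by norm_num) (by rw [hg]; norm_num)
  rw [hg] at hz
  set z := g ^ (16 / 2) with hzdef
  have hz2 : z * z = 1 := by rw [← pow_two]; exact pow_of_ord hz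
  have hz1 : z ≠ 1 := by intro h; rw [h, orderOf_one] at hz; norm_num at hz
  have hS : IsPGroup 2 (zpowers g) := IsPGroup.of_card (n := 4) (by rw [Nat.card_zpowers, hg]; norm_num)
  have hSC : zpowers g ≤ centralizer ({z} : Set G) := by
    rw [zpowers_le]; exact mem_cz.mpr ((Commute.refl g).pow_right _)
  obtain ⟨E, hE, hSE⟩ := fix_IV hc hz2 hz1 hS hSC
  obtain ⟨T, hzT, hT, hTe⟩ := exists_Tz hc hE
  have hle : zpowers g ≤ (T : Subgroup G) := by rw [hTe]; exact le_inf hSC hSE
  have hT16 : Nat.card (T : Subgroup G) = 16 := syl2 hc T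
  have heq : zpowers g = (T : Subgroup G) := Subgroup.eq_of_le_of_card_ge hle (by rw [Nat.card_zpowers, hg, hT16])
  have hcount := refl_count hc hE hzT hT
  obtain ⟨⟨u, huT, hu, hu1, huz⟩⟩ := (Nat.card_pos_iff.mp (by rw [hcount]; norm_num :
    0 < Nat.card {u : G // u ∈ T ∧ u * u = 1 ∧ u ≠ 1 ∧ u ≠ z})).1
  have huz' : u ∈ zpowers g := by rw [heq]; exact huT
  classical
  rw [mem_zpowers_iff_mem_range_orderOf, hg] at huz'
  simp only [Finset.mem_image, Finset.mem_range] at huz'
  obtain ⟨i, hi, rfl⟩ := huz'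
  rw [← pow_add, ← orderOf_dvd_iff_pow_eq_one, hg] at hu
  have h8 : 8 ∣ i := by omega
  obtain ⟨j, rfl⟩ := h8
  have hj : j = 0 ∨ j = 1 := by omega
  rcases hj with rfl | rfl
  · exact hu1 (by simp)
  · exact huz (by rw [hzdef])

theorem orders (g : G) : orderOf g ∈ ({1, 2, 3, 4, 5, 6, 8, 11} : Finset ℕ) := by
  haveI : Fact (Nat.Prime 3) := ⟨by norm_num⟩
  have hn : orderOf g ∣ 7920 := by rw [← hc]; exact orderOf_dvd_natCard _
  by_cases h5 : 5 ∣ orderOf g
  · rw [ord_p hc (by norm_num) (fun x hx => F5 hc x hx) h5]; decide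
  by_cases h11 : 11 ∣ orderOf g
  · rw [ord_p hc (by norm_num) (fun x hx => F11 hc x hx) h11]; decide
  by_cases h3 : 3 ∣ orderOf g
  · have h1 := pow_div_ord (by norm_num : 0 < 3) h3
    have h2 : g ∈ centralizer ({g ^ (orderOf g / 3)} : Set G) := mem_cz.mpr ((Commute.refl g).pow_right _)
    have h4 := orderOf_dvd_card_mem h2
    rw [C18 hc h1] at h4
    have h9 : ¬ 9 ∣ orderOf g := by
      intro h9
      have h6 := pow_div_ord (by norm_num : 0 < 9) h9
      have h7 : IsPGroup 3 (zpowers (g ^ (orderOf g / 9))) :=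
        IsPGroup.of_card (n := 2) (by rw [Nat.card_zpowers, h6]; norm_num)
      obtain ⟨E, hE⟩ := h7.exists_le_sylow
      have h8 : g ^ (orderOf g / 9) ∈ E := hE (mem_zpowers _)
      have h10 := ord_E hc h8 (by intro h; rw [h, orderOf_one] at h6; norm_num at h6)
      rw [h6] at h10
      norm_num at h10
    have h12 := Nat.le_of_dvd (by norm_num) h4
    interval_cases h : orderOf g <;> first | decide | (exfalso; revert h4; decide) | (exfalso; revert h9; decide) | (exfalso; revert h3; decide)
  · have h1 : orderOf g ∣ 16 := by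
      have h2 : Nat.Coprime (orderOf g) 495 := by
        have e3 : Nat.Coprime (orderOf g) 3 := by
          rw [Nat.coprime_comm]; exact ((by norm_num : Nat.Prime 3).coprime_iff_not_dvd).mpr h3
        have e5 : Nat.Coprime (orderOf g) 5 := by
          rw [Nat.coprime_comm]; exact ((by norm_num : Nat.Prime 5).coprime_iff_not_dvd).mpr h5
        have e11 : Nat.Coprime (orderOf g) 11 := by
          rw [Nat.coprime_comm]; exact ((by norm_num : Nat.Prime 11).coprime_iff_not_dvd).mpr h11
        have : Nat.Coprime (orderOf g) (3 * 3 * 5 * 11) := ((e3.mul_right e3).mul_right e5).mul_right e11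
        exact this
      exact h2.dvd_of_dvd_mul_right (m := 16) (by norm_num; exact hn)
    have h16 : orderOf g ≠ 16 := fun h => no16 hc h
    have h12 := Nat.le_of_dvd (by norm_num) h1
    interval_cases h : orderOf g <;> first | decide | (exfalso; revert h1; decide) | (exact absurd rfl h16)

theorem mo_total : mo G 4 + mo G 8 = 2970 := by
  have h := card_eq_sum_mo (orders hc)
  rw [hc] at h
  rw [Finset.sum_insert (by decide), Finset.sum_insert (by decide), Finset.sum_insert (by decide),
    Finset.sum_insert (by decide), Finset.sum_insert (by decide), Finset.sum_insert (by decide),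
    Finset.sum_insert (by decide), Finset.sum_singleton, mo_one, mo_two hc, mo_three hc, mo_five hc, mo_six hc,
    mo_eleven hc] at h
  omega

theorem mo_four_dvd : 165 ∣ mo G 4 := by
  rw [← mo_two hc]
  exact mo_dvd (n := 2) (by norm_num) (fun u v hu hv => one_class' hc hu hv)

theorem mo_eight_dvd : 165 ∣ mo G 8 := by
  rw [← mo_two hc]
  exact mo_dvd (n := 4) (by norm_num) (fun u v hu hv => one_class' hc hu hv)

theorem mo_values {n : ℕ} (h : 0 < mo G n) : mo G n = 1 ∨ mo G n = 440 ∨ mo G n = 1584 ∨ mo G n = 1440 ∨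
    165 ∣ mo G n := by
  obtain ⟨g, hg⟩ := mo_pos h
  have h1 := orders hc g
  rw [hg] at h1
  simp only [Finset.mem_insert, Finset.mem_singleton] at h1
  rcases h1 with rfl | rfl | rfl | rfl | rfl | rfl | rfl | rfl
  · left; exact mo_one
  · right; right; right; right; rw [mo_two hc]
  · right; left; exact mo_three hc
  · right; right; right; right; exact mo_four_dvd hc
  · right; right; left; exact mo_five hc
  · right; right; right; right; rw [mo_six hc]; norm_num
  · right; right; right; right; exact mo_eight_dvd hc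
  · right; right; right; left; exact mo_eleven hc

theorem mo_le {n : ℕ} : mo G n ≤ 2970 := by
  rcases Nat.eq_zero_or_pos (mo G n) with h | h
  · omega
  obtain ⟨g, hg⟩ := mo_pos h
  have h1 := orders hc g
  rw [hg] at h1
  simp only [Finset.mem_insert, Finset.mem_singleton] at h1
  have := mo_total hc
  rcases h1 with rfl | rfl | rfl | rfl | rfl | rfl | rfl | rfl
  · rw [mo_one]; norm_num
  · rw [mo_two hc]; norm_num
  · rw [mo_three hc]; norm_num
  · omega
  · rw [mo_five hc]; norm_num
  · rw [mo_six hc]; norm_num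
  · omega
  · rw [mo_eleven hc]; norm_num

end three

end Cfsg.Agent.H21.MA
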