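import Cfsg.Agent.H21.MA25

set_option autoImplicit false
set_option linter.unusedSectionVars false
set_option linter.unusedVariables false
set_option linter.style.haveILetI false

/-! `M₁₁` is determined by its order and the numbers of elements of each order, end. -/

namespace Cfsg.Agent.H21.MA

open Subgroup MulAction
open scoped Pointwise

section gen
variable {G : Type*} [Group G] [Finite G]

/-- involutions commuting with `y` -/
noncomputable def io (G : Type*) [Group G] (y : G) : ℕ := Nat.card {t : G // orderOf t = 2 ∧ t * y = y * t}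

theorem io_conj {y y' h : G} (hh : zpowers (h * y * h⁻¹) = zpowers y') : io G y' = io G y := by
  have key : ∀ (a b : G), zpowers a = zpowers b → ∀ t : G, t * a = a * t → t * b = b * t := by
    intro a b hab t ht
    have h1 : t ∈ centralizer ((zpowers a : Subgroup G) : Set G) := by rw [cent_zp]; exact mem_cz.mpr ht
    rw [hab, cent_zp] at h1
    exact mem_cz.mp h1
  symm
  apply Nat.card_congr
  refine ⟨fun t => ⟨h * t.1 * h⁻¹, by rw [orderOf_cj, t.2.1], ?_⟩, fun t => ⟨h⁻¹ * t.1 * h, ?_, ?_⟩, fun t => ?_, fun t => ?_⟩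
  · apply key _ _ hh
    calc h * t.1 * h⁻¹ * (h * y * h⁻¹) = h * (t.1 * y) * h⁻¹ := by group
      _ = h * y * h⁻¹ * (h * t.1 * h⁻¹) := by rw [t.2.2]; group
  · have := orderOf_cj h⁻¹ t.1
    rw [inv_inv] at this
    rw [this, t.2.1]
  · have h1 := key _ _ hh.symm t.1 t.2.2
    calc h⁻¹ * t.1 * h * y = h⁻¹ * (t.1 * (h * y * h⁻¹)) * h := by group
      _ = y * (h⁻¹ * t.1 * h) := by rw [h1]; group
  · apply Subtype.ext
    show h⁻¹ * (h * t.1 * h⁻¹) * h = t.1
    group
  · apply Subtype.ext
    show h * (h⁻¹ * t.1 * h) * h⁻¹ = t.1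
    group

theorem mo_ten (hP5 : ∀ P : Sylow 5 G, Nat.card P = 5) {y : G} (hy : orderOf y = 5) : mo G 10 = mo G 5 * io G y := by
  haveI : Fact (Nat.Prime 5) := ⟨by norm_num⟩
  have hconj : ∀ y' : G, orderOf y' = 5 → io G y' = io G y := by
    intro y' hy'
    obtain ⟨P, hP⟩ := exists_sylow_zpowers hP5 y hy
    obtain ⟨P', hP'⟩ := exists_sylow_zpowers hP5 y' hy'
    obtain ⟨g, hg⟩ := MulAction.exists_smul_eq G P P'
    apply io_conj (h := g)
    have h1 : g * y * g⁻¹ ∈ P' := by
      rw [← hg, mem_smul_sylow]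
      have h2 : g⁻¹ * (g * y * g⁻¹) * g = y := by group
      rw [h2]
      show y ∈ (P : Subgroup G)
      rw [hP]; exact mem_zpowers y
    have h2 : g * y * g⁻¹ ∈ (P' : Subgroup G) := h1
    rw [hP'] at h2
    apply Subgroup.eq_of_le_of_card_ge
    · rw [zpowers_le]; exact h2
    · rw [Nat.card_zpowers, Nat.card_zpowers, orderOf_cj, hy, hy']
  have h := dc (X := {g : G // orderOf g = 10}) (Y := {y : G // orderOf y = 5}) (fun g f => g.1 ^ 6 = f.1) (a := 1)
    (b := io G y) (by
    intro g
    rw [Nat.card_eq_one_iff_unique]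
    have h1 : orderOf (g.1 ^ 6) = 5 := by
      rw [orderOf_pow, g.2]; norm_num
    exact ⟨⟨fun a b => Subtype.ext (Subtype.ext (a.2.symm.trans b.2))⟩, ⟨⟨⟨_, h1⟩, rfl⟩⟩⟩) (by
    rintro ⟨f, hf⟩
    rw [← hconj f hf]
    show Nat.card {x : {g : G // orderOf g = 10} // x.1 ^ 6 = f} = io G f
    have hf5 : f ^ 5 = 1 := pow_of_ord hf
    apply Nat.card_congr
    refine ⟨fun g => ⟨g.1.1 ^ 5, ?_, ?_⟩, fun t => ⟨⟨t.1 * f, ?_⟩, ?_⟩, fun g => ?_, fun t => ?_⟩
    · rw [orderOf_pow, g.1.2]; norm_num
    · have h5 : g.1.1 ^ 6 = f := g.2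
      have h6 := ((Commute.refl g.1.1).pow_pow 5 6).eq
      rwa [h5] at h6
    · have h1 := (show Commute t.1 f from t.2.2).orderOf_mul_eq_mul_orderOf_of_coprime (by rw [t.2.1, hf]; norm_num)
      rw [h1, t.2.1, hf]
    · show (t.1 * f) ^ 6 = f
      have ht : t.1 ^ 2 = 1 := pow_of_ord t.2.1
      rw [(show Commute t.1 f from t.2.2).mul_pow, show 6 = 2 * 3 by norm_num, pow_mul, ht, one_pow, one_mul,
        show 2 * 3 = 5 + 1 by norm_num, pow_succ, hf5, one_mul]
    · apply Subtype.ext; apply Subtype.ext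
      show g.1.1 ^ 5 * f = g.1.1
      have h1 : g.1.1 ^ 10 = 1 := pow_of_ord g.1.2
      have h2 : g.1.1 ^ 6 = f := g.2
      have h3 : g.1.1 ^ 5 * g.1.1 ^ 6 = g.1.1 := by
        rw [← pow_add, show 5 + 6 = 10 + 1 by norm_num, pow_succ, h1, one_mul]
      rwa [h2] at h3
    · apply Subtype.ext
      show (t.1 * f) ^ 5 = t.1
      have ht : t.1 ^ 2 = 1 := pow_of_ord t.2.1
      rw [(show Commute t.1 f from t.2.2).mul_pow, hf5, mul_one, show 5 = 2 * 2 + 1 by norm_num, pow_succ, pow_mul, ht,
        one_pow, one_mul])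
  rw [mul_one] at h
  exact h

end gen

theorem nse_simple {G G0 : Type*} [Group G] [Finite G] [Group G0] [Finite G0] [IsSimpleGroup G0]
    (hG : Nat.card G = 7920) (hG0 : Nat.card G0 = 7920)
    (hS : ∀ c : ℕ, 0 < c → ((∃ n, c = mo G n) ↔ (∃ n, c = mo G0 n))) : IsSimpleGroup G := by
  haveI : Fact (Nat.Prime 11) := ⟨by norm_num⟩
  haveI : Fact (Nat.Prime 5) := ⟨by norm_num⟩
  have hP11 : ∀ P : Sylow 11 G, Nat.card P = 11 := fun P => by
    have := sylow_card (p := 11) (n := 1) (m := 720) (by rw [hG]; norm_num) (by norm_num) P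
    simpa using this
  have hP5 : ∀ P : Sylow 5 G, Nat.card P = 5 := fun P => by
    have := sylow_card (p := 5) (n := 1) (m := 1584) (by rw [hG]; norm_num) (by norm_num) P
    simpa using this
  have hval : ∀ n, 0 < mo G n → (mo G n = 1 ∨ mo G n = 440 ∨ mo G n = 1584 ∨ mo G n = 1440 ∨ 165 ∣ mo G n) ∧ mo G n ≤ 2970 := by
    intro n hn
    obtain ⟨k, hk⟩ := (hS _ hn).mp ⟨n, rfl⟩
    rw [hk]
    exact ⟨mo_values hG0 (by rw [← hk]; exact hn), mo_le hG0⟩
  have hex : ∀ k, 0 < mo G0 k → ∃ n, mo G n = mo G0 k := by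
    intro k hk
    obtain ⟨n, hn⟩ := (hS _ hk).mpr ⟨k, rfl⟩
    exact ⟨n, hn.symm⟩
  obtain ⟨x0, hx0⟩ := exists_prime_orderOf_dvd_card' (G := G) 11 (by rw [hG]; norm_num)
  obtain ⟨y0, hy0⟩ := exists_prime_orderOf_dvd_card' (G := G) 5 (by rw [hG]; norm_num)
  -- the Sylow numbers
  have hn11 : Nat.card (Sylow 11 G) = 144 := by
    obtain ⟨P⟩ : Nonempty (Sylow 11 G) := inferInstance
    have h1 := mo_prime hP11
    have h2 : 0 < mo G 11 := by rw [← hx0]; exact mo_pos'
    have h3 := (hval 11 h2).1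
    have h4 : Nat.card (Sylow 11 G) ∣ 720 := by
      have h5 := P.card_dvd_index
      have h6 := (P : Subgroup G).card_mul_index
      have h7 : Nat.card (P : Subgroup G) = 11 := hP11 P
      rw [h7, hG] at h6
      have h8 : (P : Subgroup G).index = 720 := by omega
      rwa [h8] at h5
    have h5 : Nat.card (Sylow 11 G) % 11 = 1 := card_sylow_modEq_one 11 G
    have h6 : Nat.card (Sylow 11 G) < 721 := Nat.lt_succ_of_le (Nat.le_of_dvd (by norm_num) h4)
    rw [h1] at h3
    have haux : ∀ n < 721, n ∣ 720 → n % 11 = 1 → n = 1 ∨ n = 12 ∨ n = 45 ∨ n = 144 := by decide +kernel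
    rcases haux _ h6 h4 h5 with h | h | h | h
    · exfalso; rw [h] at h3; revert h3; decide
    · exfalso; rw [h] at h3; revert h3; decide
    · exfalso; rw [h] at h3; revert h3; decide
    · exact h
  have hn5 : Nat.card (Sylow 5 G) = 396 := by
    have h1 := mo_prime hP5
    have h2 : 0 < mo G 5 := by rw [← hy0]; exact mo_pos'
    have h3 := (hval 5 h2).1
    have h5 : Nat.card (Sylow 5 G) % 5 = 1 := card_sylow_modEq_one 5 G
    rw [h1] at h3
    rcases h3 with h | h | h | h | h
    · omega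
    · omega
    · omega
    · omega
    · exfalso
      obtain ⟨k, hk⟩ := h
      omega
  have hm5 : mo G 5 = 1584 := by rw [mo_prime hP5, hn5]
  have hm11 : mo G 11 = 1440 := by rw [mo_prime hP11, hn11]
  have hN5 : ∀ y : G, orderOf y = 5 → Nat.card (normalizer ((zpowers y : Subgroup G) : Set G)) = 20 := by
    intro y hy
    obtain ⟨P, hP⟩ := exists_sylow_zpowers hP5 y hy
    have h1 := card_norm_mul P
    rw [hn5, hG, hP] at h1
    omega
  have hN11 : ∀ x : G, orderOf x = 11 → Nat.card (normalizer ((zpowers x : Subgroup G) : Set G)) = 55 := by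
    intro x hx
    obtain ⟨P, hP⟩ := exists_sylow_zpowers hP11 x hx
    have h1 := card_norm_mul P
    rw [hn11, hG, hP] at h1
    omega
  -- centralizers
  have hle : ∀ x : G, centralizer ({x} : Set G) ≤ normalizer ((zpowers x : Subgroup G) : Set G) := by
    intro x
    rw [← cent_zp]; exact centralizer_le_normalizer _
  have hC11 : Nat.card (centralizer ({x0} : Set G)) = 11 := by
    have h1 := card_dvd_of_le (hle x0)
    rw [hN11 x0 hx0] at h1
    have h2 : 11 ∣ Nat.card (centralizer ({x0} : Set G)) := by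
      rw [← hx0]; exact orderOf_dvd_card_mem (mem_cz.mpr rfl)
    have h5 : ¬ 5 ∣ Nat.card (centralizer ({x0} : Set G)) := by
      intro h
      obtain ⟨⟨y, hy⟩, hyo⟩ := exists_prime_orderOf_dvd_card' (G := centralizer ({x0} : Set G)) 5 h
      rw [orderOf_mk] at hyo
      have h3 : x0 ∈ normalizer ((zpowers y : Subgroup G) : Set G) := hle y (mem_cz.mpr (mem_cz.mp hy).symm)
      have h4 := orderOf_dvd_card_mem h3
      rw [hx0, hN5 y hyo] at h4
      norm_num at h4
    obtain ⟨k, hk⟩ := h2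
    rw [hk] at h1 h5
    have hk5 : k ∣ 5 := by
      have : 11 * k ∣ 11 * 5 := by norm_num; exact h1
      exact (Nat.mul_dvd_mul_iff_left (by norm_num)).mp this
    rcases (Nat.dvd_prime (by norm_num)).mp hk5 with rfl | rfl
    · rw [hk]
    · exact absurd (Dvd.intro_left 11 rfl) h5
  have hC5 : Nat.card (centralizer ({y0} : Set G)) = 5 := by
    have h1 := card_dvd_of_le (hle y0)
    rw [hN5 y0 hy0] at h1
    have h2 : 5 ∣ Nat.card (centralizer ({y0} : Set G)) := by
      rw [← hy0]; exact orderOf_dvd_card_mem (mem_cz.mpr rfl)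
    have h5 : ¬ 2 ∣ Nat.card (centralizer ({y0} : Set G)) := by
      intro h
      haveI : Fact (Nat.Prime 2) := ⟨by norm_num⟩
      obtain ⟨⟨t, ht⟩, hto⟩ := exists_prime_orderOf_dvd_card' (G := centralizer ({y0} : Set G)) 2 h
      rw [orderOf_mk] at hto
      have h3 := mo_ten hP5 hy0
      have h4 : 0 < io G y0 := by
        unfold io
        rw [Nat.card_pos_iff]
        exact ⟨⟨⟨t, hto, mem_cz.mp ht⟩⟩, inferInstance⟩
      rw [hm5] at h3
      have h6 := (hval 10 (by omega)).2
      have h7 : io G y0 = 1 := by omega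
      rw [h7] at h3
      -- a large value
      have htot := mo_total hG0
      obtain ⟨k, hk4, hkd⟩ : ∃ k, 1485 ≤ mo G0 k ∧ 165 ∣ mo G0 k := by
        by_cases hh : 1485 ≤ mo G0 4
        · exact ⟨4, hh, mo_four_dvd hG0⟩
        · exact ⟨8, by omega, mo_eight_dvd hG0⟩
      set v := mo G0 k with hv
      have hv1584 : v ≠ 1584 := by
        intro h; rw [h] at hkd; revert hkd; decide
      have hsum := sum_values (G := G) ({1, 165, 440, 1320, 1440, 1584, v} : Finset ℕ)
        (fun c => if c = 1584 then 3168 else c) (by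
          have hgen : ∀ c, c ≠ 1584 → 0 < c → (∃ j, mo G0 j = c) →
              (if c = 1584 then 3168 else c) ≤ Nat.card {g : G // mo G (orderOf g) = c} := by
            rintro c hc1 hc0 ⟨j, hj⟩
            rw [if_neg hc1]
            obtain ⟨n, hn⟩ := hex j (by rw [hj]; exact hc0)
            exact value_ge (hn.trans hj) hc0
          intro c hcc
          simp only [Finset.mem_insert, Finset.mem_singleton] at hcc
          rcases hcc with rfl | rfl | rfl | rfl | rfl | rfl | rfl
          · exact hgen 1 (by norm_num) (by norm_num) ⟨1, mo_one⟩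
          · exact hgen 165 (by norm_num) (by norm_num) ⟨2, mo_two hG0⟩
          · exact hgen 440 (by norm_num) (by norm_num) ⟨3, mo_three hG0⟩
          · exact hgen 1320 (by norm_num) (by norm_num) ⟨6, mo_six hG0⟩
          · exact hgen 1440 (by norm_num) (by norm_num) ⟨11, mo_eleven hG0⟩
          · rw [if_pos rfl]
            have := value_ge2 (G := G) (n := 5) (n' := 10) (c := 1584) (by norm_num) hm5 (by rw [h3]) (by norm_num)
            omega
          · exact hgen _ hv1584 (by omega) ⟨k, rfl⟩)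
      rw [Finset.sum_insert (by simp; omega), Finset.sum_insert (by simp; omega), Finset.sum_insert (by simp; omega),
        Finset.sum_insert (by simp; omega), Finset.sum_insert (by simp; omega), Finset.sum_insert (by simp; omega),
        Finset.sum_singleton, hG] at hsum
      simp only [if_neg hv1584] at hsum
      norm_num at hsum
      omega
    obtain ⟨k, hk⟩ := h2
    rw [hk] at h1 h5
    have hk5 : k ∣ 4 := by
      have : 5 * k ∣ 5 * 4 := by norm_num; exact h1
      exact (Nat.mul_dvd_mul_iff_left (by norm_num)).mp this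
    have hk2 : ¬ 2 ∣ k := fun h => h5 (Dvd.dvd.mul_left h 5)
    have := Nat.le_of_dvd (by norm_num) hk5
    have hk1 : k = 1 := by
      interval_cases k
      · omega
      · rfl
      · exact absurd (by norm_num) hk2
      · revert hk5; decide
      · exact absurd (by norm_num) hk2
    rw [hk, hk1]
  exact simple_of_cent hG hx0 hy0 hC11 hC5

theorem nse_M11 {G : Type*} [Group G] [Finite G]
    (hcard : Nat.card G = Nat.card ↥Cfsg.Spor.M11)
    (hnse : {c : ℕ | 0 < c ∧ ∃ n : ℕ, c = Nat.card {g : G // orderOf g = n}} =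
      {c : ℕ | 0 < c ∧ ∃ n : ℕ, c = Nat.card {g : ↥Cfsg.Spor.M11 // orderOf g = n}}) :
    Nonempty (G ≃* ↥Cfsg.Spor.M11) := by
  haveI := M11_simple
  haveI : Finite Cfsg.Spor.M11 := Nat.finite_of_card_ne_zero (by rw [Cfsg.Agent.H28.card_M11]; norm_num)
  have hc := Cfsg.Agent.H28.card_M11
  have hG : Nat.card G = 7920 := by rw [hcard, hc]
  haveI : IsSimpleGroup G := by
    apply nse_simple (G0 := ↥Cfsg.Spor.M11) hG hc
    intro c hc0
    have h := Set.ext_iff.mp hnse c
    simp only [Set.mem_ofPred_eq] at h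
    constructor
    · intro h1; exact (h.mp ⟨hc0, h1⟩).2
    · intro h1; exact (h.mpr ⟨hc0, h1⟩).2
  exact iso_Spor hG

end Cfsg.Agent.H21.MA
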