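import Mathlib

set_option autoImplicit false
set_option linter.all false

/-!
Small cases of `a^n ± 1 = p^k` (helper21).
-/

namespace Cfsg.Agent.H21

/-- `2^n = p^k + 1` forces `k = 1` -/
theorem two_pow_eq_pow_add_one (n k p : ℕ) (hp : p.Prime) (hk : 1 ≤ k) (h : 2 ^ n = p ^ k + 1) : k = 1 := by
  have hp2 : p % 2 = 1 := by
    rcases hp.eq_two_or_odd with rfl | h2
    · exfalso
      obtain ⟨j, rfl⟩ : ∃ j, k = j + 1 := ⟨k - 1, by omega⟩
      rw [pow_succ] at h
      have h1 : 0 < 2 ^ j := by positivity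
      rcases n with _ | n
      · omega
      · rw [pow_succ] at h
        omega
    · exact h2
  have hp3 : 3 ≤ p := by have := hp.two_le; omega
  rcases Nat.even_or_odd k with he | ho
  · -- k even
    exfalso
    obtain ⟨j, rfl⟩ := he
    have h1 : (p ^ (j + j)) % 4 = 1 := by
      rw [← two_mul, pow_mul, Nat.pow_mod]
      have : p ^ 2 % 4 = 1 := by
        rw [Nat.pow_mod]
        have : p % 4 = 1 ∨ p % 4 = 3 := by omega
        rcases this with h | h <;> rw [h]
      rw [this]; simp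
    have h2 : 2 < 2 ^ n := by
      rw [h]
      have : 1 < p ^ (j + j) := Nat.one_lt_pow (by omega) hp.one_lt
      omega
    have h3 : 2 ≤ n := by
      by_contra hcon
      have : n = 0 ∨ n = 1 := by omega
      rcases this with rfl | rfl <;> norm_num at h2
    obtain ⟨i, rfl⟩ : ∃ i, n = i + 2 := ⟨n - 2, by omega⟩
    rw [pow_add] at h
    omega
  · -- k odd
    have h1 : p + 1 ∣ 2 ^ n := by
      have := Odd.nat_add_dvd_pow_add_pow p 1 ho
      rwa [one_pow, ← h] at this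
    obtain ⟨a, ha, ha2⟩ := (Nat.dvd_prime_pow Nat.prime_two).1 h1
    have ha1 : 1 ≤ a := by
      rcases a with _ | a
      · rw [pow_zero] at ha2; omega
      · omega
    -- p^2 ≡ 1 mod 2^(a+1)
    have h2 : p ^ 2 ≡ 1 [MOD 2 ^ (a + 1)] := by
      apply Nat.ModEq.symm
      rw [Nat.modEq_iff_dvd' (Nat.one_le_pow _ _ hp.pos)]
      have e : p ^ 2 - 1 = (p + 1) * (p - 1) := by
        rw [← Nat.sq_sub_sq]
      rw [e, ha2, pow_succ]
      exact Nat.mul_dvd_mul_left _ (by omega)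
    obtain ⟨j, rfl⟩ := ho
    have h3 : p ^ (2 * j + 1) + 1 ≡ 2 ^ a [MOD 2 ^ (a + 1)] := by
      rw [pow_succ p, pow_mul]
      have := ((h2.pow j).mul_right p).add_right 1
      rw [one_pow, one_mul, ha2] at this
      exact this
    rw [← h] at h3
    have h4 : n ≤ a := by
      by_contra hcon
      have h5 : 2 ^ (a + 1) ∣ 2 ^ n := pow_dvd_pow 2 (by omega)
      have h6 : 2 ^ (a + 1) ∣ 2 ^ a := (Nat.modEq_zero_iff_dvd).1 (h3.symm.trans ((Nat.modEq_zero_iff_dvd).2 h5))
      have h7 := Nat.le_of_dvd (by positivity) h6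
      rw [pow_succ] at h7
      have : 0 < 2 ^ a := by positivity
      omega
    have h5 : 2 ^ n ≤ 2 ^ a := Nat.pow_le_pow_right (by norm_num) h4
    rw [h, ← ha2] at h5
    have h6 : p ^ (2 * j + 1) ≤ p ^ 1 := by rw [pow_one]; omega
    have h7 := (Nat.pow_le_pow_iff_right hp.one_lt).1 h6
    omega

/-- `q^n = 2^k + 1` forces `n = 1` or `q^n = 9` -/
theorem pow_eq_two_pow_add_one (n k q : ℕ) (hq : q.Prime) (hq2 : q ≠ 2) (hn : 1 ≤ n) (h : q ^ n = 2 ^ k + 1) :
    n = 1 ∨ (q = 3 ∧ n = 2) := by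
  have hq2' : q % 2 = 1 := hq.eq_two_or_odd.resolve_left hq2
  have hq3 : 3 ≤ q := by have := hq.two_le; omega
  rcases Nat.even_or_odd n with he | ho
  · right
    obtain ⟨s, rfl⟩ := he
    have hs : 1 ≤ s := by omega
    have h1 : (q ^ s + 1) * (q ^ s - 1) = 2 ^ k := by
      rw [← Nat.sq_sub_sq, one_pow, ← pow_mul, mul_two, h, Nat.add_sub_cancel]
    obtain ⟨a, ha, ha2⟩ := (Nat.dvd_prime_pow Nat.prime_two).1 (Dvd.intro _ h1)
    obtain ⟨b, hb, hb2⟩ := (Nat.dvd_prime_pow Nat.prime_two).1 (Dvd.intro_left _ h1)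
    have hqs : 3 ≤ q ^ s := hq3.trans (Nat.le_self_pow (by omega) q)
    have h2 : 2 ^ a = 2 ^ b + 2 := by omega
    have hb1 : b = 1 := by
      by_contra hcon
      rcases b with _ | b
      · rw [pow_zero] at h2 hb2; omega
      · have hb0 : 1 ≤ b := by omega
        obtain ⟨c, rfl⟩ : ∃ c, b = c + 1 := ⟨b - 1, by omega⟩
        have h3 : 2 ^ (c + 1 + 1) = 4 * 2 ^ c := by rw [pow_succ, pow_succ]; ring
        have h4 : 0 < 2 ^ c := by positivity
        have ha3 : 2 ≤ a := by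
          by_contra hcon
          have : a = 0 ∨ a = 1 := by omega
          rcases this with rfl | rfl <;> omega
        obtain ⟨d, rfl⟩ : ∃ d, a = d + 2 := ⟨a - 2, by omega⟩
        have h5 : 2 ^ (d + 2) = 4 * 2 ^ d := by rw [pow_add]; ring
        omega
    rw [hb1] at hb2
    have h3 : q ^ s = 3 := by omega
    have h4 : q = 3 := by
      have : q ≤ 3 := h3 ▸ Nat.le_self_pow (by omega) q
      omega
    subst h4
    refine ⟨rfl, ?_⟩
    have : (3 : ℕ) ^ s = 3 ^ 1 := by rw [h3, pow_one]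
    have := Nat.pow_right_injective (le_refl 2 |>.trans (by norm_num : 2 ≤ 3)) this
    omega
  · left
    have h1 : q - 1 ∣ 2 ^ k := by
      have := Nat.sub_dvd_pow_sub_pow q 1 n
      rwa [one_pow, h, Nat.add_sub_cancel] at this
    obtain ⟨a, ha, ha2⟩ := (Nat.dvd_prime_pow Nat.prime_two).1 h1
    have ha1 : 1 ≤ a := by
      rcases a with _ | a
      · rw [pow_zero] at ha2; omega
      · omega
    have h2 : q ^ 2 ≡ 1 [MOD 2 ^ (a + 1)] := by
      apply Nat.ModEq.symm
      rw [Nat.modEq_iff_dvd' (Nat.one_le_pow _ _ hq.pos)]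
      have e : q ^ 2 - 1 = (q - 1) * (q + 1) := by
        rw [mul_comm, ← Nat.sq_sub_sq]
      rw [e, ha2, pow_succ]
      exact Nat.mul_dvd_mul_left _ (by omega)
    obtain ⟨j, rfl⟩ := ho
    have h3 : q ^ (2 * j + 1) ≡ 2 ^ a + 1 [MOD 2 ^ (a + 1)] := by
      rw [pow_succ q, pow_mul]
      have := ((h2.pow j).mul_right q)
      rw [one_pow, one_mul] at this
      rw [← ha2, Nat.sub_add_cancel (by omega)]
      exact this
    rw [h] at h3
    have h3' : 2 ^ k ≡ 2 ^ a [MOD 2 ^ (a + 1)] := Nat.ModEq.add_right_cancel' 1 h3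
    have h4 : k ≤ a := by
      by_contra hcon
      have h5 : 2 ^ (a + 1) ∣ 2 ^ k := pow_dvd_pow 2 (by omega)
      have h6 : 2 ^ (a + 1) ∣ 2 ^ a := (Nat.modEq_zero_iff_dvd).1 (h3'.symm.trans ((Nat.modEq_zero_iff_dvd).2 h5))
      have h7 := Nat.le_of_dvd (by positivity) h6
      rw [pow_succ] at h7
      have : 0 < 2 ^ a := by positivity
      omega
    have h5 : 2 ^ k ≤ 2 ^ a := Nat.pow_le_pow_right (by norm_num) h4
    rw [← ha2] at h5
    have h6 : q ^ (2 * j + 1) ≤ q ^ 1 := by rw [pow_one]; omega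
    have h7 := (Nat.pow_le_pow_iff_right hq.one_lt).1 h6
    omega

end Cfsg.Agent.H21
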