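import Cfsg.Agent.H21.ZF13

set_option autoImplicit false
set_option linter.all false

/-!
Regular linear groups over the prime field, part 1 (helper21): normal abelian subgroups generate fields.
-/

universe u v w

namespace Cfsg.Agent.H21.RG

variable {q : ℕ} [hq : Fact q.Prime] {V : Type v} [AddCommGroup V] [Module (ZMod q) V] [Finite V] [Nontrivial V]
  {G : Type u} [Group G] [Finite G]

/-- `G` acts regularly on the non-zero vectors -/
structure RegAct (ρ : G →* Module.End (ZMod q) V) : Prop where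
  trans : ∀ v w : V, v ≠ 0 → w ≠ 0 → ∃ g : G, ρ g v = w
  free : ∀ v : V, v ≠ 0 → ∀ g : G, ρ g v = v → g = 1

variable {ρ : G →* Module.End (ZMod q) V} (R : RegAct ρ)

omit [Finite V] [Nontrivial V] [Finite G] in
theorem inv_apply (g : G) (v : V) : ρ g⁻¹ (ρ g v) = v := by
  rw [← Module.End.mul_apply, ← map_mul, inv_mul_cancel, map_one]; rfl

omit [Finite V] [Nontrivial V] [Finite G] in
theorem apply_inv (g : G) (v : V) : ρ g (ρ g⁻¹ v) = v := by
  rw [← Module.End.mul_apply, ← map_mul, mul_inv_cancel, map_one]; rfl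

omit [Finite V] [Nontrivial V] [Finite G] in
theorem apply_ne_zero (g : G) {v : V} (hv : v ≠ 0) : ρ g v ≠ 0 := by
  intro h
  apply hv
  rw [← inv_apply (ρ := ρ) g v, h, map_zero]

include R in
theorem card_add_one : Nat.card G + 1 = Nat.card V := by
  classical
  haveI := Fintype.ofFinite V
  haveI := Fintype.ofFinite G
  obtain ⟨v0, hv0⟩ := exists_ne (0 : V)
  have h1 : Nat.card G = Nat.card {v : V // v ≠ 0} := by
    apply Nat.card_congr
    apply Equiv.ofBijective (fun g => (⟨ρ g v0, apply_ne_zero g hv0⟩ : {v : V // v ≠ 0}))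
    constructor
    · intro g h hgh
      have h2 : ρ g v0 = ρ h v0 := congrArg Subtype.val hgh
      have h3 : ρ (h⁻¹ * g) v0 = v0 := by
        rw [map_mul, Module.End.mul_apply, h2, inv_apply]
      have := R.free v0 hv0 _ h3
      rw [inv_mul_eq_one] at this
      exact this.symm
    · rintro ⟨w, hw⟩
      obtain ⟨g, hg⟩ := R.trans v0 w hv0 hw
      exact ⟨g, Subtype.ext hg⟩
  rw [h1, Nat.card_eq_fintype_card, Nat.card_eq_fintype_card, Fintype.card_subtype_compl, Fintype.card_subtype_eq]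
  have : 0 < Fintype.card V := Fintype.card_pos
  omega

include R in
theorem inj {g h : G} (e : ρ g = ρ h) : g = h := by
  obtain ⟨v0, hv0⟩ := exists_ne (0 : V)
  have h3 : ρ (h⁻¹ * g) v0 = v0 := by
    rw [map_mul, Module.End.mul_apply, e, inv_apply]
  have := R.free v0 hv0 _ h3
  rw [inv_mul_eq_one] at this
  exact this.symm

/-- the enveloping algebra -/
def env (ρ : G →* Module.End (ZMod q) V) (A : Subgroup G) : Subalgebra (ZMod q) (Module.End (ZMod q) V) :=
  Algebra.adjoin (ZMod q) (ρ '' A)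

omit [Finite V] [Nontrivial V] [Finite G] in
theorem env_conj (A : Subgroup G) (hA : A.Normal) (g : G) {x : Module.End (ZMod q) V} (hx : x ∈ env ρ A) :
    ρ g * x * ρ g⁻¹ ∈ env ρ A := by
  induction hx using Algebra.adjoin_induction with
  | mem x hx =>
    obtain ⟨a, ha, rfl⟩ := hx
    apply Algebra.subset_adjoin
    exact ⟨g * a * g⁻¹, hA.conj_mem a ha g, by rw [map_mul, map_mul]⟩
  | algebraMap r =>
    have : ρ g * algebraMap (ZMod q) (Module.End (ZMod q) V) r * ρ g⁻¹ = algebraMap (ZMod q) _ r := by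
      rw [← Algebra.commutes, mul_assoc, ← map_mul, mul_inv_cancel, map_one, mul_one]
    rw [this]
    exact Subalgebra.algebraMap_mem _ r
  | add x y _ _ hx hy =>
    rw [mul_add, add_mul]
    exact add_mem hx hy
  | mul x y _ _ hx hy =>
    have : ρ g * (x * y) * ρ g⁻¹ = (ρ g * x * ρ g⁻¹) * (ρ g * y * ρ g⁻¹) := by
      have h1 : ρ g⁻¹ * ρ g = 1 := by rw [← map_mul, inv_mul_cancel, map_one]
      calc ρ g * (x * y) * ρ g⁻¹ = ρ g * x * 1 * y * ρ g⁻¹ := by simp only [mul_assoc, mul_one, one_mul]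
        _ = _ := by rw [← h1]; simp only [mul_assoc]
    rw [this]
    exact mul_mem hx hy

omit [Finite V] [Nontrivial V] [Finite G] in
theorem env_comm (A : Subgroup G) (hAc : ∀ a ∈ A, ∀ b ∈ A, a * b = b * a) {x y : Module.End (ZMod q) V}
    (hx : x ∈ env ρ A) (hy : y ∈ env ρ A) : x * y = y * x := by
  have h1 : ∀ a ∈ (ρ '' A : Set (Module.End (ZMod q) V)), ∀ b ∈ (ρ '' A : Set (Module.End (ZMod q) V)), a * b = b * a := by
    rintro _ ⟨a, ha, rfl⟩ _ ⟨b, hb, rfl⟩
    rw [← map_mul, ← map_mul, hAc a ha b hb]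
  letI := Algebra.adjoinCommRingOfComm (ZMod q) h1
  have := mul_comm (⟨x, hx⟩ : Algebra.adjoin (ZMod q) (ρ '' A : Set (Module.End (ZMod q) V))) ⟨y, hy⟩
  exact congrArg Subtype.val this

/-- the cyclic submodule of a vector, as a set -/
def cyc (ρ : G →* Module.End (ZMod q) V) (A : Subgroup G) (v : V) : Set V := {w | ∃ x ∈ env ρ A, w = x v}

omit [Nontrivial V] [Finite G] in
include R in
theorem cyc_eq (A : Subgroup G) (hA : A.Normal) {v w : V} (hw : w ≠ 0) (h : w ∈ cyc ρ A v) :
    cyc ρ A w = cyc ρ A v := by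
  obtain ⟨x, hx, rfl⟩ := h
  have hv : v ≠ 0 := by rintro rfl; exact hw (map_zero _)
  have hsub : cyc ρ A (x v) ⊆ cyc ρ A v := by
    rintro _ ⟨y, hy, rfl⟩
    exact ⟨y * x, mul_mem hy hx, rfl⟩
  obtain ⟨g, hg⟩ := R.trans v (x v) hv hw
  apply Set.eq_of_subset_of_ncard_le hsub
  apply Set.ncard_le_ncard_of_injOn (fun u => ρ g u)
  · rintro _ ⟨y, hy, rfl⟩
    refine ⟨ρ g * y * ρ g⁻¹, env_conj A hA g hy, ?_⟩
    rw [← hg]
    show ρ g (y v) = ρ g (y (ρ g⁻¹ (ρ g v)))
    rw [inv_apply]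
  · intro a _ b _ hab
    have := congrArg (ρ g⁻¹) hab
    simpa only [inv_apply] using this

omit [Nontrivial V] [Finite G] in
include R in
theorem env_inj (A : Subgroup G) (hA : A.Normal) (hAc : ∀ a ∈ A, ∀ b ∈ A, a * b = b * a)
    {x : Module.End (ZMod q) V} (hx : x ∈ env ρ A) {v : V} (hv : v ≠ 0) (h : x v = 0) : x = 0 := by
  ext u
  rw [LinearMap.zero_apply]
  by_contra hu
  have hself : ∀ w : V, w ∈ cyc ρ A w := fun w => ⟨1, one_mem _, rfl⟩
  have h1 : cyc ρ A (x u) = cyc ρ A u := cyc_eq R A hA hu ⟨x, hx, rfl⟩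
  have h2 : x (u + v) = x u := by rw [map_add, h, add_zero]
  have h3 : cyc ρ A (x u) = cyc ρ A (u + v) := cyc_eq R A hA hu ⟨x, hx, h2.symm⟩
  have h4 : u + v ∈ cyc ρ A u := by rw [← h1, h3]; exact hself _
  have h5 : v ∈ cyc ρ A u := by
    obtain ⟨y, hy, hyu⟩ := h4
    refine ⟨y - 1, sub_mem hy (one_mem _), ?_⟩
    rw [LinearMap.sub_apply, ← hyu, Module.End.one_apply]; abel
  have h6 := cyc_eq R A hA hv h5
  have h7 : u ∈ cyc ρ A v := by rw [h6]; exact hself _
  obtain ⟨y, hy, rfl⟩ := h7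
  apply hu
  rw [← Module.End.mul_apply, env_comm A hAc hx hy, Module.End.mul_apply, h, map_zero]

omit [Finite G] in
include R in
/-- normal abelian subgroups generate fields -/
theorem exists_field (A : Subgroup G) (hA : A.Normal) (hAc : ∀ a ∈ A, ∀ b ∈ A, a * b = b * a) :
    ∃ m, m ≠ 0 ∧ ∃ ι : GaloisField q m →+* Module.End (ZMod q) V, ∀ x, x ∈ env ρ A ↔ ∃ y, ι y = x := by
  classical
  haveI : Finite (Module.End (ZMod q) V) := Module.finite_of_finite (ZMod q)
  have hF : IsField (env ρ A) := by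
    refine ⟨?_, ?_, ?_⟩
    · obtain ⟨v, hv⟩ := exists_ne (0 : V)
      refine ⟨0, 1, fun h => hv ?_⟩
      have := congrArg (fun x : env ρ A => (x : Module.End (ZMod q) V) v) h
      exact this.symm
    · rintro ⟨a, ha⟩ ⟨b, hb⟩
      exact Subtype.ext (env_comm A hAc ha hb)
    · rintro ⟨a, ha⟩ ha0
      have ha0' : a ≠ 0 := fun h => ha0 (Subtype.ext h)
      have hinj : Function.Injective (fun b : env ρ A => (⟨a, ha⟩ : env ρ A) * b) := by
        intro b c hbc
        have h1 : a * (b : Module.End (ZMod q) V) = a * c := congrArg Subtype.val hbc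
        apply Subtype.ext
        apply LinearMap.ext
        intro v
        have h2 : a ((b : Module.End (ZMod q) V) v - (c : Module.End (ZMod q) V) v) = 0 := by
          rw [map_sub, ← Module.End.mul_apply, ← Module.End.mul_apply, h1, sub_self]
        by_contra hne
        exact ha0' (env_inj R A hA hAc ha (sub_ne_zero.2 hne) h2)
      have hsurj := Finite.injective_iff_surjective.1 hinj
      exact hsurj 1
  letI : Field (env ρ A) := hF.toField
  haveI : Fintype (env ρ A) := Fintype.ofFinite _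
  obtain ⟨p, hp1⟩ := CharP.exists (env ρ A)
  obtain ⟨⟨n, hn⟩, hp, hcard⟩ := FiniteField.card (env ρ A) p
  haveI : Fact p.Prime := ⟨hp⟩
  have hpq : p = q := by
    have h1 : ((q : ℕ) : env ρ A) = 0 := by
      apply Subtype.ext
      apply LinearMap.ext
      intro v
      have h2 : ((q : ℕ) : ZMod q) • v = 0 := by rw [CharP.cast_eq_zero, zero_smul]
      rw [Nat.cast_smul_eq_nsmul] at h2
      have h3 : (((q : ℕ) : env ρ A) : Module.End (ZMod q) V) = ((q : ℕ) : Module.End (ZMod q) V) := rfl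
      rw [h3]
      simpa using h2
    rw [CharP.cast_eq_zero_iff (env ρ A) p] at h1
    exact (Nat.prime_dvd_prime_iff_eq hp hq.out).1 h1
  subst hpq
  haveI : Fintype (GaloisField p n) := Fintype.ofFinite _
  have hcard2 : Fintype.card (env ρ A) = Fintype.card (GaloisField p n) := by
    rw [hcard, ← Nat.card_eq_fintype_card, GaloisField.card p n hn.ne']
    rfl
  let τ : env ρ A ≃+* GaloisField p n := FiniteField.ringEquivOfCardEq hcard2
  refine ⟨n, hn.ne', (env ρ A).val.toRingHom.comp τ.symm.toRingHom, ?_⟩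
  intro x
  constructor
  · intro hx
    exact ⟨τ ⟨x, hx⟩, by
      show ((τ.symm (τ ⟨x, hx⟩) : env ρ A) : Module.End (ZMod p) V) = x
      rw [RingEquiv.symm_apply_apply]⟩
  · rintro ⟨y, rfl⟩
    exact (τ.symm y).2

end Cfsg.Agent.H21.RG
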