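import Cfsg.Agent.H21.RG1

set_option autoImplicit false
set_option linter.all false

/-!
Regular linear groups over the prime field, part 2 (helper21): Galois action, counting, semilinearity.
-/

universe u v w

namespace Cfsg.Agent.H21.RG

variable {q : ℕ} [hq : Fact q.Prime] {V : Type v} [AddCommGroup V] [Module (ZMod q) V] [Finite V] [Nontrivial V]
  {G : Type u} [Group G] [Finite G]
  {ρ : G →* Module.End (ZMod q) V} (R : RegAct ρ)

/-- a field generated by a normal abelian subgroup -/
structure Fld (ρ : G →* Module.End (ZMod q) V) (A : Subgroup G) (m : ℕ) (ι : GaloisField q m →+* Module.End (ZMod q) V) : Prop where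
  nA : A.Normal
  cA : ∀ a ∈ A, ∀ b ∈ A, a * b = b * a
  hm : m ≠ 0
  mem : ∀ x, x ∈ env ρ A ↔ ∃ y, ι y = x

namespace Fld

variable {A : Subgroup G} {m : ℕ} {ι : GaloisField q m →+* Module.End (ZMod q) V} (K : Fld ρ A m ι)

omit [Finite V] [Finite G] in
theorem ι_inj : Function.Injective ι := by
  haveI : Nontrivial (Module.End (ZMod q) V) := inferInstance
  exact ι.injective

include K

omit [Finite V] [Finite G] [Nontrivial V] in
theorem exists_a {a : G} (ha : a ∈ A) : ∃ y, ι y = ρ a :=
  (K.mem _).1 (Algebra.subset_adjoin ⟨a, ha, rfl⟩)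

omit [Finite V] [Finite G] [Nontrivial V] in
theorem exists_conj (g : G) (y : GaloisField q m) : ∃ y', ι y' = ρ g * ι y * ρ g⁻¹ :=
  (K.mem _).1 (env_conj A K.nA g ((K.mem _).2 ⟨y, rfl⟩))

omit [Finite V] [Finite G] [Nontrivial V] in
theorem comm_of_comm {x : Module.End (ZMod q) V} (h : ∀ a ∈ A, x * ρ a = ρ a * x) (y : GaloisField q m) : x * ι y = ι y * x := by
  have h1 : ι y ∈ env ρ A := (K.mem _).2 ⟨y, rfl⟩
  generalize ι y = z0 at h1 ⊢
  induction h1 using Algebra.adjoin_induction with
  | mem z hz =>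
    obtain ⟨a, ha, rfl⟩ := hz
    exact h a ha
  | algebraMap r => exact (Algebra.commutes r x).symm
  | add z w _ _ hz hw => rw [mul_add, add_mul, hz, hw]
  | mul z w _ _ hz hw => rw [← mul_assoc, hz, mul_assoc, hw, mul_assoc]

omit [Finite V] in
/-- the Galois action -/
theorem exists_gal : ∃ Φ : G →* (GaloisField q m ≃ₐ[ZMod q] GaloisField q m),
    ∀ g y, ι (Φ g y) = ρ g * ι y * ρ g⁻¹ := by
  choose σ hσ using K.exists_conj
  have hinj : Function.Injective ι := ι_inj
  have hmul : ∀ g h : G, ρ (g * h) = ρ g * ρ h := map_mul ρ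
  have hi1 : ∀ g : G, ρ g⁻¹ * ρ g = 1 := fun g => by rw [← map_mul, inv_mul_cancel, map_one]
  have hi2 : ∀ g : G, ρ g * ρ g⁻¹ = 1 := fun g => by rw [← map_mul, mul_inv_cancel, map_one]
  have hone : ∀ y, σ 1 y = y := by
    intro y; apply hinj; rw [hσ]; simp
  have hcomp : ∀ g h y, σ (g * h) y = σ g (σ h y) := by
    intro g h y
    apply hinj
    rw [hσ, hσ, hσ, mul_inv_rev, hmul, hmul]
    simp only [mul_assoc]
  let S : G → (GaloisField q m ≃+* GaloisField q m) := fun g =>
    { toFun := σ g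
      invFun := σ g⁻¹
      left_inv := fun y => by rw [← hcomp, inv_mul_cancel, hone]
      right_inv := fun y => by rw [← hcomp, mul_inv_cancel, hone]
      map_mul' := by
        intro x y
        apply hinj
        rw [hσ, map_mul, map_mul, hσ, hσ]
        calc ρ g * (ι x * ι y) * ρ g⁻¹ = ρ g * ι x * 1 * ι y * ρ g⁻¹ := by simp only [mul_assoc, mul_one, one_mul]
          _ = _ := by rw [← hi1 g]; simp only [mul_assoc]
      map_add' := by
        intro x y
        apply hinj
        rw [hσ, map_add, map_add, hσ, hσ, mul_add, add_mul] }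
  let Φ : G →* (GaloisField q m ≃ₐ[ZMod q] GaloisField q m) :=
    { toFun := fun g => AlgEquiv.ofRingEquiv (f := S g) (fun r =>
        RingHom.congr_fun (Subsingleton.elim ((S g).toRingHom.comp (algebraMap _ _)) (algebraMap _ _)) r)
      map_one' := by
        ext y
        exact hone y
      map_mul' := by
        intro g h
        ext y
        exact hcomp g h y }
  exact ⟨Φ, fun g y => hσ g y⟩

omit [Finite V] in
theorem gal_eq_one {Φ : G →* (GaloisField q m ≃ₐ[ZMod q] GaloisField q m)} (hΦ : ∀ g y, ι (Φ g y) = ρ g * ι y * ρ g⁻¹)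
    (hinj : ∀ g h, ρ g = ρ h → g = h) (g : G) : Φ g = 1 ↔ ∀ a ∈ A, g * a = a * g := by
  have hi1 : ∀ g : G, ρ g⁻¹ * ρ g = 1 := fun g => by rw [← map_mul, inv_mul_cancel, map_one]
  have hi2 : ∀ g : G, ρ g * ρ g⁻¹ = 1 := fun g => by rw [← map_mul, mul_inv_cancel, map_one]
  constructor
  · intro h a ha
    obtain ⟨y, hy⟩ := K.exists_a ha
    have h1 := hΦ g y
    rw [h, AlgEquiv.one_apply] at h1
    have h2 : ι y * ρ g = ρ g * ι y := by
      have h3 : ι y * ρ g = ρ g * ι y * ρ g⁻¹ * ρ g := congrArg (fun t => t * ρ g) h1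
      rw [h3, mul_assoc, hi1, mul_one]
    rw [hy, ← map_mul, ← map_mul] at h2
    exact (hinj _ _ h2).symm
  · intro h
    ext y
    apply ι_inj (ι := ι)
    rw [hΦ, AlgEquiv.one_apply, K.comm_of_comm (x := ρ g) (fun a ha => by rw [← map_mul, ← map_mul, h a ha]) y, mul_assoc, hi2, mul_one]

theorem card_gal {Φ : G →* (GaloisField q m ≃ₐ[ZMod q] GaloisField q m)} : Nat.card Φ.range ∣ m := by
  have h1 : Nat.card (GaloisField q m ≃ₐ[ZMod q] GaloisField q m) = m := by
    rw [IsGalois.card_aut_eq_finrank, GaloisField.finrank q K.hm]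
  have := Subgroup.card_subgroup_dvd_card Φ.range
  rwa [h1] at this

omit [Finite G] in
theorem card_V : ∃ e, e ≠ 0 ∧ Nat.card V = (q ^ m) ^ e ∧ (e = 1 → ∀ v : V, v ≠ 0 → ∀ w, ∃ y, ι y v = w) := by
  letI : Module (GaloisField q m) V := Module.compHom V ι
  haveI : Module.Finite (GaloisField q m) V := Module.Finite.of_finite
  refine ⟨Module.finrank (GaloisField q m) V, Module.finrank_pos.ne', ?_, ?_⟩
  · rw [← GaloisField.card q m K.hm]
    exact Module.natCard_eq_pow_finrank
  · intro h v hv w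
    exact (finrank_eq_one_iff_of_nonzero' v hv).1 h w

theorem card_A (hinj : ∀ g h, ρ g = ρ h → g = h) : Nat.card A ∣ q ^ m - 1 := by
  choose y hy using fun a : A => K.exists_a a.2
  have hιi : Function.Injective ι := ι_inj
  let f : A →* GaloisField q m :=
    { toFun := y
      map_one' := hιi (by rw [hy, map_one, OneMemClass.coe_one, map_one])
      map_mul' := fun a b => hιi (by rw [hy, map_mul, hy, hy, Subgroup.coe_mul, map_mul]) }
  have hf : Function.Injective f.toHomUnits := by
    intro a b hab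
    have h1 : y a = y b := congrArg Units.val hab
    apply Subtype.ext
    apply hinj
    rw [← hy, ← hy, h1]
  have h1 : Nat.card A = Nat.card f.toHomUnits.range := Nat.card_congr (MonoidHom.ofInjective hf).toEquiv
  rw [h1]
  have h2 := Subgroup.card_subgroup_dvd_card f.toHomUnits.range
  rwa [Nat.card_units, GaloisField.card q m K.hm] at h2

end Fld

omit [Finite G] in
include R in
theorem exists_fld (A : Subgroup G) (hA : A.Normal) (hAc : ∀ a ∈ A, ∀ b ∈ A, a * b = b * a) : ∃ m ι, Fld ρ A m ι := by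
  obtain ⟨m, hm, ι, h⟩ := exists_field R A hA hAc
  exact ⟨m, ι, ⟨hA, hAc, hm, h⟩⟩

end Cfsg.Agent.H21.RG
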