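import Cfsg.Agent.H21.RG4

set_option autoImplicit false
set_option linter.all false

/-!
Regular linear groups over the prime field, part 5 (helper21): the exceptional structure.
-/

universe u v w

namespace Cfsg.Agent.H21.RG

variable {G : Type u} [Group G]

/-- conjugation on a normal quaternion group -/
def psi (R : Subgroup G) [R.Normal] (e : R ≃* Q8) : G →* MulAut Q8 :=
  (MulAut.congr e).toMonoidHom.comp MulAut.conjNormal

theorem psi_apply (R : Subgroup G) [hR : R.Normal] (e : R ≃* Q8) (g : G) (r : R) :
    psi R e g (e r) = e ⟨g * r * g⁻¹, hR.conj_mem r r.2 g⟩ := by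
  show e (MulAut.conjNormal g (e.symm (e r))) = _
  rw [MulEquiv.symm_apply_apply]
  rfl

theorem psi_coe (R : Subgroup G) [hR : R.Normal] (e : R ≃* Q8) (u : Q8) :
    psi R e (e.symm u : R) = MulAut.conj u := by
  apply MulEquiv.ext
  intro w
  obtain ⟨r, rfl⟩ := e.surjective w
  rw [psi_apply, MulAut.conj_apply]
  have : (⟨(e.symm u : G) * r * (e.symm u : G)⁻¹, hR.conj_mem r r.2 _⟩ : R) = e.symm u * r * (e.symm u)⁻¹ := rfl
  rw [this, map_mul, map_mul, map_inv, MulEquiv.apply_symm_apply]

theorem psi_eq_one (R : Subgroup G) [hR : R.Normal] (e : R ≃* Q8) (g : G) :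
    psi R e g = 1 ↔ g ∈ Subgroup.centralizer (R : Set G) := by
  rw [Subgroup.mem_centralizer_iff]
  constructor
  · intro h r hr
    have h1 := psi_apply R e g ⟨r, hr⟩
    rw [h, MulAut.one_apply] at h1
    have h2 := congrArg Subtype.val (e.injective h1)
    simp only at h2
    rw [eq_mul_inv_iff_mul_eq] at h2
    exact h2
  · intro h
    apply MulEquiv.ext
    intro w
    obtain ⟨r, rfl⟩ := e.surjective w
    rw [psi_apply, MulAut.one_apply]
    congr 1
    apply Subtype.ext
    show g * r * g⁻¹ = r
    rw [mul_inv_eq_iff_eq_mul]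
    exact (h r r.2).symm

variable [Finite G]

/-- the exceptional situation -/
structure Exc (A R : Subgroup G) (e : R ≃* Q8) : Prop where
  M : MaxAb A
  nR : R.Normal
  Rle : R ≤ Subgroup.centralizer (A : Set G)
  inter : Subgroup.centralizer (A : Set G) ⊓ Subgroup.centralizer (R : Set G) = A
  mv : ∀ i ∈ R, i * i ≠ 1 → ∃ g : G, g * i * g⁻¹ ≠ i ∧ g * i * g⁻¹ ≠ i⁻¹

theorem exists_exc (hs : Group.IsSolvable G) (Q : QC G) {A : Subgroup G} (M : MaxAb A)
    (hne : Subgroup.centralizer (A : Set G) ≠ A) : ∃ R : Subgroup G, ∃ e : R ≃* Q8, Exc A R e := by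
  classical
  haveI := M.nA
  have hAC : A ≤ Subgroup.centralizer (A : Set G) := by
    intro a ha
    rw [Subgroup.mem_centralizer_iff]
    intro b hb
    exact M.cA b hb a ha
  have hCn : (Subgroup.centralizer (A : Set G)).Normal := inferInstance
  obtain ⟨R, hR, hRC, ⟨e⟩⟩ := step hs Q M hCn (lt_of_le_of_ne hAC hne.symm) (by
    intro x hx a ha
    rw [Subgroup.mem_centralizer_iff] at hx
    exact (hx a ha).symm)
  haveI := hR
  have hAR : A ≤ Subgroup.centralizer (R : Set G) := by
    intro a ha
    rw [Subgroup.mem_centralizer_iff]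
    intro r hr
    have := hRC hr
    rw [Subgroup.mem_centralizer_iff] at this
    exact (this a ha).symm
  -- elements of order 4 of R
  have hfour : ∀ r ∈ R, r * r ≠ 1 → orderOf (r * r) = 2 := by
    intro r hr hrr
    rw [orderOf_eq_prime_iff]
    refine ⟨?_, hrr⟩
    have h1 := q8_sq (e ⟨r, hr⟩) (by
      rw [← map_mul]
      intro h
      rw [map_eq_one_iff e e.injective] at h
      exact hrr (congrArg Subtype.val h))
    have h2 : e (⟨r, hr⟩ * ⟨r, hr⟩ * (⟨r, hr⟩ * ⟨r, hr⟩)) = 1 := by
      rw [map_mul, map_mul, h1]; decide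
    rw [map_eq_one_iff e e.injective] at h2
    have h3 := congrArg Subtype.val h2
    rw [pow_two]
    exact h3
  refine ⟨R, e, M, hR, hRC, ?_, ?_⟩
  · by_contra hcon
    have hlt : A < Subgroup.centralizer (A : Set G) ⊓ Subgroup.centralizer (R : Set G) :=
      lt_of_le_of_ne (le_inf hAC hAR) (Ne.symm hcon)
    obtain ⟨R1, hR1, hR1C, ⟨e1⟩⟩ := step hs Q M (by infer_instance) hlt (by
      intro x hx a ha
      have hx1 := (Subgroup.mem_inf.1 hx).1
      rw [Subgroup.mem_centralizer_iff] at hx1
      exact (hx1 a ha).symm)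
    -- a in R, b in R1
    have ha : (e.symm (QuaternionGroup.a 1) : G) * (e.symm (QuaternionGroup.a 1) : G) ≠ 1 := by
      intro h
      have h1 : e.symm (QuaternionGroup.a 1) * e.symm (QuaternionGroup.a 1) = 1 := Subtype.ext h
      rw [← map_mul, map_eq_one_iff e.symm e.symm.injective] at h1
      revert h1; decide
    have hb : (e1.symm (QuaternionGroup.a 1) : G) * (e1.symm (QuaternionGroup.a 1) : G) ≠ 1 := by
      intro h
      have h1 : e1.symm (QuaternionGroup.a 1) * e1.symm (QuaternionGroup.a 1) = 1 := Subtype.ext h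
      rw [← map_mul, map_eq_one_iff e1.symm e1.symm.injective] at h1
      revert h1; decide
    have hb4 : (e1.symm (QuaternionGroup.a 1) : G) * (e1.symm (QuaternionGroup.a 1) : G) * ((e1.symm (QuaternionGroup.a 1) : G) * (e1.symm (QuaternionGroup.a 1) : G)) = 1 := by
      have h1 : e1.symm (QuaternionGroup.a 1) * e1.symm (QuaternionGroup.a 1) * (e1.symm (QuaternionGroup.a 1) * e1.symm (QuaternionGroup.a 1)) = 1 := by
        rw [← map_mul, ← map_mul, map_eq_one_iff e1.symm e1.symm.injective]; decide
      exact congrArg Subtype.val h1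
    have haR := (e.symm (QuaternionGroup.a 1)).2
    have hbC := hR1C (e1.symm (QuaternionGroup.a 1)).2
    generalize hae : (e.symm (QuaternionGroup.a 1) : G) = a at ha haR
    generalize (e1.symm (QuaternionGroup.a 1) : G) = b at hb hb4 hbC
    have hbR : ∀ r ∈ R, r * b = b * r := by
      have := (Subgroup.mem_inf.1 hbC).2
      rw [Subgroup.mem_centralizer_iff] at this
      exact this
    have hab := hbR a haR
    have h1 : a * a = b * b := Q.inv _ _ (hfour a haR ha) (by
      rw [orderOf_eq_prime_iff]
      exact ⟨by rw [pow_two]; exact hb4, hb⟩)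
    -- a = b or a = b⁻¹
    have h2 : a = b ∨ a = b⁻¹ := by
      by_cases h3 : a * b⁻¹ = 1
      · left; exact mul_inv_eq_one.1 h3
      · right
        have h4 : a * b⁻¹ * (a * b⁻¹) = 1 := by
          have h5 : b⁻¹ * a = a * b⁻¹ := by
            rw [inv_mul_eq_iff_eq_mul, ← mul_assoc, ← hab, mul_inv_cancel_right]
          calc a * b⁻¹ * (a * b⁻¹) = a * (b⁻¹ * a) * b⁻¹ := by group
            _ = a * a * (b⁻¹ * b⁻¹) := by rw [h5]; group
            _ = 1 := by rw [h1]; group
        have h6 := Q.inv (a * b⁻¹) (b * b) (by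
          rw [orderOf_eq_prime_iff]; exact ⟨by rw [pow_two]; exact h4, h3⟩) (by
          rw [orderOf_eq_prime_iff]
          exact ⟨by rw [pow_two]; exact hb4, hb⟩)
        have h7 : a = b * b * b := by rw [← h6]; group
        have h8 : b * b * b = b⁻¹ := by
          rw [eq_inv_iff_mul_eq_one, ← hb4]; group
        rw [h7, h8]
    -- a is central in R: contradiction
    have h3 : ∀ r ∈ R, r * a = a * r := by
      intro r hr
      rcases h2 with h2 | h2
      · rw [h2]; exact hbR r hr
      · rw [h2]
        have := hbR r hr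
        rw [eq_inv_mul_iff_mul_eq, ← mul_assoc, ← this, mul_inv_cancel_right]
    have h4 := h3 _ (e.symm (QuaternionGroup.xa 0)).2
    rw [← hae] at h4
    have h5 : e.symm (QuaternionGroup.xa 0) * e.symm (QuaternionGroup.a 1) = e.symm (QuaternionGroup.a 1) * e.symm (QuaternionGroup.xa 0) := Subtype.ext h4
    rw [← map_mul, ← map_mul] at h5
    have h6 := e.symm.injective h5
    revert h6; decide
  · intro i hi hii
    by_contra hcon
    push Not at hcon
    -- the subgroup A ⟨i⟩ is normal abelian
    have hzn : (Subgroup.zpowers i).Normal := by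
      constructor
      intro x hx g
      obtain ⟨k, rfl⟩ := Subgroup.mem_zpowers_iff.1 hx
      rw [← conj_zpow]
      apply Subgroup.zpow_mem
      by_cases h : g * i * g⁻¹ = i
      · rw [h]; exact Subgroup.mem_zpowers i
      · rw [hcon g h]; exact Subgroup.inv_mem _ (Subgroup.mem_zpowers i)
    have hiA : ∀ a ∈ A, i * a = a * i := by
      intro a ha
      have := hRC hi
      rw [Subgroup.mem_centralizer_iff] at this
      exact (this a ha).symm
    have h1 : A ⊔ Subgroup.zpowers i = A := by
      apply M.max _ inferInstance _ le_sup_left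
      have h2 : A ⊔ Subgroup.zpowers i ≤ Subgroup.centralizer ((A ⊔ Subgroup.zpowers i : Subgroup G) : Set G) := by
        rw [Subgroup.le_centralizer_iff_isMulCommutative]
        rw [← Subgroup.le_centralizer_iff_isMulCommutative, sup_le_iff]
        constructor
        · rw [Subgroup.le_centralizer_iff, sup_le_iff]
          refine ⟨hAC, ?_⟩
          rw [Subgroup.zpowers_le, Subgroup.mem_centralizer_iff]
          intro a ha
          exact (hiA a ha).symm
        · rw [Subgroup.zpowers_le, Subgroup.mem_centralizer_iff]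
          intro x hx
          have : A ⊔ Subgroup.zpowers i ≤ Subgroup.centralizer ({i} : Set G) := by
            apply sup_le
            · intro a ha
              rw [Subgroup.mem_centralizer_singleton_iff]
              exact (hiA a ha).symm
            · rw [Subgroup.zpowers_le, Subgroup.mem_centralizer_singleton_iff]
          have := this hx
          rw [Subgroup.mem_centralizer_singleton_iff] at this
          exact this
      intro a ha b hb
      have := h2 hb
      rw [Subgroup.mem_centralizer_iff] at this
      exact this a ha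
    have h2 : i ∈ A := by rw [← h1]; exact Subgroup.mem_sup_right (Subgroup.mem_zpowers i)
    -- i is central in R
    obtain ⟨v, hv⟩ := q8_conj (e ⟨i, hi⟩) (by
      rw [← map_mul]
      intro h
      rw [map_eq_one_iff e e.injective] at h
      exact hii (congrArg Subtype.val h))
    obtain ⟨w, rfl⟩ := e.surjective v
    rw [← map_mul, ← map_inv, ← map_mul, ← map_inv] at hv
    have h3 := congrArg Subtype.val (e.injective hv)
    simp only [Subgroup.coe_mul, InvMemClass.coe_inv] at h3
    have h4 := hAR h2
    rw [Subgroup.mem_centralizer_iff] at h4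
    rw [h4 w w.2, mul_inv_cancel_right] at h3
    apply hii
    nth_rewrite 1 [h3]
    exact inv_mul_cancel i

end Cfsg.Agent.H21.RG
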