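import Cfsg.Agent.H21.RG5

set_option autoImplicit false
set_option linter.all false

/-!
Regular linear groups over the prime field, part 6 (helper21): numbers.
-/

universe u v w

namespace Cfsg.Agent.H21.RG

theorem five_pow (m : ℕ) (hm : 3 ≤ m) : 24 * m < 5 ^ m + 1 := by
  induction m, hm using Nat.le_induction with
  | base => norm_num
  | succ n hn ih => rw [pow_succ]; omega

theorem numerics {q m e gd da cA g : ℕ} (hq : q.Prime) (hq2 : q ≠ 2) (hq3 : q ≠ 3) (hm : m ≠ 0) (he : 2 ≤ e)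
    (h1 : g + 1 = (q ^ m) ^ e) (h2 : g = cA * da * gd) (h3 : gd ∣ m) (h4 : 4 ∣ da) (h5 : da ≤ 24)
    (h6 : cA ∣ q ^ m - 1) (h7 : gd = 1 → 12 ∣ da) :
    m = 1 ∧ e = 2 ∧ gd = 1 ∧ (q + 1) ∣ da ∧ (q = 5 ∨ q = 7 ∨ q = 11 ∨ q = 23) := by
  have hq5 : 5 ≤ q := by
    have h := hq.two_le
    by_contra hcon
    have h' : q = 4 := by omega
    rw [h'] at hq
    exact absurd hq (by norm_num)
  have hQ5 : 5 ^ m ≤ q ^ m := Nat.pow_le_pow_left hq5 m
  have hgdm : gd ≤ m := Nat.le_of_dvd (Nat.pos_of_ne_zero hm) h3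
  obtain ⟨a', ha'⟩ := h6
  set Q := q ^ m with hQ
  have hQ1 : 5 ≤ Q := by
    calc 5 = 5 ^ 1 := by norm_num
      _ ≤ 5 ^ m := Nat.pow_le_pow_right (by norm_num) (Nat.pos_of_ne_zero hm)
      _ ≤ Q := hQ5
  have hgeom : (∑ i ∈ Finset.range e, Q ^ i) * (Q - 1) = Q ^ e - 1 := by
    rw [Nat.geomSum_eq (by omega) e]
    exact Nat.div_mul_cancel (Nat.sub_one_dvd_pow_sub_one Q e)
  set S := ∑ i ∈ Finset.range e, Q ^ i with hS
  have hcA : 0 < cA := by
    rcases Nat.eq_zero_or_pos cA with h | h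
    · rw [h] at ha'; omega
    · exact h
  have hSa : S * a' = da * gd := by
    have h8 : S * (cA * a') = cA * da * gd := by
      rw [← ha', hgeom, ← h2]; omega
    have h9 : cA * (S * a') = cA * (da * gd) := by rw [← mul_assoc cA da gd, ← h8]; ring
    exact Nat.eq_of_mul_eq_mul_left hcA h9
  have ha'0 : 0 < a' := by
    rcases Nat.eq_zero_or_pos a' with h | h
    · rw [h] at ha'; omega
    · exact h
  have hSle : S ≤ 24 * m := by
    calc S ≤ S * a' := Nat.le_mul_of_pos_right _ ha'0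
      _ = da * gd := hSa
      _ ≤ 24 * m := Nat.mul_le_mul h5 hgdm
  have hS2 : Q + 1 ≤ S := by
    have h8 : ∑ i ∈ Finset.range 2, Q ^ i ≤ S := Finset.sum_le_sum_of_subset (Finset.range_mono he)
    rw [Finset.sum_range_succ, Finset.sum_range_one] at h8
    simp only [pow_zero, pow_one] at h8
    omega
  have hS3 : 3 ≤ e → 1 + Q + Q ^ 2 ≤ S := by
    intro he3
    have h8 : ∑ i ∈ Finset.range 3, Q ^ i ≤ S := Finset.sum_le_sum_of_subset (Finset.range_mono he3)
    rw [Finset.sum_range_succ, Finset.sum_range_succ, Finset.sum_range_one] at h8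
    simp only [pow_zero, pow_one] at h8
    omega
  have hm2 : m ≤ 2 := by
    by_contra hcon
    have := five_pow m (by omega)
    omega
  have he2 : e = 2 := by
    by_contra hcon
    have h8 := hS3 (by omega)
    have h9 : 25 ≤ Q ^ 2 := by nlinarith
    have h10 : m = 2 ∨ m = 1 := by omega
    rcases h10 with h10 | h10
    · rw [h10] at hQ
      have : 25 ≤ Q := by rw [hQ]; nlinarith
      nlinarith
    · rw [h10] at hSle; omega
  have hSe : S = Q + 1 := by
    rw [hS, he2, Finset.sum_range_succ, Finset.sum_range_one, pow_zero, pow_one]; ring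
  have hm1 : m = 1 := by
    by_contra hcon
    have hm2' : m = 2 := by omega
    rw [hm2'] at hQ hSle hgdm
    have hq5' : q = 5 := by
      have : q ≤ 6 := by nlinarith
      have h8 : q ≠ 6 := by rintro rfl; exact absurd hq (by norm_num)
      omega
    rw [hq5'] at hQ
    have hQ' : Q = 25 := by rw [hQ]; norm_num
    rw [hSe, hQ'] at hSa
    obtain ⟨k, rfl⟩ := h4
    have hgd : gd = 0 ∨ gd = 1 ∨ gd = 2 := by omega
    rcases hgd with h | h | h <;> rw [h] at hSa <;> omega
  subst hm1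
  have hgd1 : gd = 1 := Nat.dvd_one.1 h3
  have h12 := h7 hgd1
  rw [pow_one] at hQ
  rw [hSe, hQ, hgd1, mul_one] at hSa
  have hd : (q + 1) ∣ da := ⟨a', hSa.symm⟩
  refine ⟨rfl, he2, hgd1, hd, ?_⟩
  have hda : da ≠ 0 := by
    intro h
    rw [h] at hSa
    rcases Nat.mul_eq_zero.1 hSa with h' | h' <;> omega
  have hda2 : da = 12 ∨ da = 24 := by
    obtain ⟨k, rfl⟩ := h12; omega
  have hqle : q ≤ 23 := by
    have := Nat.le_of_dvd (Nat.pos_of_ne_zero hda) hd
    omega
  rcases hda2 with h | h <;> rw [h] at hd <;> interval_cases q <;> first | omega | (exfalso; revert hq; norm_num)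

end Cfsg.Agent.H21.RG
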