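import Cfsg.Agent.H21.RG6

set_option autoImplicit false
set_option linter.all false

/-!
Regular linear groups over the prime field, part 7 (helper21): solvable regular groups.
-/

universe u v w

namespace Cfsg.Agent.H21.RG

section exc
variable {G : Type u} [Group G] [Finite G] {A R : Subgroup G} {e : R ≃* Q8}

/-- the action of the centralizer of `A` on the quaternion group -/
def imD (A : Subgroup G) {R : Subgroup G} [R.Normal] (e : R ≃* Q8) : Subgroup (MulAut Q8) :=
  ((psi R e).comp (Subgroup.centralizer (A : Set G)).subtype).range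

theorem Exc.A_le (E : Exc A R e) : A ≤ Subgroup.centralizer (A : Set G) := by
  intro a ha
  rw [Subgroup.mem_centralizer_iff]
  intro b hb
  exact E.M.cA b hb a ha

theorem Exc.card_D [R.Normal] (E : Exc A R e) :
    Nat.card (Subgroup.centralizer (A : Set G)) = Nat.card A * Nat.card (imD A e) := by
  have h1 := Subgroup.card_mul_index ((psi R e).comp (Subgroup.centralizer (A : Set G)).subtype).ker
  rw [Subgroup.index_ker] at h1
  rw [← h1]
  unfold imD
  congr 1
  have h2 : ((psi R e).comp (Subgroup.centralizer (A : Set G)).subtype).ker = A.subgroupOf (Subgroup.centralizer (A : Set G)) := by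
    ext ⟨x, hx⟩
    rw [MonoidHom.mem_ker, MonoidHom.comp_apply, Subgroup.subtype_apply, psi_eq_one, Subgroup.mem_subgroupOf]
    constructor
    · intro h
      have : x ∈ Subgroup.centralizer (A : Set G) ⊓ Subgroup.centralizer (R : Set G) := ⟨hx, h⟩
      rw [E.inter] at this
      exact this
    · intro h
      have h' : x ∈ A := h
      rw [← E.inter] at h'
      exact (Subgroup.mem_inf.1 h').2
  rw [h2]
  exact Nat.card_congr (Subgroup.subgroupOfEquivOfLe E.A_le).toEquiv

theorem imD_le [R.Normal] (A : Subgroup G) (e : R ≃* Q8) : Nat.card (imD A e) ≤ 24 :=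
  (Nat.card_le_card_of_injective _ (Subtype.val_injective)).trans card_mulAut_le

theorem Exc.four_dvd [R.Normal] (E : Exc A R e) : 4 ∣ Nat.card (imD A e) := by
  rw [← card_inn]
  apply Subgroup.card_dvd_of_le
  rintro _ ⟨u, rfl⟩
  exact ⟨⟨e.symm u, E.Rle (e.symm u).2⟩, psi_coe R e u⟩

theorem Exc.twelve [R.Normal] (E : Exc A R e) : 12 ∣ Nat.card (psi R e).range := by
  apply twelve_dvd
  · intro u
    exact ⟨(e.symm u : G), psi_coe R e u⟩
  · intro u hu
    obtain ⟨g, h1, h2⟩ := E.mv (e.symm u) (e.symm u).2 (by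
      intro h
      have h3 : e.symm u * e.symm u = 1 := Subtype.ext h
      rw [← map_mul, map_eq_one_iff _ e.symm.injective] at h3
      exact hu h3)
    refine ⟨psi R e g, ⟨g, rfl⟩, ?_, ?_⟩
    · intro h
      apply h1
      have h3 := psi_apply R e g (e.symm u)
      rw [MulEquiv.apply_symm_apply, h] at h3
      have h4 := congrArg e.symm h3
      rw [MulEquiv.symm_apply_apply] at h4
      exact (congrArg Subtype.val h4).symm
    · intro h
      apply h2
      have h3 := psi_apply R e g (e.symm u)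
      rw [MulEquiv.apply_symm_apply, h] at h3
      have h4 := congrArg e.symm h3
      rw [MulEquiv.symm_apply_apply, map_inv] at h4
      exact (congrArg Subtype.val h4).symm

theorem Exc.twelve_G [R.Normal] (E : Exc A R e) : 12 ∣ Nat.card G :=
  E.twelve.trans (Subgroup.card_range_dvd _)

theorem imD_eq [R.Normal] (e : R ≃* Q8) (h : Subgroup.centralizer (A : Set G) = ⊤) : imD A e = (psi R e).range := by
  unfold imD
  rw [MonoidHom.range_comp, h, Subgroup.range_subtype, ← MonoidHom.range_eq_map]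

end exc

section reg
variable {q : ℕ} [hq : Fact q.Prime] {V : Type v} [AddCommGroup V] [Module (ZMod q) V] [Finite V] [Nontrivial V]
  {G : Type u} [Group G] [Finite G]
  {ρ : G →* Module.End (ZMod q) V} (R : RegAct ρ)

include R in
theorem qc : QC G := by
  obtain ⟨B, i1, i2, i3, σ, D⟩ := ZF.zd_of_VF (ZF.exists_VF_of_module (G := G) ρ (fun g hg v hv => by
    by_contra h
    exact hg (R.free v h g hv)))
  exact ⟨fun p _ P hP => D.pgroup P hP, fun z z' h1 h2 => D.inv_unique h1 h2⟩

include R in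
theorem q_not_dvd : ¬ q ∣ Nat.card G := by
  intro h
  have h1 := card_add_one R
  have h2 : q ∣ Nat.card V := by
    have h3 : Nat.card V = q ^ Module.finrank (ZMod q) V := by
      rw [Module.natCard_eq_pow_finrank (K := ZMod q), Nat.card_zmod]
    rw [h3]
    exact dvd_pow_self _ Module.finrank_pos.ne'
  rw [← h1] at h2
  have := (Nat.dvd_add_right h).1 h2
  exact hq.out.one_lt.ne' (Nat.dvd_one.1 this)

variable {A : Subgroup G} {m : ℕ} {ι : GaloisField q m →+* Module.End (ZMod q) V} (K : Fld ρ A m ι)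

include R K in
/-- if `A` is self-centralizing then `V` is one-dimensional -/
theorem one_dim_of_self (hA : Subgroup.centralizer (A : Set G) = A) {e : ℕ} (he : e ≠ 0) (hV : Nat.card V = (q ^ m) ^ e) : e = 1 := by
  obtain ⟨Φ, hΦ⟩ := K.exists_gal
  have hinj : ∀ g h, ρ g = ρ h → g = h := fun g h => inj R
  have hker : Φ.ker = A := by
    ext g
    rw [MonoidHom.mem_ker, K.gal_eq_one hΦ hinj]
    constructor
    · intro h
      rw [← hA, Subgroup.mem_centralizer_iff]
      intro a ha
      exact (h a ha).symm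
    · intro h a ha
      exact K.cA g h a ha
  have h1 := Subgroup.card_mul_index Φ.ker
  rw [Subgroup.index_ker, hker] at h1
  have h2 := Nat.le_of_dvd (Nat.pos_of_ne_zero K.hm) (K.card_gal (Φ := Φ))
  have h3 := card_add_one R
  have hq2 := hq.out.two_le
  have hqm : m < q ^ m := Nat.lt_pow_self hq.out.one_lt
  have h4 : Nat.card A ≤ q ^ m - 1 := Nat.le_of_dvd (by have := K.hm; omega) (K.card_A hinj)
  by_contra hcon
  have he2 : 2 ≤ e := by omega
  have h5 : (q ^ m) ^ 2 ≤ (q ^ m) ^ e := Nat.pow_le_pow_right (by omega) he2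
  rw [← hV, ← h3, ← h1] at h5
  have h6 : Nat.card A * Nat.card Φ.range ≤ (q ^ m - 1) * m := Nat.mul_le_mul h4 h2
  have h7 : (q ^ m - 1) * m ≤ (q ^ m - 1) * (q ^ m) := Nat.mul_le_mul le_rfl hqm.le
  have h8 : (q ^ m - 1) * (q ^ m) + q ^ m = (q ^ m) ^ 2 := by
    have : q ^ m - 1 + 1 = q ^ m := by omega
    calc (q ^ m - 1) * (q ^ m) + q ^ m = (q ^ m - 1 + 1) * (q ^ m) := by ring
      _ = _ := by rw [this, pow_two]
  have h9 := K.hm
  omega

include K in
omit [Finite V] in
theorem comm_of_one_dim (h1 : ∀ v : V, v ≠ 0 → ∀ w, ∃ y, ι y v = w) (hinj : ∀ g h, ρ g = ρ h → g = h)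
    {x y : G} (hx : x ∈ Subgroup.centralizer (A : Set G)) (hy : y ∈ Subgroup.centralizer (A : Set G)) : x * y = y * x := by
  obtain ⟨v0, hv0⟩ := exists_ne (0 : V)
  have key : ∀ x ∈ Subgroup.centralizer (A : Set G), ∃ t, ρ x = ι t := by
    intro x hx
    obtain ⟨t, ht⟩ := h1 v0 hv0 (ρ x v0)
    refine ⟨t, ?_⟩
    ext w
    obtain ⟨s, rfl⟩ := h1 v0 hv0 w
    have h2 := K.comm_of_comm (x := ρ x) (fun a ha => by
      rw [Subgroup.mem_centralizer_iff] at hx
      rw [← map_mul, ← map_mul, hx a ha]) s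
    rw [← Module.End.mul_apply, h2, Module.End.mul_apply, ← ht, ← Module.End.mul_apply, ← map_mul, mul_comm, map_mul, Module.End.mul_apply]
  obtain ⟨t, ht⟩ := key x hx
  obtain ⟨s, hs⟩ := key y hy
  apply hinj
  rw [map_mul, map_mul, ht, hs, ← map_mul, ← map_mul, mul_comm]

include R K in
omit [Finite G] in
/-- the semilinear action -/
theorem semilinear (h1 : ∀ v : V, v ≠ 0 → ∀ w, ∃ y, ι y v = w)
    {Φ : G →* (GaloisField q m ≃ₐ[ZMod q] GaloisField q m)} (hΦ : ∀ g y, ι (Φ g y) = ρ g * ι y * ρ g⁻¹) :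
    ∃ (F : Type) (_ : Field F) (_ : Fintype F) (e : V ≃+ F),
        ∀ g : G, ∃ (a : F) (σ : F ≃+* F), ∀ v : V, e (ρ g v) = a * σ (e v) := by
  obtain ⟨v0, hv0⟩ := exists_ne (0 : V)
  have hιi : Function.Injective ι := Fld.ι_inj
  let f : GaloisField q m →+ V := { toFun := fun y => ι y v0, map_zero' := by simp, map_add' := fun x y => by simp }
  have hf : Function.Bijective f := by
    constructor
    · rw [injective_iff_map_eq_zero]
      intro y hy
      by_contra hy0
      have h2 : ι (y⁻¹ * y) v0 = 0 := by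
        rw [map_mul, Module.End.mul_apply]
        have : ι y v0 = 0 := hy
        rw [this, map_zero]
      rw [inv_mul_cancel₀ hy0, map_one] at h2
      exact hv0 h2
    · intro w
      exact h1 v0 hv0 w
  refine ⟨GaloisField q m, inferInstance, Fintype.ofFinite _, (AddEquiv.ofBijective f hf).symm, fun g => ?_⟩
  obtain ⟨a, ha⟩ := h1 v0 hv0 (ρ g v0)
  refine ⟨a, (Φ g).toRingEquiv, fun v => ?_⟩
  rw [AddEquiv.symm_apply_eq]
  obtain ⟨y, rfl⟩ := hf.2 v
  have h2 : (AddEquiv.ofBijective f hf).symm (f y) = y := (AddEquiv.ofBijective f hf).symm_apply_apply y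
  rw [h2]
  show ρ g (ι y v0) = ι (a * Φ g y) v0
  rw [mul_comm, map_mul, Module.End.mul_apply, ha, hΦ, Module.End.mul_apply, inv_apply, Module.End.mul_apply]

end reg

end Cfsg.Agent.H21.RG
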