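import Cfsg.Agent.H21.RG7

set_option autoImplicit false
set_option linter.all false

/-!
Regular linear groups over the prime field, part 8 (helper21): solvable regular groups, main theorem.
-/

universe u v w

namespace Cfsg.Agent.H21.RG

variable {q : ℕ} [hq : Fact q.Prime] {V : Type v} [AddCommGroup V] [Module (ZMod q) V] [Finite V] [Nontrivial V]
  {G : Type u} [Group G] [Finite G]
  {ρ : G →* Module.End (ZMod q) V} (R : RegAct ρ)

variable {A : Subgroup G} {m : ℕ} {ι : GaloisField q m →+* Module.End (ZMod q) V} (K : Fld ρ A m ι)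

include R K in
theorem solv_main (hs : Group.IsSolvable G) (M : MaxAb A) :
    (Subgroup.centralizer (A : Set G) = A ∧ ∀ v : V, v ≠ 0 → ∀ w, ∃ y, ι y v = w) ∨
    (∃ (Rq : Subgroup G) (_ : Rq.Normal) (e : Rq ≃* Q8), Exc A Rq e ∧ m = 1 ∧ Nat.card V = q ^ 2 ∧
      Subgroup.centralizer (A : Set G) = ⊤ ∧ (q + 1) ∣ Nat.card (psi Rq e).range ∧ 12 ∣ Nat.card (psi Rq e).range ∧
      Nat.card (psi Rq e).range ≤ 24 ∧
      (q = 5 ∨ q = 7 ∨ q = 11 ∨ q = 23) ∧ Nat.card G = Nat.card A * Nat.card (psi Rq e).range ∧ Nat.card A ∣ q - 1) := by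
  have hinj : ∀ g h, ρ g = ρ h → g = h := fun g h => inj R
  obtain ⟨e, he, hV, he1⟩ := K.card_V
  by_cases hA : Subgroup.centralizer (A : Set G) = A
  · left
    exact ⟨hA, he1 (one_dim_of_self R K hA he hV)⟩
  · right
    obtain ⟨Rq, eq, E⟩ := exists_exc hs (qc R) M hA
    haveI := E.nR
    refine ⟨Rq, E.nR, eq, E, ?_⟩
    obtain ⟨Φ, hΦ⟩ := K.exists_gal
    have hker : Φ.ker = Subgroup.centralizer (A : Set G) := by
      ext g
      rw [MonoidHom.mem_ker, K.gal_eq_one hΦ hinj, Subgroup.mem_centralizer_iff]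
      constructor
      · intro h a ha; exact (h a ha).symm
      · intro h a ha; exact (h a ha).symm
    have h1 := Subgroup.card_mul_index Φ.ker
    rw [Subgroup.index_ker, hker, E.card_D] at h1
    have h12 := E.twelve_G
    have hqd := q_not_dvd R
    have hq2 : q ≠ 2 := by
      rintro rfl
      exact hqd ((by norm_num : 2 ∣ 12).trans h12)
    have hq3 : q ≠ 3 := by
      rintro rfl
      exact hqd ((by norm_num : 3 ∣ 12).trans h12)
    have he2 : 2 ≤ e := by
      by_contra hcon
      have he1' : e = 1 := by omega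
      have hc := fun x hx y hy => comm_of_one_dim K (he1 he1') hinj (x := x) (y := y) hx hy
      -- R is nonabelian
      have h3 := hc _ (E.Rle (eq.symm (QuaternionGroup.a 1)).2) _ (E.Rle (eq.symm (QuaternionGroup.xa 0)).2)
      have h5 : eq.symm (QuaternionGroup.a 1) * eq.symm (QuaternionGroup.xa 0) = eq.symm (QuaternionGroup.xa 0) * eq.symm (QuaternionGroup.a 1) := Subtype.ext h3
      rw [← map_mul, ← map_mul] at h5
      have h6 := eq.symm.injective h5
      revert h6; decide
    have hcard := card_add_one R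
    have hgd : Nat.card Φ.range = 1 → Subgroup.centralizer (A : Set G) = ⊤ := by
      intro h
      rw [← hker, ← Subgroup.index_eq_one, Subgroup.index_ker]
      exact h
    obtain ⟨k1, k2, k3, k4, k5⟩ := numerics (q := q) (m := m) (e := e) (gd := Nat.card Φ.range) (da := Nat.card (imD A eq))
      (cA := Nat.card A) (g := Nat.card G) hq.out hq2 hq3 K.hm he2 (by rw [hcard, hV]) h1.symm K.card_gal E.four_dvd (imD_le A eq)
      (K.card_A hinj) (by
        intro h
        rw [imD_eq eq (hgd h)]
        exact E.twelve)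
    have hD := hgd k3
    rw [imD_eq eq hD] at k4 h1
    refine ⟨k1, ?_, hD, k4, E.twelve, ?_, k5, ?_, ?_⟩
    · rw [hV, k1, k2, pow_one]
    · rw [← imD_eq eq hD]; exact imD_le A eq
    · rw [← h1, k3, mul_one]
    · have := K.card_A hinj
      rwa [k1, pow_one] at this

end Cfsg.Agent.H21.RG
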