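import Cfsg.Agent.H21.RG8

set_option autoImplicit false
set_option linter.all false

/-!
Regular linear groups over the prime field, part 9 (helper21): index two subgroups, the rows S0688 and S3361.
-/

universe u v w

namespace Cfsg.Agent.H21.RG

section idx
variable {G : Type u} [Group G] [Finite G]

theorem idx_two_of_surj {C : Type v} [Group C] [Finite C] (hC : IsCyclic C) (h2 : 2 ∣ Nat.card C) (f : G →* C)
    (hf : Function.Surjective f) : ∃ N : Subgroup G, N.Normal ∧ N.index = 2 := by
  letI : CommGroup C := IsCyclic.commGroup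
  refine ⟨((powMonoidHom 2 : C →* C).range).comap f, inferInstance, ?_⟩
  rw [Subgroup.index_comap_of_surjective _ hf, IsCyclic.index_powMonoidHom_range]
  exact Nat.gcd_eq_right h2

theorem idx_two_of_sylow (h2 : 2 ∣ Nat.card G) (P : Sylow 2 G) (hP : IsCyclic P) : ∃ N : Subgroup G, N.Normal ∧ N.index = 2 := by
  have hmin : (Nat.card G).minFac = 2 := (Nat.minFac_eq_two_iff _).2 h2
  have hc := hP.isComplement' hmin
  set f := MonoidHom.transferSylow P (hP.normalizer_le_centralizer hmin) with hf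
  have h1 : f.ker.index = Nat.card P := hc.symm.index_eq_card
  have h3 : f.range = ⊤ := by
    apply Subgroup.eq_top_of_card_eq
    rw [← Subgroup.index_ker, h1]
  have h4 : 2 ∣ Nat.card P := by
    have := P.dvd_card_of_dvd_card h2
    exact this
  exact idx_two_of_surj hP h4 f (MonoidHom.range_eq_top.1 h3)

theorem cyc_of_comm (Q : QC G) {p : ℕ} [Fact p.Prime] (P : Subgroup G) (hP : IsPGroup p P) (hc : ∀ a ∈ P, ∀ b ∈ P, a * b = b * a) : IsCyclic P := by
  rcases Q.pg p P hP with h | ⟨-, n, hn, ⟨e⟩⟩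
  · exact h
  · exfalso
    have h1 := hc _ (e.symm (QuaternionGroup.a 1)).2 _ (e.symm (QuaternionGroup.xa 0)).2
    have h5 : e.symm (QuaternionGroup.a 1) * e.symm (QuaternionGroup.xa 0) = e.symm (QuaternionGroup.xa 0) * e.symm (QuaternionGroup.a 1) := Subtype.ext h1
    rw [← map_mul, ← map_mul] at h5
    have h6 := e.symm.injective h5
    simp only [QuaternionGroup.a_mul_xa, QuaternionGroup.xa_mul_a] at h6
    have h3 : (0 : ZMod (2 * 2 ^ n)) - 1 = 0 + 1 := by injection h6
    have h4 : ((2 : ℕ) : ZMod (2 * 2 ^ n)) = 0 := by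
      have : ((2 : ℕ) : ZMod (2 * 2 ^ n)) = (0 + 1) - (0 - 1) := by push_cast; ring
      rw [this, h3, sub_self]
    rw [ZMod.natCast_eq_zero_iff] at h4
    have h7 := Nat.le_of_dvd (by norm_num) h4
    have h8 : 2 ^ 1 ≤ 2 ^ n := Nat.pow_le_pow_right (by norm_num) hn
    omega

end idx

section reg

variable {q : ℕ} [hq : Fact q.Prime] {V : Type v} [AddCommGroup V] [Module (ZMod q) V] [Finite V] [Nontrivial V]
  {G : Type u} [Group G] [Finite G]
  {ρ : G →* Module.End (ZMod q) V} (R : RegAct ρ)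

include R in
theorem even_card (hq2 : q ≠ 2) : 2 ∣ Nat.card G := by
  have h1 := card_add_one R
  have h3 : Nat.card V = q ^ Module.finrank (ZMod q) V := by
    rw [Module.natCard_eq_pow_finrank (K := ZMod q), Nat.card_zmod]
  have h4 : Odd (Nat.card V) := by
    rw [h3]; exact (hq.out.odd_of_ne_two hq2).pow
  rw [← h1] at h4
  obtain ⟨k, hk⟩ := h4
  exact ⟨k, by omega⟩

variable {A : Subgroup G} {m : ℕ} {ι : GaloisField q m →+* Module.End (ZMod q) V} (K : Fld ρ A m ι)

include K in
theorem Fld.cyclic (hinj : ∀ g h, ρ g = ρ h → g = h) : IsCyclic A := by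
  choose y hy using fun a : A => K.exists_a a.2
  have hιi : Function.Injective ι := Fld.ι_inj
  let f : A →* GaloisField q m :=
    { toFun := y
      map_one' := hιi (by rw [hy, map_one, OneMemClass.coe_one, map_one])
      map_mul' := fun a b => hιi (by rw [hy, map_mul, hy, hy, Subgroup.coe_mul, map_mul]) }
  have hf : Function.Injective f.toHomUnits := by
    intro a b hab
    have h1 : y a = y b := congrArg Units.val hab
    apply Subtype.ext
    apply hinj
    rw [← hy, ← hy, h1]
  exact isCyclic_of_injective f.toHomUnits hf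

include K in
/-- the exceptional cases -/
theorem not_irr_of_one_dim (h1 : ∀ v : V, v ≠ 0 → ∀ w, ∃ y, ι y v = w) (W : Submodule (ZMod q) V) (hW : W ≠ ⊥)
    (hAW : ∀ a ∈ A, ∀ v ∈ W, ρ a v ∈ W) : W = ⊤ := by
  have h2 : ∀ x ∈ env ρ A, ∀ v ∈ W, x v ∈ W := by
    intro x hx
    induction hx using Algebra.adjoin_induction with
    | mem x hx =>
      obtain ⟨a, ha, rfl⟩ := hx
      exact hAW a ha
    | algebraMap r =>
      intro v hv
      rw [Module.algebraMap_end_apply]
      exact W.smul_mem r hv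
    | add x y _ _ hx hy =>
      intro v hv
      exact W.add_mem (hx v hv) (hy v hv)
    | mul x y _ _ hx hy =>
      intro v hv
      exact hx _ (hy v hv)
  obtain ⟨v, hv, hv0⟩ := Submodule.exists_mem_ne_zero_of_ne_bot hW
  rw [eq_top_iff]
  intro w _
  obtain ⟨y, rfl⟩ := h1 v hv0 w
  exact h2 _ ((K.mem _).2 ⟨y, rfl⟩) v hv

include R K in
theorem idx_two_self (hq2 : q ≠ 2) (hA : Subgroup.centralizer (A : Set G) = A) : ∃ N : Subgroup G, N.Normal ∧ N.index = 2 := by
  obtain ⟨Φ, hΦ⟩ := K.exists_gal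
  have hinj : ∀ g h, ρ g = ρ h → g = h := fun g h => inj R
  have hker : Φ.ker = A := by
    ext g
    rw [MonoidHom.mem_ker, K.gal_eq_one hΦ hinj]
    constructor
    · intro h
      rw [← hA, Subgroup.mem_centralizer_iff]
      intro a ha
      exact (h a ha).symm
    · intro h a ha
      exact K.cA g h a ha
  have h1 := Subgroup.card_mul_index Φ.ker
  rw [Subgroup.index_ker, hker] at h1
  by_cases h2 : 2 ∣ Nat.card Φ.range
  · exact idx_two_of_surj (inferInstance : IsCyclic Φ.range) h2 Φ.rangeRestrict Φ.rangeRestrict_surjective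
  · -- the Sylow 2-subgroup lies in A
    obtain ⟨P⟩ : Nonempty (Sylow 2 G) := inferInstance
    have hPA : (P : Subgroup G) ≤ A := by
      intro x hx
      rw [← hker, MonoidHom.mem_ker]
      obtain ⟨k, hk⟩ := P.2 ⟨x, hx⟩
      have hk' : x ^ 2 ^ k = 1 := congrArg Subtype.val hk
      have h3 : orderOf (Φ x) ∣ 2 ^ k := orderOf_dvd_of_pow_eq_one (by rw [← map_pow, hk', map_one])
      have h4 : orderOf (Φ x) ∣ Nat.card Φ.range := by
        have := orderOf_dvd_natCard (⟨Φ x, ⟨x, rfl⟩⟩ : Φ.range)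
        rwa [← Subgroup.orderOf_coe] at this
      have h5 : Nat.Coprime (2 ^ k) (Nat.card Φ.range) := Nat.Coprime.pow_left _ ((Nat.Prime.coprime_iff_not_dvd Nat.prime_two).2 h2)
      have h6 := Nat.eq_one_of_dvd_coprimes h5 h3 h4
      exact orderOf_eq_one_iff.1 h6
    exact idx_two_of_sylow (even_card R hq2) P (cyc_of_comm (qc R) _ P.2 (fun a ha b hb => K.cA a (hPA ha) b (hPA hb)))

end reg

end Cfsg.Agent.H21.RG
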