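import Cfsg.Agent.H21.ZFmain

set_option autoImplicit false
set_option linter.all false

/-!
Zassenhaus' theorem, part 13 (helper21): a faithful irreducible fixed-point-free representation.
-/

universe u v w

namespace Cfsg.Agent.H21.ZF

variable {G : Type u} [Group G] [Finite G]

theorem exists_irr_of_module (K : Type w) [Field K] {M : Type v} [AddCommGroup M] [Module K M] [Module.Finite K M] [Nontrivial M]
    (σ : G →* Module.End K M) (hσ : ∀ g : G, g ≠ 1 → ∀ v, σ g v = v → v = 0) :
    ∃ (n : ℕ) (ρ : G →* GL (Fin n) K), 0 < n ∧ Function.Injective ρ ∧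
      (∀ W : Submodule K (Fin n → K),
        (∀ g : G, ∀ w ∈ W, ((ρ g : GL (Fin n) K) : Matrix (Fin n) (Fin n) K).mulVec w ∈ W) → W = ⊥ ∨ W = ⊤) ∧
      ∀ g : G, g ≠ 1 → ∀ v : Fin n → K,
        ((ρ g : GL (Fin n) K) : Matrix (Fin n) (Fin n) K).mulVec v = v → v = 0 := by
  classical
  -- minimal invariant submodule
  obtain ⟨W, ⟨hW0, hWi⟩, hWm⟩ := exists_minimal_of_wellFoundedLT
    (fun W : Submodule K M => W ≠ ⊥ ∧ ∀ g : G, ∀ w ∈ W, σ g w ∈ W)
    ⟨⊤, by
      intro h
      exact bot_ne_top h.symm, fun g w _ => Submodule.mem_top⟩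
  let r : G →* Module.End K W :=
    { toFun := fun g => (σ g).restrict (hWi g)
      map_one' := by
        ext w
        simp [LinearMap.restrict_apply, map_one]
      map_mul' := by
        intro g h
        ext w
        simp [LinearMap.restrict_apply, map_mul] }
  have hr : ∀ g w, ((r g w : W) : M) = σ g w := fun g w => rfl
  let b := Module.finBasis K W
  let ρ : G →* GL (Fin (Module.finrank K W)) K := (((LinearMap.toMatrixAlgEquiv b).toAlgHom.toMonoidHom).comp r).toHomUnits
  have hρ : ∀ g (v : Fin (Module.finrank K W) → K), ((ρ g : GL (Fin (Module.finrank K W)) K) : Matrix _ _ K).mulVec v = b.equivFun (r g (b.equivFun.symm v)) := by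
    intro g v
    have h1 : ((ρ g : GL (Fin (Module.finrank K W)) K) : Matrix _ _ K) = LinearMap.toMatrix b b (r g) := rfl
    rw [h1]
    have h2 := LinearMap.toMatrix_mulVec_repr b b (r g) (b.equivFun.symm v)
    have h3 : (b.repr (b.equivFun.symm v) : Fin (Module.finrank K W) → K) = v := by
      rw [← b.equivFun_apply, LinearEquiv.apply_symm_apply]
    rw [h3] at h2
    rw [h2, b.equivFun_apply]
  have hfree : ∀ g : G, g ≠ 1 → ∀ v : Fin (Module.finrank K W) → K,
        ((ρ g : GL (Fin (Module.finrank K W)) K) : Matrix _ _ K).mulVec v = v → v = 0 := by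
    intro g hg v hv
    rw [hρ] at hv
    have h1 : r g (b.equivFun.symm v) = b.equivFun.symm v := by
      apply b.equivFun.injective
      rw [hv, LinearEquiv.apply_symm_apply]
    have h2 := congrArg (fun w : W => (w : M)) h1
    simp only [hr] at h2
    have h3 := hσ g hg _ h2
    have h4 : b.equivFun.symm v = 0 := Subtype.ext h3
    have := congrArg b.equivFun h4
    rwa [LinearEquiv.apply_symm_apply, map_zero] at this
  have hpos : 0 < Module.finrank K W := by
    haveI : Nontrivial W := Submodule.nontrivial_iff_ne_bot.2 hW0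
    exact Module.finrank_pos
  refine ⟨Module.finrank K W, ρ, hpos, ?_, ?_, hfree⟩
  · rw [injective_iff_map_eq_one]
    intro g hg
    by_contra h1
    have h2 := hfree g h1 (fun _ => 1) (by rw [hg, Units.val_one, Matrix.one_mulVec])
    have := congrFun h2 ⟨0, hpos⟩
    exact one_ne_zero this
  · intro U hU
    by_cases hU0 : U = ⊥
    · exact Or.inl hU0
    right
    -- pull back U to a submodule of M
    let U' : Submodule K M := (U.comap b.equivFun.toLinearMap).map W.subtype
    have hU'W : U' ≤ W := by
      rintro x ⟨y, _, rfl⟩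
      exact y.2
    have hU' : U' ≠ ⊥ ∧ ∀ g : G, ∀ w ∈ U', σ g w ∈ U' := by
      constructor
      · intro h
        apply hU0
        rw [Submodule.eq_bot_iff] at h ⊢
        intro u hu
        have h1 : (W.subtype (b.equivFun.symm u)) ∈ U' := by
          refine ⟨b.equivFun.symm u, ?_, rfl⟩
          show b.equivFun (b.equivFun.symm u) ∈ U
          rw [LinearEquiv.apply_symm_apply]; exact hu
        have h2 := h _ h1
        have h3 : b.equivFun.symm u = 0 := Subtype.ext h2
        have := congrArg b.equivFun h3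
        rwa [LinearEquiv.apply_symm_apply, map_zero] at this
      · rintro g _ ⟨y, hy, rfl⟩
        refine ⟨r g y, ?_, rfl⟩
        show b.equivFun (r g y) ∈ U
        have h1 := hU g (b.equivFun y) hy
        rw [hρ, LinearEquiv.symm_apply_apply] at h1
        exact h1
    have h1 := hWm hU' hU'W
    rw [eq_top_iff]
    intro u _
    have h2 : ((b.equivFun.symm u : W) : M) ∈ U' := h1 (b.equivFun.symm u).2
    obtain ⟨y, hy, hyu⟩ := h2
    have h3 : y = b.equivFun.symm u := Subtype.ext hyu
    have h4 : b.equivFun y ∈ U := hy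
    rw [h3, LinearEquiv.apply_symm_apply] at h4
    exact h4

theorem exists_irr (K : Type w) [Field K] [CharZero K] (hf : ∃ f : VF ℚ G, f ≠ 0) :
    ∃ (n : ℕ) (ρ : G →* GL (Fin n) K), 0 < n ∧ Function.Injective ρ ∧
      (∀ W : Submodule K (Fin n → K),
        (∀ g : G, ∀ w ∈ W, ((ρ g : GL (Fin n) K) : Matrix (Fin n) (Fin n) K).mulVec w ∈ W) → W = ⊥ ∨ W = ⊤) ∧
      ∀ g : G, g ≠ 1 → ∀ v : Fin n → K,
        ((ρ g : GL (Fin n) K) : Matrix (Fin n) (Fin n) K).mulVec v = v → v = 0 := by
  classical
  obtain ⟨f, hf0⟩ := hf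
  -- a nonzero vector over K
  let fK : VF K G := ⟨fun s => (((f : G → ℚ) s : ℚ) : K), by
    intro a b g hg
    have := f.2 a b g hg
    rw [← Rat.cast_sum]
    exact_mod_cast this⟩
  have hfK : fK ≠ 0 := by
    intro h
    apply hf0
    apply Subtype.ext
    funext s
    have := congrArg (fun v : VF K G => (v : G → K) s) h
    have h2 : (((f : G → ℚ) s : ℚ) : K) = 0 := this
    exact_mod_cast h2
  haveI : Module.Finite K (VF K G) := by
    haveI : Module.Finite K (G → K) := by
      haveI := Fintype.ofFinite G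
      infer_instance
    infer_instance
  haveI : Nontrivial (VF K G) := ⟨fK, 0, hfK⟩
  exact exists_irr_of_module K (rho K) (fun g hg v hv => rho_free K g hg v hv)

end Cfsg.Agent.H21.ZF
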